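import Cfsg.Agent.Lib.ElusQ.OddMain
import Cfsg.Agent.Lib.Elusive.OmegaMem

/-!
# Bridge between matrix statements and the abstract analysis
-/

set_option autoImplicit false
set_option linter.unusedSectionVars false
set_option linter.style.haveILetI false
set_option linter.unusedVariables false
set_option linter.unusedSimpArgs false

open Polynomial Module QuadraticMap Matrix

universe u v w

namespace Cfsg.Agent.Lib.ElusQ.Bridge

open Cfsg Cfsg.Agent.Lib.ElusL.Basic Cfsg.Agent.Lib.ElusF.Form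
  Cfsg.Agent.Lib.ElusQ.Disc Cfsg.Agent.Lib.ElusQ.Oz Cfsg.Agent.Lib.ElusQ.Syl Cfsg.Agent.Lib.ElusQ.OddMain
  Cfsg.Agent.Lib.Witt.Quadratic Cfsg.Agent.Lib.Elusive.OmegaMem Cfsg.Agent.Lib.Orth.Bridge

variable {F : Type u} [Field F] [Fintype F] {ι : Type} [Fintype ι] [DecidableEq ι] {r : ℕ}

theorem two_ne_zero_of_odd {p q : ℕ} [hp : Fact p.Prime] [CharP F p] (hq : Fintype.card F = q) (hodd : Odd q) :
    (2 : F) ≠ 0 := by
  intro h0
  obtain ⟨n, hn⟩ := FiniteField.card F p
  have hp2 : p = 2 := by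
    have h1 : ((2 : ℕ) : F) = 0 := by exact_mod_cast h0
    have h3 := (CharP.cast_eq_zero_iff F p 2).mp h1
    exact (Nat.prime_dvd_prime_iff_eq hp.out Nat.prime_two).mp h3
  have h3 : (n : ℕ) ≠ 0 := n.pos.ne'
  have h4 : Even q := by
    rw [← hq, hn.2, hp2]
    exact (Nat.even_pow.mpr ⟨even_two, h3⟩)
  exact (Nat.not_even_iff_odd.mpr hodd) h4

theorem isNondeg_iff (Q : QuadraticForm F (ι → F)) (W : Submodule F (ι → F)) :
    Cfsg.Geo.IsNondegenerateOn (QuadraticMap.polar ⇑Q) W ↔ Nd (fun u v => polarBilin Q u v) W := by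
  constructor
  · intro h u hu hh
    by_contra hne
    obtain ⟨-, x, hx, hx0⟩ := h u hu hne
    exact hx0 (hh x hx)
  · intro h w hw hne
    have hr : ∃ x ∈ W, polar (⇑Q) w x ≠ 0 := by
      by_contra hcon
      push Not at hcon
      exact hne (h w hw hcon)
    obtain ⟨x, hx, hx0⟩ := hr
    exact ⟨⟨x, hx, fun h3 => hx0 (by rw [polar_comm]; exact h3)⟩, ⟨x, hx, hx0⟩⟩

theorem plusType_iff (h2 : (2 : F) ≠ 0) (Q : QuadraticForm F (ι → F)) (W : Submodule F (ι → F)) :
    Cfsg.Geo.IsPlusTypeOn (⇑Q) W ↔ Hy (polarBilin Q) W := by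
  constructor
  · rintro ⟨U, hUW, hU, hd⟩
    refine ⟨U, hUW, ?_, hd⟩
    intro x hx y hy
    change polar (⇑Q) x y = 0
    unfold polar
    rw [hU x hx, hU y hy, hU (x + y) (U.add_mem hx hy)]
    simp
  · rintro ⟨X, hXW, hX, hd⟩
    refine ⟨X, hXW, ?_, hd⟩
    intro x hx
    have h3 := hX x hx x hx
    rw [Cfsg.Agent.Lib.ElusQ.Syl.polar_self'] at h3
    exact (mul_eq_zero.mp h3).resolve_left h2

theorem map_le_iff (X : Matrix ι ι F) (W : Submodule F (ι → F)) :
    W.map (Matrix.toLin' X) ≤ W ↔ Inv (Matrix.toLin' X) W := by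
  rw [Submodule.map_le_iff_le_comap]
  rfl

theorem toLin_pow (X : Matrix ι ι F) (k : ℕ) : (Matrix.toLin' X) ^ k = Matrix.toLin' (X ^ k) := by
  induction k with
  | zero =>
    simp
    rfl
  | succ k ih =>
    rw [pow_succ, ih, pow_succ, Matrix.toLin'_mul]
    rfl

theorem toMatrix_pow (T : End F (ι → F)) (k : ℕ) :
    (LinearMap.toMatrix' T) ^ k = LinearMap.toMatrix' (T ^ k) := by
  induction k with
  | zero =>
    simp only [pow_zero]
    exact LinearMap.toMatrix'_one.symm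
  | succ k ih =>
    rw [pow_succ, ih, pow_succ]
    exact (LinearMap.toMatrix'_mul _ _).symm

/-- Isometries of prime order in the sense of matrices. -/
theorem oz_of_mem (Q : QuadraticForm F (ι → F)) (hN : (polarBilin Q).Nondegenerate) {x : GL ι F}
    (hx : x ∈ isometryGroup F ⇑Q) (hr : x ^ r = 1) :
    Oz (polarBilin Q) (Matrix.toLin' (x : Matrix ι ι F)) r where
  symm := polar_symm Q
  nondeg := hN
  iso u v := polar_eq_of_preserves (Q := Q) (Matrix.toLin' (x : Matrix ι ι F))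
    (fun w => by
      rw [Matrix.toLin'_apply]
      exact (mem_isometryGroup_iff _ _).mp hx w) u v
  pow := by
    rw [toLin_pow, ← Units.val_pow_eq_pow_val, hr]
    simp
    rfl

/-- From an operator to a matrix in `Ω`. -/
theorem exists_gl_of_oz (Q : QuadraticForm F (ι → F)) (hN : (polarBilin Q).Nondegenerate) (h2 : (2 : F) ≠ 0)
    (hr : r.Prime) (hrO : Odd r) {T : End F (ι → F)} (hT : Oz (polarBilin Q) T r) (hT1 : T ≠ 1) :
    ∃ x : GL ι F, x ∈ Cfsg.Geo.omegaGL ⇑Q ∧ orderOf x = r ∧ Matrix.toLin' (x : Matrix ι ι F) = T := by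
  haveI : Fact r.Prime := ⟨hr⟩
  have hXr : (LinearMap.toMatrix' T) ^ r = 1 := by
    rw [toMatrix_pow, hT.pow]
    exact LinearMap.toMatrix'_one
  let x : GL ι F := glOfPow (LinearMap.toMatrix' T) r hr.pos hXr
  have hxT : Matrix.toLin' (x : Matrix ι ι F) = T := by
    change Matrix.toLin' (LinearMap.toMatrix' T) = T
    exact Matrix.toLin'_toMatrix' T
  have hxr : x ^ r = 1 := glOfPow_pow _ _ _ _
  have hxi : x ∈ isometryGroup F ⇑Q := by
    rw [mem_isometryGroup_iff]
    intro v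
    have h3 := hT.iso v v
    rw [Cfsg.Agent.Lib.ElusQ.Syl.polar_self', Cfsg.Agent.Lib.ElusQ.Syl.polar_self'] at h3
    have h4 := mul_left_cancel₀ h2 h3
    rw [← Matrix.toLin'_apply, hxT]
    exact h4
  have hcard : Fintype.card F ≠ 2 := by
    intro h3
    apply h2
    have : CharP F 2 := by
      obtain ⟨p, hp⟩ := CharP.exists F
      obtain ⟨n, hn⟩ := FiniteField.card F p
      rw [h3] at hn
      have := (Nat.prime_dvd_prime_iff_eq hn.1 Nat.prime_two).mp (by
        rw [hn.2]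
        exact dvd_pow_self _ n.pos.ne')
      rw [this] at hp
      exact hp
    exact CharTwo.two_eq_zero
  refine ⟨x, mem_omega_of_odd Q hN (Or.inl hcard) x hxi hrO hxr, orderOf_eq_prime hxr ?_, hxT⟩
  intro h1
  apply hT1
  rw [← hxT, h1]
  simp
  rfl

end Cfsg.Agent.Lib.ElusQ.Bridge
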