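import Cfsg.Agent.Lib.ElusQ.Disc
import Cfsg.Agent.Lib.Elusive.QuadCount
import Cfsg.Agent.Lib.Classical.OmegaForms
import Cfsg.Agent.Lib.BCSpec.Count

/-!
# Counting singular vectors of symmetric bilinear spaces over finite fields
-/

set_option autoImplicit false
set_option linter.unusedSectionVars false
set_option linter.style.haveILetI false
set_option linter.unusedVariables false
set_option linter.unusedSimpArgs false

open Module QuadraticMap

namespace Cfsg.Agent.Lib.ElusQ.Count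

open Cfsg.Agent.Lib.ElusF.Form Cfsg.Agent.Lib.QuadDisc.Basic Cfsg.Agent.Lib.QuadDisc.Classify
  Cfsg.Agent.Lib.ElusQ.Disc Cfsg.Agent.Lib.Elusive.QuadCount Cfsg.Agent.Lib.Orth.Forms

universe u v

variable {F : Type u} [Field F] [Fintype F] {q : ℕ} {Y : Type v} [AddCommGroup Y] [Module F Y]
  [FiniteDimensional F Y]

/-- Singular vectors in hyperbolic spaces. -/
theorem card_sing_plus (hq : Fintype.card F = q) (h2 : (2 : F) ≠ 0) (B : LinearMap.BilinForm F Y)
    (hN : B.Nondegenerate) (hS : B.IsSymm) {l : ℕ} (hdim : finrank F Y = 2 * l)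
    (hsq : IsSquare ((-1) ^ l * (LinearMap.BilinForm.toMatrix (finBasis F Y) B).det)) :
    Nat.card {v : Y // B v v = 0} = q ^ l + (q ^ l - 1) * q ^ (l - 1) := by
  classical
  have S := Cfsg.Agent.Lib.QuadFn.PlusForm.qspace F l
  have hdim₀ := Cfsg.Agent.Lib.QuadFn.PlusForm.finrank_total F l
  set P := Cfsg.Agent.Lib.QuadFn.PlusForm.polarPlus F l with hP
  have hS₀ : P.IsSymm := ⟨fun x y => S.symm x y⟩
  obtain ⟨u, hu, hu'⟩ := det_gram_change (Pi.basisFun F (Fin l ⊕ Fin l)) (finBasis F (Fin l ⊕ Fin l → F)) P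
  rw [gram_polarPlus, Cfsg.Agent.Lib.Orth.Gram.det_hyp] at hu'
  simp only [Fintype.card_fin] at hu'
  obtain ⟨g, hg⟩ := exists_isometry h2 P B S.nd hN hS₀ hS (by rw [hdim₀, hdim]) (by
    rw [hu']
    obtain ⟨r, hr⟩ := hsq
    refine ⟨u * r, ?_⟩
    linear_combination (u * u) * hr)
  have h0 := card_plus_eq hq l (0 : F)
  simp only [if_true] at h0
  rw [← h0]
  symm
  refine Nat.card_congr (g.toEquiv.subtypeEquiv ?_)
  intro w
  have h3 : B (g w) (g w) = P w w := hg w w
  have h4 : P w w = 2 * Cfsg.quadFormPlus l F w := by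
    simp only [hP, Cfsg.Agent.Lib.QuadFn.PlusForm.polarPlus_apply, Cfsg.quadFormPlus, Finset.mul_sum]
    exact Finset.sum_congr rfl fun _ _ => by ring
  change _ ↔ B (g w) (g w) = 0
  rw [h3, h4]
  exact ⟨fun h => by rw [h, mul_zero], fun h => (mul_eq_zero.mp h).resolve_left h2⟩

/-- Non-singular vectors in elliptic spaces. -/
theorem card_sing_minus (hq : Fintype.card F = q) (h2 : (2 : F) ≠ 0) (B : LinearMap.BilinForm F Y)
    (hN : B.Nondegenerate) (hS : B.IsSymm) {l : ℕ} (hl : 1 ≤ l) (hdim : finrank F Y = 2 * l)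
    (hsq : ¬ IsSquare ((-1) ^ l * (LinearMap.BilinForm.toMatrix (finBasis F Y) B).det)) :
    Nat.card {v : Y // B v v ≠ 0} = (q - 1) * (q ^ (l - 1) * (q ^ l + 1)) := by
  classical
  obtain ⟨k, rfl⟩ : ∃ k, l = k + 1 := ⟨l - 1, by omega⟩
  obtain ⟨ν, hν0, hν⟩ := exists_nonsquare (F := F) h2
  have hab : ∀ x y : F, x ^ 2 + 0 * x * y + (-ν) * y ^ 2 = 0 → x = 0 ∧ y = 0 := by
    intro x y h
    by_cases hy : y = 0
    · subst hy
      have : x ^ 2 = 0 := by simpa using h
      exact ⟨by simpa using this, rfl⟩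
    · exfalso
      apply hν
      refine ⟨x / y, ?_⟩
      field_simp
      linear_combination -h
  set Q₀ := minusForm k F 0 (-ν) with hQ₀
  have hN₀ : (polarBilin Q₀).Nondegenerate := minusForm_nondeg k hab
  have hS₀ : LinearMap.BilinForm.IsSymm (polarBilin Q₀) := ⟨fun x y => by
    simp only [polarBilin_apply_apply, RingHom.id_apply]
    exact polar_comm _ _ _⟩
  have hdim₀ : finrank F ((Fin k ⊕ Fin k) ⊕ Fin 2 → F) = 2 * (k + 1) := by
    rw [Module.finrank_fintype_fun_eq_card]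
    simp
    ring
  have hself : ∀ x, polarBilin Q₀ x x = 2 * Q₀ x := by
    intro x
    simp only [polarBilin_apply_apply, polar_self]
    simp
  have hsq₀ : ¬ IsSquare ((-1) ^ (k + 1) * (LinearMap.BilinForm.toMatrix
      (finBasis F ((Fin k ⊕ Fin k) ⊕ Fin 2 → F)) (polarBilin Q₀)).det) := by
    intro h
    obtain ⟨X, hXd, hX⟩ := exists_ti_of_disc h2 _ hN₀ hS₀ (k + 1) hdim₀ _ h
    apply Cfsg.Agent.Lib.Classical.OmegaForms.no_half_minus hab X
    · intro x hx
      have := hX x hx x hx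
      rw [hself] at this
      exact (mul_eq_zero.mp this).resolve_left h2
    · rw [hXd, hdim₀]
  have h1 := neg_one_pow_ne_zero (F := F) (k + 1)
  have hd₀ := (nondegenerate_iff_det (finBasis F ((Fin k ⊕ Fin k) ⊕ Fin 2 → F)) (polarBilin Q₀)).mp hN₀
  have hd := (nondegenerate_iff_det (finBasis F Y) B).mp hN
  have hsqq := (isSquare_mul_iff (mul_ne_zero h1 hd₀) (mul_ne_zero h1 hd)).mpr
    ⟨fun h => absurd h hsq₀, fun h => absurd h hsq⟩
  obtain ⟨g, hg⟩ := exists_isometry h2 (polarBilin Q₀) B hN₀ hN hS₀ hS (by rw [hdim₀, hdim]) (by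
    have h6 : (-1) ^ (k + 1) * (LinearMap.BilinForm.toMatrix (finBasis F ((Fin k ⊕ Fin k) ⊕ Fin 2 → F)) (polarBilin Q₀)).det *
        ((-1) ^ (k + 1) * (LinearMap.BilinForm.toMatrix (finBasis F Y) B).det) =
        (LinearMap.BilinForm.toMatrix (finBasis F ((Fin k ⊕ Fin k) ⊕ Fin 2 → F)) (polarBilin Q₀)).det *
          (LinearMap.BilinForm.toMatrix (finBasis F Y) B).det := by
      linear_combination ((LinearMap.BilinForm.toMatrix (finBasis F ((Fin k ⊕ Fin k) ⊕ Fin 2 → F)) (polarBilin Q₀)).det *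
          (LinearMap.BilinForm.toMatrix (finBasis F Y) B).det) * neg_one_pow_mul_self (F := F) (k + 1)
    rwa [h6] at hsqq)
  simp only [Nat.add_sub_cancel]
  rw [← card_minus_ne hq k 0 (-ν) hab]
  symm
  refine Nat.card_congr (g.toEquiv.subtypeEquiv ?_)
  intro w
  have h3 : B (g w) (g w) = polarBilin Q₀ w w := hg w w
  change _ ↔ B (g w) (g w) ≠ 0
  rw [h3, hself]
  change Q₀ w ≠ 0 ↔ _
  simp [h2]

theorem arith_odd0 {q l : ℕ} (hq : 1 ≤ q) :
    q ^ l + q * ((q ^ l - 1) * q ^ (l - 1)) = q ^ (2 * l) := by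
  rcases Nat.eq_zero_or_pos l with rfl | hl
  · simp
  rw [Cfsg.Agent.Lib.BCSpec.Count.q_mul hl]
  have h1 : 1 ≤ q ^ l := Nat.one_le_pow _ _ hq
  obtain ⟨z, hz⟩ : ∃ z, q ^ l = z + 1 := ⟨q ^ l - 1, by omega⟩
  rw [two_mul, pow_add, hz, Nat.add_sub_cancel]
  ring

/-- Singular vectors of the standard odd form. -/
theorem card_odd0 (hq : Fintype.card F = q) (h2 : (2 : F) ≠ 0) (l : ℕ) :
    Nat.card {v : Unit ⊕ (Fin l ⊕ Fin l) → F // Cfsg.quadFormOdd l F v = 0} = q ^ (2 * l) := by
  classical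
  let e : {v : Unit ⊕ (Fin l ⊕ Fin l) → F // Cfsg.quadFormOdd l F v = 0} ≃
      Σ x : F, {w : Fin l ⊕ Fin l → F // Cfsg.quadFormPlus l F w = - x ^ 2} :=
    { toFun := fun v => ⟨v.1 (Sum.inl ()), ⟨fun i => v.1 (Sum.inr i), by
        have := v.2
        have h3 : Cfsg.quadFormOdd l F v.1 = v.1 (Sum.inl ()) ^ 2 +
          Cfsg.quadFormPlus l F (fun i => v.1 (Sum.inr i)) := rfl
        rw [h3] at this
        linear_combination this⟩⟩
      invFun := fun s => ⟨Sum.elim (fun _ => s.1) s.2.1, by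
        have := s.2.2
        have h3 : Cfsg.quadFormOdd l F (Sum.elim (fun _ => s.1) s.2.1) = s.1 ^ 2 +
          Cfsg.quadFormPlus l F s.2.1 := rfl
        rw [h3, this]
        ring⟩
      left_inv := fun v => by
        apply Subtype.ext
        funext i
        rcases i with i | i
        · rfl
        · rfl
      right_inv := fun s => rfl }
  rw [Nat.card_congr e, Nat.card_sigma]
  simp only [card_plus_eq hq]
  rw [Finset.sum_add_distrib, Finset.sum_const, Finset.card_univ, hq, smul_eq_mul]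
  have h0 : ∑ x : F, (if -x ^ 2 = (0 : F) then q ^ l else 0) = q ^ l := by
    rw [Finset.sum_eq_single (0 : F)]
    · simp
    · intro b _ hb
      rw [if_neg]
      simpa using hb
    · simp
  rw [h0]
  apply arith_odd0
  rw [← hq]
  exact Fintype.card_pos

/-- Singular vectors in odd-dimensional spaces. -/
theorem card_sing_odd (hq : Fintype.card F = q) (h2 : (2 : F) ≠ 0) (B : LinearMap.BilinForm F Y)
    (hN : B.Nondegenerate) (hS : B.IsSymm) {l : ℕ} (hdim : finrank F Y = 2 * l + 1) :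
    Nat.card {v : Y // B v v = 0} = q ^ (2 * l) := by
  classical
  set Q₀ := oddForm l F with hQ₀
  have hN₀ : (polarBilin Q₀).Nondegenerate := oddForm_nondeg l h2
  have hS₀ : LinearMap.BilinForm.IsSymm (polarBilin Q₀) := ⟨fun x y => by
    simp only [polarBilin_apply_apply, RingHom.id_apply]
    exact polar_comm _ _ _⟩
  have hdim₀ : finrank F (Unit ⊕ (Fin l ⊕ Fin l) → F) = 2 * l + 1 := by
    rw [Module.finrank_fintype_fun_eq_card]
    simp
    ring
  have hself : ∀ x, polarBilin Q₀ x x = 2 * Q₀ x := by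
    intro x
    simp only [polarBilin_apply_apply, polar_self]
    simp
  set G := LinearMap.BilinForm.toMatrix (finBasis F Y) B with hG
  set G₀ := LinearMap.BilinForm.toMatrix (finBasis F (Unit ⊕ (Fin l ⊕ Fin l) → F)) (polarBilin Q₀) with hG₀
  have hd : G.det ≠ 0 := (nondegenerate_iff_det (finBasis F Y) B).mp hN
  have hd₀ : G₀.det ≠ 0 := (nondegenerate_iff_det (finBasis F (Unit ⊕ (Fin l ⊕ Fin l) → F)) (polarBilin Q₀)).mp hN₀
  set lam : F := G.det * G₀.det with hlam
  have hlam0 : lam ≠ 0 := mul_ne_zero hd hd₀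
  have hN₁ : (lam • B).Nondegenerate := by
    have hrefl : (lam • B).IsRefl := by
      intro x y h
      have h3 : lam * B x y = 0 := by simpa using h
      have h4 := (mul_eq_zero.mp h3).resolve_left hlam0
      simp [hS.eq y x, h4]
    refine (LinearMap.IsRefl.nondegenerate_iff_separatingLeft hrefl).2 ?_
    intro x hx
    apply hN.1 x
    intro y
    have h3 : lam * B x y = 0 := by simpa using hx y
    exact (mul_eq_zero.mp h3).resolve_left hlam0
  have hS₁ : (lam • B).IsSymm := ⟨fun x y => by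
    simp [hS.eq y x]⟩
  obtain ⟨g, hg⟩ := exists_isometry h2 (polarBilin Q₀) (lam • B) hN₀ hN₁ hS₀ hS₁ (by rw [hdim₀, hdim]) (by
    have h3 : LinearMap.BilinForm.toMatrix (finBasis F Y) (lam • B) = lam • G := by
      rw [map_smul]
    rw [h3, Matrix.det_smul]
    simp only [Fintype.card_fin, hdim]
    refine ⟨lam ^ (l + 1), ?_⟩
    rw [← pow_add]
    have : l + 1 + (l + 1) = 2 * l + 1 + 1 := by ring
    rw [this, pow_succ lam (2 * l + 1)]
    simp only [hlam]
    ring)
  rw [← card_odd0 hq h2 l]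
  symm
  refine Nat.card_congr (g.toEquiv.subtypeEquiv ?_)
  intro w
  have h3 : (lam • B) (g w) (g w) = polarBilin Q₀ w w := hg w w
  have h4 : lam * B (g w) (g w) = 2 * Q₀ w := by
    rw [← hself, ← h3]
    simp
  change Q₀ w = 0 ↔ B (g w) (g w) = 0
  constructor
  · intro h
    rw [h, mul_zero] at h4
    exact (mul_eq_zero.mp h4).resolve_left hlam0
  · intro h
    rw [h, mul_zero] at h4
    exact (mul_eq_zero.mp h4.symm).resolve_left h2

/-- A function whose `r`-th iterate is the identity, with exactly one fixed point. -/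
theorem card_modEq_one {α : Type*} [Fintype α] {r : ℕ} [hr : Fact r.Prime] (f : α → α)
    (hf : f^[r] = id) (a : α) (hfix : ∀ x, f x = x ↔ x = a) : Nat.card α ≡ 1 [MOD r] := by
  classical
  let f' : Function.End α := f
  have hp : ∀ (k : ℕ) (x : α), (f' ^ k) x = f^[k] x := by
    intro k
    induction k with
    | zero => intro x; rfl
    | succ k ih =>
      intro x
      rw [pow_succ, Function.iterate_succ_apply, ← ih]
      rfl
  have h1 : (f' ^ r ^ 1 : Function.End α) = 1 := by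
    rw [pow_one]
    funext x
    rw [hp, hf]
    rfl
  have h3 := Equiv.Perm.card_fixedPoints_modEq h1
  rw [Nat.card_eq_fintype_card]
  refine h3.trans ?_
  have : Fintype.card (Function.fixedPoints f') = 1 := by
    rw [Fintype.card_eq_one_iff]
    refine ⟨⟨a, (hfix a).mpr rfl⟩, ?_⟩
    rintro ⟨x, hx⟩
    exact Subtype.ext ((hfix x).mp hx)
  rw [this]

end Cfsg.Agent.Lib.ElusQ.Count
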