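import Cfsg.Agent.Lib.QuadDisc.Classify
import Cfsg.Agent.Lib.ElusF.Form

/-!
# Discriminants of subspaces of a symmetric bilinear space over a finite field of odd characteristic

The discriminant `dd B U` of a subspace, orthogonal sums, subspaces with prescribed discriminant and
the hyperbolic criterion.
-/

set_option autoImplicit false
set_option linter.unusedSectionVars false
set_option linter.style.haveILetI false

open Module

namespace Cfsg.Agent.Lib.ElusQ.Disc

open Cfsg.Agent.Lib.ElusF.Form Cfsg.Agent.Lib.QuadDisc.Basic Cfsg.Agent.Lib.QuadDisc.Classify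

universe u v

variable {F : Type u} [Field F] {V : Type v} [AddCommGroup V] [Module F V]
  {B : LinearMap.BilinForm F V}

/-- A symmetric nondegenerate bilinear form as a form in the sense of `Fm`. -/
theorem fm_of_symm (hS : B.IsSymm) (hN : B.Nondegenerate) :
    Fm (RingHom.id F) 1 (fun u v => B u v) where
  add_l u v w := by simp
  smul_l c u v := by simp
  herm u v := by
    simp only [RingHom.id_apply, one_mul]
    exact hS.eq v u
  nd u hu := hN.1 u hu
  σσ _ := rfl
  ε0 := one_ne_zero

theorem restrict_nondeg [FiniteDimensional F V] (hS : B.IsSymm) {U : Submodule F V}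
    (h : Nd (fun u v => B u v) U) : (B.restrict U).Nondegenerate := by
  have hrefl : (B.restrict U).IsRefl := (restrict_isSymm B hS U).isRefl
  refine (LinearMap.IsRefl.nondegenerate_iff_separatingLeft hrefl).2 ?_
  intro x hx
  apply Subtype.ext
  exact h x x.2 (fun v hv => hx ⟨v, hv⟩)

section FD

variable [FiniteDimensional F V]

/-- The discriminant of a subspace. -/
noncomputable def dd (B : LinearMap.BilinForm F V) (U : Submodule F V) : F :=
  (LinearMap.BilinForm.toMatrix (finBasis F U) (B.restrict U)).det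

theorem dd_ne_zero (hS : B.IsSymm) {U : Submodule F V} (h : Nd (fun u v => B u v) U) : dd B U ≠ 0 :=
  (nondegenerate_iff_det (finBasis F U) (B.restrict U)).mp (restrict_nondeg hS h)

theorem dd_basis {ι : Type*} [Fintype ι] [DecidableEq ι] {U : Submodule F V} (b : Basis ι F U) :
    ∃ u : F, u ≠ 0 ∧ (LinearMap.BilinForm.toMatrix b (B.restrict U)).det = u * u * dd B U :=
  det_gram_change (finBasis F U) b (B.restrict U)

theorem finrank_sup_of_disjoint' {X Y : Submodule F V} (h : Disjoint X Y) :
    finrank F (X ⊔ Y : Submodule F V) = finrank F X + finrank F Y := by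
  have := Submodule.finrank_sup_add_finrank_inf_eq X Y
  rw [h.eq_bot, finrank_bot, add_zero] at this
  exact this

/-- The discriminant of an orthogonal sum. -/
theorem dd_sup {X Y : Submodule F V} (hd : Disjoint X Y)
    (horth : ∀ x ∈ X, ∀ y ∈ Y, B x y = 0) (horth' : ∀ x ∈ X, ∀ y ∈ Y, B y x = 0) :
    ∃ u : F, u ≠ 0 ∧ dd B (X ⊔ Y) = u * u * (dd B X * dd B Y) := by
  classical
  let bX := finBasis F X
  let bY := finBasis F Y
  have hli : LinearIndependent F (Sum.elim (fun i => (bX i : V)) (fun j => (bY j : V))) := by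
    apply LinearIndependent.sum_type
      (bX.linearIndependent.map' X.subtype (Submodule.ker_subtype X))
      (bY.linearIndependent.map' Y.subtype (Submodule.ker_subtype Y))
    apply hd.mono
    · rw [Submodule.span_le]
      rintro _ ⟨i, rfl⟩
      exact (bX i).2
    · rw [Submodule.span_le]
      rintro _ ⟨i, rfl⟩
      exact (bY i).2
  let v : Fin (finrank F X) ⊕ Fin (finrank F Y) → ↥(X ⊔ Y) :=
    Sum.elim (fun i => ⟨bX i, Submodule.mem_sup_left (bX i).2⟩)
      (fun j => ⟨bY j, Submodule.mem_sup_right (bY j).2⟩)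
  have hv : ∀ i, ((v i : ↥(X ⊔ Y)) : V) = Sum.elim (fun i => (bX i : V)) (fun j => (bY j : V)) i := by
    rintro (i | j) <;> rfl
  have hli' : LinearIndependent F v := by
    apply LinearIndependent.of_comp (X ⊔ Y).subtype
    convert hli using 1
    ext i
    exact hv i
  have hcard : Fintype.card (Fin (finrank F X) ⊕ Fin (finrank F Y)) = finrank F ↥(X ⊔ Y) := by
    rw [finrank_sup_of_disjoint' hd]
    simp
  let c := Basis.mk hli' (by rw [hli'.span_eq_top_of_card_eq_finrank' hcard])
  have hc : ⇑c = v := Basis.coe_mk hli' _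
  obtain ⟨u, hu, hu'⟩ := dd_basis (B := B) c
  have hgram : LinearMap.BilinForm.toMatrix c (B.restrict (X ⊔ Y)) =
      Matrix.fromBlocks (LinearMap.BilinForm.toMatrix bX (B.restrict X)) 0 0
        (LinearMap.BilinForm.toMatrix bY (B.restrict Y)) := by
    ext i j
    rw [LinearMap.BilinForm.toMatrix_apply, hc]
    rcases i with i | i <;> rcases j with j | j
    · simp [v, LinearMap.BilinForm.toMatrix_apply]
    · simp only [v, Sum.elim_inl, Sum.elim_inr, Matrix.fromBlocks_apply₁₂, Matrix.zero_apply]
      exact horth _ (bX i).2 _ (bY j).2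
    · simp only [v, Sum.elim_inl, Sum.elim_inr, Matrix.fromBlocks_apply₂₁, Matrix.zero_apply]
      exact horth' _ (bX j).2 _ (bY i).2
    · simp [v, LinearMap.BilinForm.toMatrix_apply]
  rw [hgram, Matrix.det_fromBlocks_zero₁₂] at hu'
  refine ⟨u⁻¹, inv_ne_zero hu, ?_⟩
  change _ = u⁻¹ * u⁻¹ * ((LinearMap.BilinForm.toMatrix bX (B.restrict X)).det *
    (LinearMap.BilinForm.toMatrix bY (B.restrict Y)).det)
  rw [hu']
  field_simp

/-- The discriminant of a line. -/
theorem dd_span {w : V} (hw : B w w ≠ 0) (hw0 : w ≠ 0) :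
    ∃ u : F, u ≠ 0 ∧ B w w = u * u * dd B (Submodule.span F {w}) := by
  classical
  have hmem : w ∈ Submodule.span F {w} := Submodule.mem_span_singleton_self w
  let v : Fin 1 → ↥(Submodule.span F {w}) := fun _ => ⟨w, hmem⟩
  have hli : LinearIndependent F v := by
    refine LinearIndependent.of_comp (Submodule.span F {w}).subtype ?_
    have : (Submodule.span F {w}).subtype ∘ v = fun _ : Fin 1 => w := rfl
    rw [this]
    exact LinearIndependent.of_subsingleton (0 : Fin 1) hw0
  have hcard : Fintype.card (Fin 1) = finrank F ↥(Submodule.span F {w}) := by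
    rw [finrank_span_singleton hw0]
    simp
  let c := basisOfLinearIndependentOfCardEqFinrank hli hcard
  have hc : ⇑c = v := coe_basisOfLinearIndependentOfCardEqFinrank hli hcard
  obtain ⟨u, hu, hu'⟩ := dd_basis (B := B) c
  refine ⟨u, hu, ?_⟩
  rw [← hu', Matrix.det_fin_one, LinearMap.BilinForm.toMatrix_apply, hc]
  rfl

variable [Fintype F]

theorem isSquare_mul_iff {x y : F} (hx : x ≠ 0) (hy : y ≠ 0) :
    IsSquare (x * y) ↔ (IsSquare x ↔ IsSquare y) := by
  by_cases h : IsSquare y
  · obtain ⟨s, rfl⟩ := h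
    have hs : s ≠ 0 := by
      rintro rfl
      simp at hy
    have : x * (s * s) = s * s * x := by ring
    rw [this, isSquare_mul_self_mul hs]
    simp only [IsSquare.mul_self, iff_true]
  · rw [Cfsg.Agent.Lib.Orth.Gram.isSquare_mul_nonsquare_iff hx h]
    simp [h]

/-- Subspaces with prescribed discriminant. -/
theorem exists_sub_dd (h2 : (2 : F) ≠ 0) (hS : B.IsSymm) (hN : B.Nondegenerate) :
    ∀ (n : ℕ) (D : Submodule F V), Nd (fun u v => B u v) D → finrank F D = n →
      ∀ u, 1 ≤ u → u < n → ∀ δ : F, δ ≠ 0 →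
        ∃ U : Submodule F V, U ≤ D ∧ Nd (fun u v => B u v) U ∧ finrank F U = u ∧
          IsSquare (δ * dd B U) := by
  have hB := fm_of_symm hS hN
  intro n
  induction n with
  | zero => intro D _ _ u _ hu; omega
  | succ n ih =>
    intro D hD hdim u hu1 hun δ hδ
    have hDnd := restrict_nondeg hS hD
    have hDs := restrict_isSymm B hS D
    have hline : ∀ {w : V}, B w w ≠ 0 → w ∈ D →
        Nd (fun u v => B u v) (Submodule.span F {w}) ∧ w ≠ 0 ∧ Submodule.span F {w} ≤ D := by
      intro w hw hwD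
      refine ⟨?_, ?_, ?_⟩
      · intro x hx h
        obtain ⟨a, rfl⟩ := Submodule.mem_span_singleton.mp hx
        have h1 := h w (Submodule.mem_span_singleton_self w)
        have h3 : a * B w w = 0 := by simpa using h1
        rw [(mul_eq_zero.mp h3).resolve_right hw, zero_smul]
      · rintro rfl
        simp at hw
      · rw [Submodule.span_le]
        simpa using hwD
    by_cases hlast : u = n
    · subst hlast
      have hdd0 := dd_ne_zero hS hD
      obtain ⟨w, hw⟩ := exists_self_eq h2 (B.restrict D) hDnd hDs (by omega) (δ * dd B D)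
      have hw' : B (w : V) (w : V) = δ * dd B D := hw
      have hw0 : B (w : V) (w : V) ≠ 0 := by
        rw [hw']
        exact mul_ne_zero hδ hdd0
      obtain ⟨hWn, hw00, hWD⟩ := hline hw0 w.2
      set W := Submodule.span F {(w : V)} with hW
      refine ⟨D ⊓ hB.orth W, inf_le_left, hB.nd_inf_orth hD hWn hWD, ?_, ?_⟩
      · have h1 := hB.finrank_inf_orth hD hWD
        have h3 : finrank F W = 1 := finrank_span_singleton hw00
        omega
      · obtain ⟨hs, hi⟩ := hB.isCompl_inf_orth hWn hWD
        have hd : Disjoint W (D ⊓ hB.orth W) := disjoint_iff.mpr hi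
        obtain ⟨a, ha, ha'⟩ := dd_sup (B := B) hd
          (fun x hx y hy => hB.mem_orth.mp hy.2 x hx)
          (fun x hx y hy => hB.mem_orth'.mp hy.2 x hx)
        rw [hs] at ha'
        obtain ⟨b, hb, hb'⟩ := dd_span hw0 hw00
        set d := dd B (D ⊓ hB.orth W) with hdd
        set e := dd B W with he
        -- e * b² = δ dd; dd = a² e d
        have hm : (a * a * (b * b)⁻¹ * ((b * b) * e)) = a * a * e := by
          field_simp
        have h5 : dd B D = a * a * (b * b)⁻¹ * (δ * dd B D) * d := by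
          rw [← hw', hb']
          rw [ha']
          field_simp
        have h6 : (a * a * (b * b)⁻¹) * (δ * d) = 1 := by
          apply mul_right_cancel₀ hdd0
          rw [one_mul]
          nth_rewrite 2 [h5]
          ring
        refine ⟨(a⁻¹ * b), ?_⟩
        have ha0 : a * a ≠ 0 := mul_ne_zero ha ha
        have hb0 : b * b ≠ 0 := mul_ne_zero hb hb
        field_simp at h6 ⊢
        linear_combination h6
    · have hpos : 0 < finrank F D := by omega
      obtain ⟨w, hw⟩ := exists_self_ne_zero h2 (B.restrict D) hDnd hDs hpos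
      have hw0 : B (w : V) (w : V) ≠ 0 := hw
      obtain ⟨hWn, hw00, hWD⟩ := hline hw0 w.2
      have h1 := hB.finrank_inf_orth hD hWD
      have h3 : finrank F (Submodule.span F {(w : V)}) = 1 := finrank_span_singleton hw00
      obtain ⟨U, h4, h5, h6, h7⟩ := ih (D ⊓ hB.orth (Submodule.span F {(w : V)}))
        (hB.nd_inf_orth hD hWn hWD) (by omega) u hu1 (by omega) δ hδ
      exact ⟨U, h4.trans inf_le_left, h5, h6, h7⟩

/-- A subspace with half-dimensional totally isotropic subspace. -/
def Hy (B : LinearMap.BilinForm F V) (U : Submodule F V) : Prop :=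
  ∃ X : Submodule F V, X ≤ U ∧ (∀ x ∈ X, ∀ y ∈ X, B x y = 0) ∧ 2 * finrank F X = finrank F U

/-- The hyperbolic criterion. -/
theorem hy_iff (h2 : (2 : F) ≠ 0) (hS : B.IsSymm) {U : Submodule F V} (hU : Nd (fun u v => B u v) U)
    {l : ℕ} (hdim : finrank F U = 2 * l) : Hy B U ↔ IsSquare ((-1) ^ l * dd B U) := by
  have hUnd := restrict_nondeg hS hU
  have hUs := restrict_isSymm B hS U
  constructor
  · rintro ⟨X, hXU, hX, hXd⟩
    have hcomap : finrank F (X.comap U.subtype) = finrank F X :=
      LinearEquiv.finrank_eq (Submodule.comapSubtypeEquivOfLe hXU)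
    exact disc_of_exists_ti (B.restrict U) hUs l hdim (finBasis F U) (X.comap U.subtype)
      (by omega) (fun x hx y hy => hX x hx y hy)
  · intro h
    obtain ⟨X, hXd, hX⟩ := exists_ti_of_disc h2 (B.restrict U) hUnd hUs l hdim (finBasis F U) h
    refine ⟨X.map U.subtype, Submodule.map_subtype_le U X, ?_, ?_⟩
    · rintro _ ⟨x, hx, rfl⟩ _ ⟨y, hy, rfl⟩
      exact hX x hx y hy
    · rw [Submodule.finrank_map_subtype_eq, hXd, hdim]

theorem neg_one_pow_ne_zero (l : ℕ) : ((-1 : F) ^ l) ≠ 0 := pow_ne_zero _ (by simp)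

theorem neg_one_pow_mul_self (l : ℕ) : ((-1 : F) ^ l) * (-1) ^ l = 1 := by
  rw [← mul_pow]
  simp

/-- Isometries between subspaces with the same discriminant. -/
theorem exists_iso_of_dd (h2 : (2 : F) ≠ 0) (hS : B.IsSymm) {U U' : Submodule F V}
    (hU : Nd (fun u v => B u v) U) (hU' : Nd (fun u v => B u v) U') (hd : finrank F U = finrank F U')
    (hsq : IsSquare (dd B U * dd B U')) :
    ∃ g : U ≃ₗ[F] U', ∀ x y, B (g x : V) (g y : V) = B (x : V) (y : V) :=
  exists_isometry h2 (B.restrict U) (B.restrict U') (restrict_nondeg hS hU) (restrict_nondeg hS hU')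
    (restrict_isSymm B hS U) (restrict_isSymm B hS U') hd hsq

/-- Isometries between subspaces of the same type. -/
theorem exists_iso_of_hy (h2 : (2 : F) ≠ 0) (hS : B.IsSymm) {U U' : Submodule F V}
    (hU : Nd (fun u v => B u v) U) (hU' : Nd (fun u v => B u v) U') {l : ℕ} (hd : finrank F U = 2 * l)
    (hd' : finrank F U' = 2 * l) (hh : Hy B U ↔ Hy B U') :
    ∃ g : U ≃ₗ[F] U', ∀ x y, B (g x : V) (g y : V) = B (x : V) (y : V) := by
  apply exists_iso_of_dd h2 hS hU hU' (by omega)
  rw [hy_iff h2 hS hU hd, hy_iff h2 hS hU' hd'] at hh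
  have h1 := neg_one_pow_ne_zero (F := F) l
  have h3 := dd_ne_zero hS hU
  have h4 := dd_ne_zero hS hU'
  have h5 := (isSquare_mul_iff (mul_ne_zero h1 h3) (mul_ne_zero h1 h4)).mpr hh
  have h6 : (-1) ^ l * dd B U * ((-1) ^ l * dd B U') = dd B U * dd B U' := by
    linear_combination (dd B U * dd B U') * neg_one_pow_mul_self (F := F) l
  rwa [h6] at h5

/-- The type of an orthogonal sum. -/
theorem hy_sup (h2 : (2 : F) ≠ 0) (hS : B.IsSymm) {X Y : Submodule F V}
    (hX : Nd (fun u v => B u v) X) (hY : Nd (fun u v => B u v) Y) (hN : B.Nondegenerate)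
    (horth : ∀ x ∈ X, ∀ y ∈ Y, B x y = 0) {a b : ℕ} (ha : finrank F X = 2 * a) (hb : finrank F Y = 2 * b) :
    Hy B (X ⊔ Y) ↔ (Hy B X ↔ Hy B Y) := by
  have hB := fm_of_symm hS hN
  have hle : Y ≤ hB.orth X := fun y hy x hx => horth x hx y hy
  have hd : Disjoint X Y := by
    rw [Submodule.disjoint_def]
    intro u hu hu'
    exact hX u hu (fun v hv => by
      change B u v = 0
      rw [hS.eq]
      exact horth v hv u hu')
  have hn : Nd (fun u v => B u v) (X ⊔ Y) := by
    intro u hu hh
    obtain ⟨a, ha, c, hc, rfl⟩ := Submodule.mem_sup.mp hu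
    have h1 : a = 0 := by
      apply hX a ha
      intro v hv
      have h3 := hh v (Submodule.mem_sup_left hv)
      have h4 : B c v = 0 := by
        rw [hS.eq]
        exact horth v hv c hc
      simpa [h4] using h3
    have h3 : c = 0 := by
      apply hY c hc
      intro v hv
      have h4 := hh v (Submodule.mem_sup_right hv)
      have h5 := horth a ha v hv
      simpa [h5] using h4
    rw [h1, h3, add_zero]
  obtain ⟨u, hu, hu'⟩ := dd_sup (B := B) hd horth (fun x hx y hy => by
    rw [hS.eq]
    exact horth x hx y hy)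
  have hdim : finrank F (X ⊔ Y : Submodule F V) = 2 * (a + b) := by
    rw [finrank_sup_of_disjoint' hd, ha, hb]
    ring
  rw [hy_iff h2 hS hn hdim, hy_iff h2 hS hX ha, hy_iff h2 hS hY hb, hu']
  have h1 := neg_one_pow_ne_zero (F := F) a
  have h3 := neg_one_pow_ne_zero (F := F) b
  rw [← isSquare_mul_iff (mul_ne_zero h1 (dd_ne_zero hS hX)) (mul_ne_zero h3 (dd_ne_zero hS hY))]
  have : (-1) ^ (a + b) * (u * u * (dd B X * dd B Y)) =
      u * u * ((-1) ^ a * dd B X * ((-1) ^ b * dd B Y)) := by
    rw [pow_add]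
    ring
  rw [this, isSquare_mul_self_mul hu]

/-- Existence of nonsquares. -/
theorem exists_nonsquare (h2 : (2 : F) ≠ 0) : ∃ ν : F, ν ≠ 0 ∧ ¬ IsSquare ν := by
  obtain ⟨ν, hν⟩ := FiniteField.exists_nonsquare (F := F) (by
    intro h
    apply h2
    have := ringChar.Nat.cast_ringChar (R := F)
    rw [h] at this
    exact_mod_cast this)
  refine ⟨ν, ?_, hν⟩
  rintro rfl
  exact hν (IsSquare.zero)

/-- Choosing one summand so that the type of an orthogonal sum is prescribed. -/
theorem exists_sub_type (h2 : (2 : F) ≠ 0) (hS : B.IsSymm) (hN : B.Nondegenerate)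
    {A Y : Submodule F V} (hA : Nd (fun u v => B u v) A) (hY : Nd (fun u v => B u v) Y)
    (horth : ∀ x ∈ A, ∀ y ∈ Y, B x y = 0) {u l : ℕ} (hu1 : 1 ≤ u) (hu2 : u < finrank F A)
    (hl : u + finrank F Y = 2 * l) (τ : Prop) :
    ∃ W : Submodule F V, W ≤ A ∧ Nd (fun u v => B u v) W ∧ finrank F W = u ∧
      Nd (fun u v => B u v) (W ⊔ Y) ∧ finrank F (W ⊔ Y : Submodule F V) = 2 * l ∧
      (Hy B (W ⊔ Y) ↔ τ) := by
  classical
  obtain ⟨ν, hν0, hν⟩ := exists_nonsquare (F := F) h2
  have h1 := neg_one_pow_ne_zero (F := F) l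
  have hdY := dd_ne_zero hS hY
  set δ : F := (if τ then 1 else ν) * ((-1) ^ l * dd B Y) with hδ
  have hδ0 : δ ≠ 0 := by
    refine mul_ne_zero ?_ (mul_ne_zero h1 hdY)
    split_ifs
    · exact one_ne_zero
    · exact hν0
  obtain ⟨W, hWA, hW, hWd, hWs⟩ := exists_sub_dd h2 hS hN _ A hA rfl u hu1 hu2 δ hδ0
  have hd : Disjoint W Y := by
    rw [Submodule.disjoint_def]
    intro v hv hv'
    exact hW v hv (fun x hx => by
      change B v x = 0
      rw [hS.eq]
      exact horth x (hWA hx) v hv')
  have hn : Nd (fun u v => B u v) (W ⊔ Y) := by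
    intro v hv hh
    obtain ⟨a, ha, c, hc, rfl⟩ := Submodule.mem_sup.mp hv
    have h3 : a = 0 := by
      apply hW a ha
      intro x hx
      have h4 := hh x (Submodule.mem_sup_left hx)
      have h5 : B c x = 0 := by
        rw [hS.eq]
        exact horth x (hWA hx) c hc
      simpa [h5] using h4
    have h4 : c = 0 := by
      apply hY c hc
      intro x hx
      have h5 := hh x (Submodule.mem_sup_right hx)
      have h6 := horth a (hWA ha) x hx
      simpa [h6] using h5
    rw [h3, h4, add_zero]
  have hdim : finrank F (W ⊔ Y : Submodule F V) = 2 * l := by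
    rw [finrank_sup_of_disjoint' hd, hWd, hl]
  refine ⟨W, hWA, hW, hWd, hn, hdim, ?_⟩
  obtain ⟨a, ha, ha'⟩ := dd_sup (B := B) hd (fun x hx y hy => horth x (hWA hx) y hy)
    (fun x hx y hy => by
      rw [hS.eq]
      exact horth x (hWA hx) y hy)
  rw [hy_iff h2 hS hn hdim, ha']
  have hdW := dd_ne_zero hS hW
  have key : (-1) ^ l * (a * a * (dd B W * dd B Y)) = a * a * ((-1) ^ l * dd B Y * dd B W) := by ring
  rw [key, isSquare_mul_self_mul ha]
  by_cases hτ : τ
  · simp only [hτ, iff_true]
    simpa [hδ, hτ] using hWs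
  · simp only [hτ, iff_false]
    have h3 : δ * dd B W = ν * ((-1) ^ l * dd B Y * dd B W) := by
      simp only [hδ, hτ, if_false]
      ring
    rw [h3] at hWs
    rw [mul_comm] at hWs
    intro hc
    have := (Cfsg.Agent.Lib.Orth.Gram.isSquare_mul_nonsquare_iff
      (mul_ne_zero (mul_ne_zero h1 hdY) hdW) hν).mp hWs
    exact this hc

end FD

end Cfsg.Agent.Lib.ElusQ.Disc
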