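import Cfsg.Agent.Lib.ElusQ.Uni

/-!
# Even-dimensional quadratic spaces: transporting models, subspaces with a prescribed discriminant
-/

set_option autoImplicit false
set_option linter.unusedSectionVars false
set_option linter.style.haveILetI false
set_option linter.unusedVariables false
set_option linter.unusedSimpArgs false

open Polynomial Module QuadraticMap Matrix

universe u v w

namespace Cfsg.Agent.Lib.ElusQ.EvenV

open Cfsg Cfsg.Agent.Lib.ElusL.Basic Cfsg.Agent.Lib.ElusL.Cyc Cfsg.Agent.Lib.ElusF.Form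
  Cfsg.Agent.Lib.ElusF.Step Cfsg.Agent.Lib.ElusF.Split Cfsg.Agent.Lib.ElusF.SpModel
  Cfsg.Agent.Lib.ElusQ.Disc Cfsg.Agent.Lib.ElusQ.Oz Cfsg.Agent.Lib.ElusQ.Syl Cfsg.Agent.Lib.ElusQ.OddMain
  Cfsg.Agent.Lib.ElusQ.Pos Cfsg.Agent.Lib.ElusQ.Model
  Cfsg.Agent.Lib.Witt.Quadratic Cfsg.Agent.Lib.QuadDisc.Basic Cfsg.Agent.Lib.QuadDisc.Classify

variable {F : Type u} [Field F] {q r : ℕ} {V : Type v} [AddCommGroup V] [Module F V]

section Line

variable {B : LinearMap.BilinForm F V}

/-- The form obtained by changing the form along a line. -/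
noncomputable def lineForm (B : LinearMap.BilinForm F V) (v : V) (c : F) : LinearMap.BilinForm F V :=
  LinearMap.mk₂ F (fun x y => B x y + c * (B v x * B v y))
    (fun x y z => by simp; ring)
    (fun a x y => by simp; ring)
    (fun x y z => by simp; ring)
    (fun a x y => by simp; ring)

@[simp] theorem lineForm_apply (v : V) (c : F) (x y : V) :
    lineForm B v c x y = B x y + c * (B v x * B v y) := rfl

theorem det_lineForm [FiniteDimensional F V] (hS : B.IsSymm) (v : V) (c : F) :
    (LinearMap.BilinForm.toMatrix (finBasis F V) (lineForm B v c)).det =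
      (LinearMap.BilinForm.toMatrix (finBasis F V) B).det * (1 + c * B v v) := by
  classical
  set b := finBasis F V with hb
  set G := LinearMap.BilinForm.toMatrix b B with hG
  set x : Fin (finrank F V) → F := fun k => b.repr v k with hx
  set y : Fin (finrank F V) → F := fun j => B v (b j) with hy
  have hvsum : v = ∑ k, x k • b k := (b.sum_repr v).symm
  have hGx : G *ᵥ x = y := by
    funext i
    have h1 : B v (b i) = B (b i) v := hS.eq v (b i)
    simp only [Matrix.mulVec, dotProduct, hG, LinearMap.BilinForm.toMatrix_apply, hy]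
    rw [h1]
    conv_rhs => rw [hvsum]
    simp only [map_sum, map_smul, smul_eq_mul]
    exact Finset.sum_congr rfl fun k _ => mul_comm _ _
  have hyx : y ⬝ᵥ x = B v v := by
    have h1 : B v v = ∑ k, x k * B v (b k) := by
      conv_lhs =>
        arg 2
        rw [hvsum]
      simp only [map_sum, map_smul, smul_eq_mul]
    rw [h1]
    simp only [dotProduct, hy]
    exact Finset.sum_congr rfl fun k _ => mul_comm _ _
  have hfac : LinearMap.BilinForm.toMatrix b (lineForm B v c) =
      G * (1 + replicateCol Unit (c • x) * replicateRow Unit y) := by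
    rw [mul_add, mul_one, ← Matrix.mul_assoc, ← replicateCol_mulVec, Matrix.mulVec_smul, hGx]
    ext i j
    simp [Matrix.add_apply, LinearMap.BilinForm.toMatrix_apply, lineForm_apply, hG, Matrix.mul_apply,
      replicateRow_apply, replicateCol_apply, hy, mul_assoc]
  rw [hfac, Matrix.det_mul, Matrix.det_one_add_replicateCol_mul_replicateRow]
  rw [dotProduct_smul, smul_eq_mul, hyx]

end Line

section Transport

variable [Fintype F] [FiniteDimensional F V]

/-- Transport of an isometry along an isometric identification. -/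
theorem conj_of_equiv {B : LinearMap.BilinForm F V} (hS : B.IsSymm) (hN : B.Nondegenerate)
    {V' : Type w} [AddCommGroup V'] [Module F V'] {B₁ : LinearMap.BilinForm F V'} {T' : End F V'}
    (g : V ≃ₗ[F] V') (hg : ∀ x y, B₁ (g x) (g y) = B x y) (hiso : ∀ u v, B₁ (T' u) (T' v) = B₁ u v)
    (hpow : T' ^ r = 1) :
    ∃ T : End F V, Oz B T r ∧ (∀ x, g (T x) = T' (g x)) ∧ Dk T (X - 1 : F[X]) = Dk T' (X - 1 : F[X]) ∧
      ((∀ z : F, T' ≠ z • 1) → T ≠ 1) := by
  classical
  let T : End F V := (g.symm : V' →ₗ[F] V) ∘ₗ T' ∘ₗ (g : V →ₗ[F] V')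
  have hTa : ∀ x, g (T x) = T' (g x) := by
    intro x
    simp [T]
  have hTp : ∀ (k : ℕ) (x : V), g ((T ^ k) x) = (T' ^ k) (g x) := by
    intro k
    induction k with
    | zero => intro x; rfl
    | succ k ih =>
      intro x
      rw [pow_succ, pow_succ, Module.End.mul_apply, Module.End.mul_apply, ih, hTa]
  refine ⟨T, ⟨hS, hN, ?_, ?_⟩, hTa, ?_, ?_⟩
  · intro u v
    have h3 := hg (T u) (T v)
    have h4 := hg u v
    rw [hTa, hTa, hiso] at h3
    rw [← h3, h4]
  · apply LinearMap.ext
    intro x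
    apply g.injective
    rw [hTp, hpow]
    rfl
  · unfold Dk
    have h3 : (LinearMap.ker (Polynomial.aeval T (X - 1 : F[X]))).map (g : V →ₗ[F] V') =
        LinearMap.ker (Polynomial.aeval T' (X - 1 : F[X])) := by
      ext v
      constructor
      · rintro ⟨x, hx, rfl⟩
        rw [mem_fix]
        change T' (g x) = g x
        rw [← hTa, mem_fix.mp hx]
      · intro hv
        refine ⟨g.symm v, ?_, by simp⟩
        change g.symm v ∈ LinearMap.ker _
        rw [mem_fix]
        apply g.injective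
        rw [hTa]
        simp [mem_fix.mp hv]
    rw [← h3, LinearEquiv.finrank_map_eq]
  · intro hNS hT1
    apply hNS 1
    apply LinearMap.ext
    intro v
    have h3 := hTa (g.symm v)
    rw [hT1] at h3
    simp only [LinearEquiv.apply_symm_apply, Module.End.one_apply] at h3
    rw [one_smul]
    exact h3.symm

/-- An isometry with a nonsingular fixed vector can be transported into any space of the same dimension. -/
theorem exists_conj_fixed (h2 : (2 : F) ≠ 0) {B : LinearMap.BilinForm F V} (hS : B.IsSymm) (hN : B.Nondegenerate)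
    {V' : Type w} [AddCommGroup V'] [Module F V'] [FiniteDimensional F V']
    {B' : LinearMap.BilinForm F V'} {T' : End F V'} (h' : Oz B' T' r) (hd : finrank F V' = finrank F V)
    {v : V'} (hv : T' v = v) (hvv : B' v v ≠ 0) :
    ∃ T : End F V, Oz B T r ∧ Dk T (X - 1 : F[X]) = Dk T' (X - 1 : F[X]) ∧
      ((∀ z : F, T' ≠ z • 1) → T ≠ 1) := by
  classical
  set G := LinearMap.BilinForm.toMatrix (finBasis F V') B' with hG
  set G₀ := LinearMap.BilinForm.toMatrix (finBasis F V) B with hG₀
  have hdG : G.det ≠ 0 := (nondegenerate_iff_det (finBasis F V') B').mp h'.nondeg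
  have hd₀ : G₀.det ≠ 0 := (nondegenerate_iff_det (finBasis F V) B).mp hN
  set ν : F := G.det * G₀.det with hν
  have hν0 : ν ≠ 0 := mul_ne_zero hdG hd₀
  set c : F := (ν - 1) / B' v v with hc
  have hcv : 1 + c * B' v v = ν := by
    rw [hc]
    field_simp
    ring
  have hdet := det_lineForm h'.symm v c
  rw [hcv] at hdet
  have hN₁ : (lineForm B' v c).Nondegenerate := by
    rw [nondegenerate_iff_det (finBasis F V')]
    rw [hdet]
    exact mul_ne_zero hdG hν0
  have hS₁ : (lineForm B' v c).IsSymm := ⟨fun x y => by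
    have h1 := h'.symm.eq x y
    simp only [RingHom.id_apply, lineForm_apply]
    rw [h1]
    ring⟩
  obtain ⟨g, hg⟩ := exists_isometry h2 B (lineForm B' v c) hN hN₁ hS hS₁ hd.symm (by
    rw [hdet, ← hG]
    refine ⟨ν, ?_⟩
    rw [hν]
    ring)
  obtain ⟨T, hT, -, h3, h4⟩ := conj_of_equiv hS hN g hg (by
    intro x y
    simp only [lineForm_apply, h'.iso]
    have h5 : ∀ z, B' v (T' z) = B' v z := by
      intro z
      have := h'.iso v z
      rwa [hv] at this
    rw [h5, h5]) h'.pow
  exact ⟨T, hT, h3, h4⟩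

theorem det_eq_dd_top (B : LinearMap.BilinForm F V) :
    ∃ u : F, u ≠ 0 ∧ (LinearMap.BilinForm.toMatrix (finBasis F V) B).det = u * u * dd B ⊤ := by
  classical
  let b : Basis (Fin (finrank F V)) F (⊤ : Submodule F V) := (finBasis F V).map (LinearEquiv.ofTop ⊤ rfl).symm
  obtain ⟨u, hu, h⟩ := dd_basis (B := B) b
  refine ⟨u, hu, ?_⟩
  rw [← h]
  congr 1

/-- Spaces of the same type are isometric. -/
theorem exists_equiv_of_hy (h2 : (2 : F) ≠ 0) {B : LinearMap.BilinForm F V} (hS : B.IsSymm) (hN : B.Nondegenerate)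
    {V' : Type w} [AddCommGroup V'] [Module F V'] [FiniteDimensional F V']
    {B' : LinearMap.BilinForm F V'} (hS' : B'.IsSymm) (hN' : B'.Nondegenerate) {l : ℕ} (hd : finrank F V' = 2 * l)
    (hd₀ : finrank F V = 2 * l) (hty : Hy B' ⊤ ↔ Hy B ⊤) :
    ∃ g : V ≃ₗ[F] V', ∀ x y, B' (g x) (g y) = B x y := by
  obtain ⟨u, hu, hu'⟩ := det_eq_dd_top B'
  obtain ⟨v, hv, hv'⟩ := det_eq_dd_top B
  have hn₁ : Nd (fun u v => B u v) (⊤ : Submodule F V) := (fm_of_symm hS hN).nd_top
  have hn₂ : Nd (fun u v => B' u v) (⊤ : Submodule F V') := (fm_of_symm hS' hN').nd_top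
  rw [hy_iff h2 hS' hn₂ (by rw [finrank_top, hd]), hy_iff h2 hS hn₁ (by rw [finrank_top, hd₀])] at hty
  have h1 := neg_one_pow_ne_zero (F := F) l
  have h3 := dd_ne_zero hS hn₁
  have h4 := dd_ne_zero hS' hn₂
  have h5 := (isSquare_mul_iff (mul_ne_zero h1 h3) (mul_ne_zero h1 h4)).mpr hty.symm
  have h6 : (-1) ^ l * dd B ⊤ * ((-1) ^ l * dd B' ⊤) = dd B ⊤ * dd B' ⊤ := by
    linear_combination (dd B ⊤ * dd B' ⊤) * neg_one_pow_mul_self (F := F) l
  rw [h6] at h5
  exact exists_isometry h2 B B' hN hN' hS hS' (by omega) (by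
    rw [hu', hv']
    obtain ⟨s, hs⟩ := h5
    refine ⟨u * v * s, ?_⟩
    linear_combination (u * u * (v * v)) * hs)

/-- Isometries can be transported between spaces of the same type. -/
theorem exists_conj_hy (h2 : (2 : F) ≠ 0) {B : LinearMap.BilinForm F V} (hS : B.IsSymm) (hN : B.Nondegenerate)
    {V' : Type w} [AddCommGroup V'] [Module F V'] [FiniteDimensional F V']
    {B' : LinearMap.BilinForm F V'} {T' : End F V'} (h' : Oz B' T' r) {l : ℕ} (hd : finrank F V' = 2 * l)
    (hd₀ : finrank F V = 2 * l) (hty : Hy B' ⊤ ↔ Hy B ⊤) :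
    ∃ T : End F V, Oz B T r ∧ Dk T (X - 1 : F[X]) = Dk T' (X - 1 : F[X]) ∧
      ((∀ z : F, T' ≠ z • 1) → T ≠ 1) := by
  obtain ⟨g, hg⟩ := exists_equiv_of_hy h2 hS hN h'.symm h'.nondeg hd hd₀ hty
  obtain ⟨T, hT, -, h7, h8⟩ := conj_of_equiv hS hN g hg h'.iso h'.pow
  exact ⟨T, hT, h7, h8⟩

end Transport

end Cfsg.Agent.Lib.ElusQ.EvenV
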