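import Cfsg.Agent.Lib.ElusQ.Pos
import Cfsg.Agent.Lib.ElusF.SpModel

/-!
# Models of isometries of prime order of symmetric bilinear forms
-/

set_option autoImplicit false
set_option linter.unusedSectionVars false
set_option linter.style.haveILetI false
set_option linter.unusedVariables false
set_option linter.unusedSimpArgs false

open Polynomial Module

universe u v w

namespace Cfsg.Agent.Lib.ElusQ.Model

open Cfsg.Agent.Lib.ElusL.Basic Cfsg.Agent.Lib.ElusL.Flag Cfsg.Agent.Lib.ElusL.Cyc
  Cfsg.Agent.Lib.ElusL.Pos Cfsg.Agent.Lib.ElusF.Form Cfsg.Agent.Lib.ElusF.Step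
  Cfsg.Agent.Lib.ElusF.Split Cfsg.Agent.Lib.ElusF.SpNeg Cfsg.Agent.Lib.ElusF.SpModel
  Cfsg.Agent.Lib.SylowLarge.SpForm Cfsg.Agent.Lib.SpSpec.FormAlg
  Cfsg.Agent.Lib.ElusQ.Disc Cfsg.Agent.Lib.ElusQ.Count Cfsg.Agent.Lib.ElusQ.Oz Cfsg.Agent.Lib.ElusQ.Pos

variable {F : Type u} [Field F] {q r : ℕ}

section Prod

variable {V₁ : Type v} [AddCommGroup V₁] [Module F V₁] {V₂ : Type w} [AddCommGroup V₂] [Module F V₂]

theorem Oz.prod {B₁ : LinearMap.BilinForm F V₁} {B₂ : LinearMap.BilinForm F V₂} {T₁ : End F V₁}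
    {T₂ : End F V₂} (h₁ : Oz B₁ T₁ r) (h₂ : Oz B₂ T₂ r) :
    Oz (sumForm B₁ B₂) (LinearMap.prodMap T₁ T₂ : End F (V₁ × V₂)) r where
  symm := ⟨fun x y => by
    simp only [sumForm_apply]
    rw [h₁.symm.eq x.1 y.1, h₂.symm.eq x.2 y.2]⟩
  nondeg := by
    have hrefl : (sumForm B₁ B₂).IsRefl := by
      intro x y h
      have hs : ∀ a b, sumForm B₁ B₂ a b = sumForm B₁ B₂ b a := fun a b => by
        simp only [sumForm_apply]
        rw [h₁.symm.eq a.1 b.1, h₂.symm.eq a.2 b.2]
      rw [← hs]
      exact h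
    refine (LinearMap.IsRefl.nondegenerate_iff_separatingLeft hrefl).2 ?_
    intro x hx
    apply Prod.ext
    · apply h₁.nondeg.1
      intro y
      have := hx (y, 0)
      simpa using this
    · apply h₂.nondeg.1
      intro y
      have := hx (0, y)
      simpa using this
  iso u v := by
    simp only [sumForm_apply, LinearMap.prodMap_apply]
    rw [h₁.iso, h₂.iso]
  pow := by
    have h1 : (LinearMap.prodMap T₁ T₂ : End F (V₁ × V₂)) = LinearMap.prodMapAlgHom F V₁ V₂ (T₁, T₂) := rfl
    rw [h1, ← map_pow, Prod.pow_mk, h₁.pow, h₂.pow]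
    exact map_one _

end Prod

/-- The dot product form. -/
noncomputable def dotB (a : ℕ) (F : Type u) [Field F] : LinearMap.BilinForm F (Fin a → F) :=
  LinearMap.mk₂ F (fun u v => ∑ i, u i * v i)
    (fun x y z => by simp [add_mul, Finset.sum_add_distrib])
    (fun c x y => by simp [Finset.mul_sum, mul_assoc])
    (fun x y z => by simp [mul_add, Finset.sum_add_distrib])
    (fun c x y => by simp [Finset.mul_sum, mul_left_comm])

@[simp] theorem dotB_apply (a : ℕ) (u v : Fin a → F) : dotB a F u v = ∑ i, u i * v i := rfl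

theorem Oz.triv (a r : ℕ) : Oz (dotB a F) (1 : End F (Fin a → F)) r where
  symm := ⟨fun x y => by
    simp only [dotB_apply]
    exact Finset.sum_congr rfl fun _ _ => mul_comm _ _⟩
  nondeg := by
    have hrefl : (dotB a F).IsRefl := by
      intro x y h
      rw [dotB_apply] at h ⊢
      rw [← h]
      exact Finset.sum_congr rfl fun _ _ => mul_comm _ _
    refine (LinearMap.IsRefl.nondegenerate_iff_separatingLeft hrefl).2 ?_
    intro x hx
    ext i
    have := hx (Pi.single i 1)
    simpa [Pi.single_apply] using this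
  iso u v := rfl
  pow := one_pow r

section Alg

variable {R : Type*} [CommRing R] [Algebra F R]

/-- A commutative algebra with an involution and a linear form such that
`(f, g) ↦ τ (f * σ g)` is a nondegenerate symmetric form. -/
structure IsFormSym (σ : R →ₐ[F] R) (τ : R →ₗ[F] F) : Prop where
  invol : ∀ f, σ (σ f) = f
  sym : ∀ f, τ (σ f) = τ f
  nondeg : ∀ f, (∀ g, τ (f * g) = 0) → f = 0

theorem IsFormSym.isSymm {σ : R →ₐ[F] R} {τ : R →ₗ[F] F} (h : IsFormSym σ τ) : (form σ τ).IsSymm :=
  ⟨fun f g => by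
    simp only [form_apply, RingHom.id_apply]
    rw [← h.sym, map_mul, h.invol, mul_comm]⟩

theorem IsFormSym.nondegenerate {σ : R →ₐ[F] R} {τ : R →ₗ[F] F} (h : IsFormSym σ τ) :
    (form σ τ).Nondegenerate := by
  have hrefl : (form σ τ).IsRefl := by
    intro x y hh
    have := h.isSymm.eq x y
    rw [← this]
    exact hh
  refine (LinearMap.IsRefl.nondegenerate_iff_separatingLeft hrefl).2 ?_
  intro f hf
  apply h.nondeg
  intro g
  have := hf (σ g)
  rwa [form_apply, h.invol] at this

theorem Oz.lmul {σ : R →ₐ[F] R} {τ : R →ₗ[F] F} (h : IsFormSym σ τ) {x : R} (hx : x * σ x = 1)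
    (hr : x ^ r = 1) : Oz (form σ τ) (Algebra.lmul F R x : End F R) r where
  symm := h.isSymm
  nondeg := h.nondegenerate
  iso u v := by
    change τ ((x * u) * σ (x * v)) = τ (u * σ v)
    have h1 : (x * u) * σ (x * v) = u * σ v := by
      rw [map_mul]
      calc x * u * (σ x * σ v) = (x * σ x) * (u * σ v) := by ring
        _ = u * σ v := by rw [hx, one_mul]
    rw [h1]
  pow := by
    rw [← map_pow, hr, map_one]

end Alg

section Field

variable [Fintype F]

/-- The form on a field extension of even degree. -/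
theorem exists_form_field_sym (K : Type*) [Field K] [Algebra F K] [Finite K] (e : ℕ) (he : e ≠ 0)
    (hcard : Nat.card K = Fintype.card F ^ (2 * e)) :
    ∃ (σ : K →ₐ[F] K) (τ : K →ₗ[F] F), IsFormSym σ τ ∧ ∀ x, σ x = x ^ (Fintype.card F ^ e) := by
  classical
  set q := Fintype.card F with hq
  have hq2 : 2 ≤ q := Fintype.one_lt_card
  letI : Fintype K := Fintype.ofFinite K
  haveI : FiniteDimensional F K := Module.Finite.of_finite
  have hcardK' : Fintype.card K = q ^ (2 * e) := by rw [← Nat.card_eq_fintype_card, hcard]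
  let σ₀ : K ≃ₐ[F] K := FiniteField.frobeniusAlgEquivOfAlgebraic F K
  let σ : K ≃ₐ[F] K := σ₀ ^ e
  have hσ_apply : ∀ x, σ x = x ^ (q ^ e) := by
    intro x
    have h1 : (⇑σ) = (⇑σ₀)^[e] := AlgEquiv.coe_pow σ₀ e
    rw [h1, FiniteField.coe_frobeniusAlgEquivOfAlgebraic_iterate]
  have hσσ : ∀ x, σ (σ x) = x := by
    intro x
    rw [hσ_apply, hσ_apply, ← pow_mul, ← pow_add, ← two_mul, ← hcardK']
    exact FiniteField.pow_card x
  refine ⟨σ.toAlgHom, Algebra.trace F K, ⟨hσσ, ?_, ?_⟩, hσ_apply⟩
  · intro f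
    exact Algebra.trace_eq_of_algEquiv σ f
  · intro f hf
    exact (traceForm_nondegenerate F K).1 f hf

theorem finrank_triv' (a : ℕ) : finrank F (Fin a → F) = a := by
  simp

theorem Dk_one_sub' {V : Type*} [AddCommGroup V] [Module F V] [FiniteDimensional F V] :
    Dk (1 : End F V) (X - 1 : F[X]) = finrank F V := Dk_one_sub

variable (hq : Fintype.card F = q)
include hq

open scoped _root_.Classical in
/-- One field of even degree. -/
theorem exists_line {g : F[X]} (hg : Irreducible g) (hgr : g ∣ X ^ r - 1) {e : ℕ} (he : e ≠ 0)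
    (hdeg : g.natDegree = 2 * e) (hrq : r ∣ q ^ e + 1) :
    ∃ (V : Type u) (_ : AddCommGroup V) (_ : Module F V) (_ : FiniteDimensional F V)
      (B : LinearMap.BilinForm F V) (T : End F V), Oz B T r ∧ finrank F V = 2 * e ∧
      (∀ P : F[X], Dk T P = if g ∣ P then 2 * e else 0) ∧ ∀ z : F, T ≠ z • 1 := by
  classical
  subst hq
  haveI : Fact (Irreducible g) := ⟨hg⟩
  let K := AdjoinRoot g
  have hpb := AdjoinRoot.powerBasis hg.ne_zero
  haveI : FiniteDimensional F K := (AdjoinRoot.powerBasis hg.ne_zero).finite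
  haveI : Finite K := Module.finite_of_finite F
  have hfin : finrank F K = 2 * e := by
    rw [(AdjoinRoot.powerBasis hg.ne_zero).finrank, AdjoinRoot.powerBasis_dim, hdeg]
  have hcard : Nat.card K = Fintype.card F ^ (2 * e) := by
    rw [Module.natCard_eq_pow_finrank (K := F), hfin, Nat.card_eq_fintype_card]
  obtain ⟨σ, τ, hf, hσ⟩ := exists_form_field_sym (F := F) K e he hcard
  let ω : K := AdjoinRoot.root g
  have hω : ω ^ r = 1 := by
    have h1 : AdjoinRoot.mk g (X ^ r - 1) = 0 := (AdjoinRoot.mk_eq_zero).mpr hgr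
    rw [map_sub, map_pow, AdjoinRoot.mk_X, map_one, sub_eq_zero] at h1
    exact h1
  have hx : ω * σ ω = 1 := by
    rw [hσ]
    obtain ⟨c, hc⟩ := hrq
    have : ω * ω ^ (Fintype.card F ^ e) = ω ^ (Fintype.card F ^ e + 1) := by
      rw [pow_succ, mul_comm]
    rw [this, hc, pow_mul, hω, one_pow]
  have hker : ∀ P : F[X], Polynomial.aeval ω P = 0 ↔ g ∣ P := by
    intro P
    rw [← AdjoinRoot.mk_eq_zero]
    have : Polynomial.aeval ω P = AdjoinRoot.mk g P := AdjoinRoot.aeval_eq P
    rw [this]
  refine ⟨K, inferInstance, inferInstance, inferInstance, form σ τ, Algebra.lmul F K ω,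
    Oz.lmul hf hx hω, hfin, ?_, ?_⟩
  · intro P
    rw [Dk_lmul, hfin]
    by_cases h : g ∣ P
    · rw [if_pos ((hker P).mpr h), if_pos h]
    · rw [if_neg (fun h' => h ((hker P).mp h')), if_neg h]
  · intro z hz
    have h1 := congrArg (fun S : End F K => S 1) hz
    have h2 : ω * 1 = z • (1 : K) := h1
    have h3 : g ∣ X - C z := by
      rw [← hker, map_sub, aeval_X, aeval_C, sub_eq_zero, ← mul_one ω, h2, Algebra.smul_def, mul_one]
    have h4 := Polynomial.natDegree_le_of_dvd h3 (X_sub_C_ne_zero z)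
    rw [natDegree_X_sub_C, hdeg] at h4
    omega

/-- One double field. -/
theorem exists_double {g : F[X]} (hg : Irreducible g) (hgr : g ∣ X ^ r - 1) (hg1 : ¬ g ∣ X - 1)
    (hr : Odd r) :
    ∃ (V : Type u) (_ : AddCommGroup V) (_ : Module F V) (_ : FiniteDimensional F V)
      (B : LinearMap.BilinForm F V) (T : End F V), Oz B T r ∧ finrank F V = 2 * g.natDegree ∧
      Dk T (X - 1 : F[X]) = 0 ∧ ∀ z : F, T ≠ z • 1 := by
  classical
  subst hq
  haveI : Fact (Irreducible g) := ⟨hg⟩
  let K := AdjoinRoot g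
  haveI : FiniteDimensional F K := (AdjoinRoot.powerBasis hg.ne_zero).finite
  haveI : Finite K := Module.finite_of_finite F
  have hfin : finrank F K = g.natDegree := by
    rw [(AdjoinRoot.powerBasis hg.ne_zero).finrank, AdjoinRoot.powerBasis_dim]
  let ω : K := AdjoinRoot.root g
  have hω : ω ^ r = 1 := by
    have h1 : AdjoinRoot.mk g (X ^ r - 1) = 0 := (AdjoinRoot.mk_eq_zero).mpr hgr
    rw [map_sub, map_pow, AdjoinRoot.mk_X, map_one, sub_eq_zero] at h1
    exact h1
  have hω0 : ω ≠ 0 := by
    intro h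
    rw [h, zero_pow hr.pos.ne'] at hω
    exact zero_ne_one hω
  have hω1 : ω ≠ 1 := by
    intro h
    apply hg1
    rw [← AdjoinRoot.mk_eq_zero, map_sub, AdjoinRoot.mk_X, map_one, sub_eq_zero]
    exact h
  let R := K × K
  let σ : R →ₐ[F] R := (AlgHom.snd F K K).prod (AlgHom.fst F K K)
  let τ : R →ₗ[F] F := (Algebra.trace F K).coprod (Algebra.trace F K)
  have hf : IsFormSym σ τ := by
    refine ⟨fun f => rfl, fun f => ?_, ?_⟩
    · change Algebra.trace F K f.2 + Algebra.trace F K f.1 = Algebra.trace F K f.1 + Algebra.trace F K f.2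
      exact add_comm _ _
    · intro f hf
      apply Prod.ext
      · apply (traceForm_nondegenerate F K).1
        intro y
        have := hf (y, 0)
        change Algebra.trace F K (f.1 * y) + Algebra.trace F K (f.2 * 0) = 0 at this
        simpa using this
      · apply (traceForm_nondegenerate F K).1
        intro y
        have := hf (0, y)
        change Algebra.trace F K (f.1 * 0) + Algebra.trace F K (f.2 * y) = 0 at this
        simpa using this
  let x : R := (ω, ω⁻¹)
  have hx : x * σ x = 1 := by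
    apply Prod.ext
    · exact mul_inv_cancel₀ hω0
    · exact inv_mul_cancel₀ hω0
  have hxr : x ^ r = 1 := by
    apply Prod.ext
    · change ω ^ r = 1
      exact hω
    · change ω⁻¹ ^ r = 1
      rw [inv_pow, hω, inv_one]
  refine ⟨R, inferInstance, inferInstance, inferInstance, form σ τ, Algebra.lmul F R x,
    Oz.lmul hf hx hxr, ?_, ?_, ?_⟩
  · rw [Module.finrank_prod, hfin, two_mul]
  · unfold Dk
    have h1 : LinearMap.ker (Polynomial.aeval (Algebra.lmul F R x : End F R) (X - 1 : F[X])) = ⊥ := by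
      rw [LinearMap.ker_eq_bot']
      intro f hf'
      rw [aeval_lmul] at hf'
      have h2 : Polynomial.aeval x (X - 1 : F[X]) = x - 1 := by simp
      rw [h2] at hf'
      have h3 : (ω - 1) * f.1 = 0 := congrArg Prod.fst hf'
      have h4 : (ω⁻¹ - 1) * f.2 = 0 := congrArg Prod.snd hf'
      have h5 : ω⁻¹ ≠ 1 := by
        intro h
        exact hω1 (inv_eq_one.mp h)
      apply Prod.ext
      · exact (mul_eq_zero.mp h3).resolve_left (sub_ne_zero.mpr hω1)
      · exact (mul_eq_zero.mp h4).resolve_left (sub_ne_zero.mpr h5)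
    rw [h1]
    exact finrank_bot F R
  · intro z hz
    have h1 := congrArg (fun S : End F R => S (1, 0)) hz
    have h2 := congrArg (fun S : End F R => S (0, 1)) hz
    have h3 : ω * 1 = z • (1 : K) := congrArg Prod.fst h1
    have h4 : ω⁻¹ * 1 = z • (1 : K) := congrArg Prod.snd h2
    rw [mul_one] at h3 h4
    have h5 : ω⁻¹ = ω := h4.trans h3.symm
    have h6 : ω * ω = 1 := by
      nth_rw 1 [← h5]
      exact inv_mul_cancel₀ hω0
    obtain ⟨a, rfl⟩ := hr
    apply hω1
    have h7 : ω ^ (2 * a + 1) = (ω * ω) ^ a * ω := by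
      rw [pow_succ, pow_mul, sq]
    rw [h7, h6, one_pow, one_mul] at hω
    exact hω

/-- Models with fixed space of dimension `a` and `s` double fields. -/
theorem model_odd {g : F[X]} (hg : Irreducible g) (hgr : g ∣ X ^ r - 1) (hg1 : ¬ g ∣ X - 1)
    (hr : Odd r) (a s : ℕ) :
    ∃ (V : Type u) (_ : AddCommGroup V) (_ : Module F V) (_ : FiniteDimensional F V)
      (B : LinearMap.BilinForm F V) (T : End F V), Oz B T r ∧
      finrank F V = a + 2 * g.natDegree * s ∧
      Dk T (X - 1 : F[X]) = a ∧ (0 < s → ∀ z : F, T ≠ z • 1) := by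
  induction s with
  | zero =>
    refine ⟨Fin a → F, inferInstance, inferInstance, inferInstance, _, 1, Oz.triv a r,
      ?_, ?_, fun h => absurd h (lt_irrefl _)⟩
    · rw [finrank_triv']; simp
    · rw [Dk_one_sub', finrank_triv']
  | succ s ih =>
    obtain ⟨V, _, _, _, B, T, h, hf, hD, -⟩ := ih
    obtain ⟨V', _, _, _, B', T', h', hf', hD', hNS'⟩ := exists_double hq hg hgr hg1 hr
    refine ⟨V × V', inferInstance, inferInstance, inferInstance, sumForm B B', LinearMap.prodMap T T',
      Oz.prod h h', ?_, ?_, fun _ => not_scalar_prod_right T hNS'⟩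
    · rw [Module.finrank_prod, hf, hf']; ring
    · rw [Dk_prod, hD, hD', add_zero]

open scoped _root_.Classical in
/-- Models with fixed space of dimension `a` and one field for every member of a list. -/
theorem model_even {e : ℕ} (he : e ≠ 0) (hrq : r ∣ q ^ e + 1) (a : ℕ) (l : List F[X])
    (hl : ∀ g ∈ l, Irreducible g ∧ g.Monic ∧ g ∣ X ^ r - 1 ∧ ¬ g ∣ X - 1 ∧ g.natDegree = 2 * e) :
    ∃ (V : Type u) (_ : AddCommGroup V) (_ : Module F V) (_ : FiniteDimensional F V)
      (B : LinearMap.BilinForm F V) (T : End F V), Oz B T r ∧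
      finrank F V = a + 2 * e * l.length ∧
      Dk T (X - 1 : F[X]) = a ∧
      (∀ h : F[X], h.Monic → Irreducible h → ¬ h ∣ X - 1 → Dk T h = 2 * e * l.count h) ∧
      (l ≠ [] → ∀ z : F, T ≠ z • 1) := by
  induction l with
  | nil =>
    refine ⟨Fin a → F, inferInstance, inferInstance, inferInstance, _, 1, Oz.triv a r,
      ?_, ?_, ?_, fun h => absurd rfl h⟩
    · rw [finrank_triv']; simp
    · rw [Dk_one_sub', finrank_triv']
    · intro h hm hi h1
      rw [Dk_one]
      · simp
      · intro h0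
        apply h1
        have h2 : X - C 1 ∣ h := Polynomial.dvd_iff_isRoot.mpr h0
        have h3 := (Polynomial.irreducible_X_sub_C (1 : F)).dvd_symm hi h2
        simpa using h3
  | cons g l ih =>
    obtain ⟨hg, hgm, hgr, hg1, hgd⟩ := hl g (List.mem_cons_self)
    obtain ⟨V, _, _, _, B, T, h, hf, hD, hDh, -⟩ := ih (fun g' hg' => hl g' (List.mem_cons_of_mem _ hg'))
    obtain ⟨V', _, _, _, B', T', h', hf', hD', hNS'⟩ := exists_line hq hg hgr he hgd hrq
    refine ⟨V × V', inferInstance, inferInstance, inferInstance, sumForm B B', LinearMap.prodMap T T',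
      Oz.prod h h', ?_, ?_, ?_, fun _ => not_scalar_prod_right T hNS'⟩
    · rw [Module.finrank_prod, hf, hf', List.length_cons]; ring
    · rw [Dk_prod, hD, hD', if_neg hg1, add_zero]
    · intro k hkm hki hk1
      rw [Dk_prod, hDh k hkm hki hk1, hD', List.count_cons]
      by_cases hgk : g = k
      · subst hgk
        simp
        ring
      · have h1 : ¬ g ∣ k := by
          intro hdvd
          apply hgk
          exact Polynomial.eq_of_monic_of_associated hgm hkm (hg.associated_of_dvd hki hdvd)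
        rw [if_neg h1]
        simp [hgk]

omit hq in
/-- The model with the maximal number of blocks. -/
theorem exists_max_model (hq : Fintype.card F = q) (hr : r.Prime) (hr2 : r ≠ 2) (hrF : (r : F) ≠ 0)
    (hrq : ¬ r ∣ q) (a s : ℕ) :
    ∃ (V : Type u) (_ : AddCommGroup V) (_ : Module F V) (_ : FiniteDimensional F V)
      (B : LinearMap.BilinForm F V) (T : End F V), Oz B T r ∧
      finrank F V = a + cOf (orderOf (q : ZMod r)) * s ∧
      Dk T (X - 1 : F[X]) = a ∧ (0 < s → ∀ z : F, T ≠ z • 1) := by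
  classical
  obtain ⟨S, hS, hprod, hcard⟩ := exists_factors hq hr hrF hrq
  have hrpos := hr.two_le
  have hipos := ord_pos (q := q) hr hrq
  have hSne : S.Nonempty := by
    rw [← Finset.card_pos]
    rcases Nat.eq_zero_or_pos S.card with h0 | h0
    · rw [h0, zero_mul] at hcard
      omega
    · exact h0
  obtain ⟨g, hg⟩ := hSne
  obtain ⟨hgi, hgm, hgr, hg1, hgd⟩ := hS g hg
  unfold cOf
  split_ifs with hev
  · obtain ⟨e, he⟩ := hev
    have hi : orderOf (q : ZMod r) = 2 * e := by omega
    have he0 : 0 < e := by omega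
    have hrq' := dvd_pow_add_one (q := q) hr hi he0
    obtain ⟨V, i1, i2, i3, B, T, hOz, hf, hD, -, hNS⟩ := model_even hq he0.ne' hrq' a
      (List.replicate s g) (by
        intro g' hg'
        rw [List.eq_of_mem_replicate hg', ← hi]
        exact hS g hg)
    refine ⟨V, i1, i2, i3, B, T, hOz, ?_, hD, fun hs => hNS (by
      intro h0
      have := congrArg List.length h0
      simp at this
      omega)⟩
    rw [hf, List.length_replicate, hi]
  · obtain ⟨V, i1, i2, i3, B, T, hOz, hf, hD, hNS⟩ := model_odd hq hgi hgr hg1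
      (hr.odd_of_ne_two hr2) a s
    refine ⟨V, i1, i2, i3, B, T, hOz, ?_, hD, hNS⟩
    rw [hf, hgd]

end Field

end Cfsg.Agent.Lib.ElusQ.Model
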