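import Cfsg.Agent.Lib.ElusQ.Syl

/-!
# Nondegenerate even-dimensional subspaces fixed by isometries of odd prime order in odd dimension
-/

set_option autoImplicit false
set_option linter.unusedSectionVars false
set_option linter.style.haveILetI false
set_option linter.unusedVariables false
set_option linter.unusedSimpArgs false

open Polynomial Module QuadraticMap

universe u v w

namespace Cfsg.Agent.Lib.ElusQ.OddMain

open Cfsg.Agent.Lib.ElusL.Basic Cfsg.Agent.Lib.ElusL.Cyc Cfsg.Agent.Lib.ElusF.Form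
  Cfsg.Agent.Lib.ElusF.Step Cfsg.Agent.Lib.ElusF.Split Cfsg.Agent.Lib.ElusF.SpModel
  Cfsg.Agent.Lib.ElusQ.Disc Cfsg.Agent.Lib.ElusQ.Count Cfsg.Agent.Lib.ElusQ.Oz Cfsg.Agent.Lib.ElusQ.Pos
  Cfsg.Agent.Lib.ElusQ.Model Cfsg.Agent.Lib.ElusQ.Syl
  Cfsg.Agent.Lib.Witt.Quadratic Cfsg.Agent.Lib.QuadDisc.Basic Cfsg.Agent.Lib.QuadDisc.Classify

variable {F : Type u} [Field F] [Fintype F] {V : Type v} [AddCommGroup V] [Module F V]
  [FiniteDimensional F V] {q r : ℕ}

/-- Nondegenerate subspaces of a given dimension and type. -/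
def PW (Q : QuadraticForm F V) (m : ℕ) (τ : Prop) (W : Submodule F V) : Prop :=
  finrank F W = m ∧ Nd (fun u v => polarBilin Q u v) W ∧ (Hy (polarBilin Q) W ↔ τ)

theorem nd_map {Q : QuadraticForm F V} (g : V ≃ₗ[F] V) (hg : g ∈ isoGroup Q) {W : Submodule F V}
    (h : Nd (fun u v => polarBilin Q u v) W) : Nd (fun u v => polarBilin Q u v) (W.map (g : V →ₗ[F] V)) := by
  rintro _ ⟨u, hu, rfl⟩ hh
  have h1 : u = 0 := by
    apply h u hu
    intro v hv
    have h3 : polar (⇑Q) (g u) (g v) = 0 := hh (g v) ⟨v, hv, rfl⟩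
    have h4 := polar_eq_of_preserves (Q := Q) g hg u v
    change polar (⇑Q) u v = 0
    rw [← h4]
    exact h3
  rw [h1]
  simp

theorem hy_map_of {Q : QuadraticForm F V} (g : V ≃ₗ[F] V) (hg : g ∈ isoGroup Q) {W : Submodule F V}
    (h : Hy (polarBilin Q) W) : Hy (polarBilin Q) (W.map (g : V →ₗ[F] V)) := by
  obtain ⟨X, hXW, hX, hXd⟩ := h
  refine ⟨X.map (g : V →ₗ[F] V), Submodule.map_mono hXW, ?_, ?_⟩
  · rintro _ ⟨x, hx, rfl⟩ _ ⟨y, hy, rfl⟩
    have h3 := hX x hx y hy
    have h4 := polar_eq_of_preserves (Q := Q) g hg x y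
    rw [polarBilin_apply_apply] at h3 ⊢
    change polar (⇑Q) (g x) (g y) = 0
    rw [h4, h3]
  · rw [LinearEquiv.finrank_map_eq, LinearEquiv.finrank_map_eq]
    exact hXd

theorem hy_map {Q : QuadraticForm F V} (g : V ≃ₗ[F] V) (hg : g ∈ isoGroup Q) {W : Submodule F V} :
    Hy (polarBilin Q) (W.map (g : V →ₗ[F] V)) ↔ Hy (polarBilin Q) W := by
  refine ⟨fun h => ?_, hy_map_of g hg⟩
  have h1 := hy_map_of g⁻¹ ((isoGroup Q).inv_mem hg) h
  rwa [← map_mul_equiv, inv_mul_cancel, show (((1 : V ≃ₗ[F] V) : V →ₗ[F] V)) = LinearMap.id from rfl,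
    Submodule.map_id] at h1

theorem pw_map {Q : QuadraticForm F V} {m : ℕ} {τ : Prop} (g : V ≃ₗ[F] V) (hg : g ∈ isoGroup Q)
    {W : Submodule F V} (h : PW Q m τ W) : PW Q m τ (W.map (g : V →ₗ[F] V)) :=
  ⟨by rw [LinearEquiv.finrank_map_eq, h.1], nd_map g hg h.2.1, (hy_map g hg).trans h.2.2⟩

/-- Witt's theorem for subspaces of a symmetric bilinear space. -/
theorem trans_of_iso {Q : QuadraticForm F V} (hN : (polarBilin Q).Nondegenerate) (h2 : (2 : F) ≠ 0)
    {W W' : Submodule F V} (φ : W ≃ₗ[F] W') (hφ : ∀ x y, polarBilin Q (φ x : V) (φ y : V) = polarBilin Q (x : V) (y : V)) :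
    ∃ g : V ≃ₗ[F] V, g ∈ isoGroup Q ∧ W.map (g : V →ₗ[F] V) = W' := by
  obtain ⟨g, hg, hgφ⟩ := witt_extension hN W W' φ (fun x => by
    have := hφ x x
    rw [Cfsg.Agent.Lib.ElusQ.Syl.polar_self', Cfsg.Agent.Lib.ElusQ.Syl.polar_self'] at this
    exact mul_left_cancel₀ h2 this)
  refine ⟨g, hg, ?_⟩
  apply le_antisymm
  · rintro _ ⟨x, hx, rfl⟩
    have := hgφ ⟨x, hx⟩
    change g x ∈ W'
    rw [show g x = g ((⟨x, hx⟩ : W) : V) from rfl, this]
    exact (φ ⟨x, hx⟩).2
  · intro y hy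
    obtain ⟨x, hx⟩ := φ.surjective ⟨y, hy⟩
    refine ⟨x, x.2, ?_⟩
    change g (x : V) = y
    rw [hgφ x, hx]

theorem pw_trans {Q : QuadraticForm F V} (hN : (polarBilin Q).Nondegenerate) (h2 : (2 : F) ≠ 0) {l : ℕ} {τ : Prop}
    {W W' : Submodule F V} (h : PW Q (2 * l) τ W) (h' : PW Q (2 * l) τ W') :
    ∃ g : V ≃ₗ[F] V, g ∈ isoGroup Q ∧ W.map (g : V →ₗ[F] V) = W' := by
  obtain ⟨φ, hφ⟩ := exists_iso_of_hy h2 (polar_symm Q) h.2.1 h'.2.1 h.1 h'.1 (h.2.2.trans h'.2.2.symm)
  exact trans_of_iso hN h2 φ hφ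

/-- A `r`-group fixes a member of the family if the dimension is small. -/
theorem not_dvd_small {Q : QuadraticForm F V} (hN : (polarBilin Q).Nondegenerate) (h2 : (2 : F) ≠ 0)
    (hq : Fintype.card F = q) (hr : r.Prime) (hr2 : r ≠ 2) (hrF : (r : F) ≠ 0) (hrq : ¬ r ∣ q)
    (hi1 : orderOf (q : ZMod r) ≠ 1) {l : ℕ} (hl : 1 ≤ l) (τ : Prop)
    (ht : 2 * l < finrank F V % cOf (orderOf (q : ZMod r))) :
    ¬ r ∣ Nat.card {W // PW Q (2 * l) τ W} := by
  haveI : Fact r.Prime := ⟨hr⟩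
  apply not_dvd_of_fixed Q (PW Q (2 * l) τ) (fun g hg W h => pw_map g hg h)
    (fun W W' h h' => pw_trans hN h2 h h')
  intro S hS
  obtain ⟨hC, k, hk⟩ := syl_dim hN h2 hq hr hr2 hrF hrq hi1 hS
  have hle : 2 * l < finrank F (fixSub Q S) := by
    have h3 : finrank F V % cOf (orderOf (q : ZMod r)) = finrank F (fixSub Q S) % cOf (orderOf (q : ZMod r)) := by
      rw [hk, Nat.add_mul_mod_self_left]
    rw [h3] at ht
    exact lt_of_lt_of_le ht (Nat.mod_le _ _)
  have hbot : Nd (fun u v => polarBilin Q u v) (⊥ : Submodule F V) := fun u hu _ => (Submodule.mem_bot F).mp hu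
  obtain ⟨W, hWC, hW, hWd, hn, hdim, hτ⟩ := exists_sub_type h2 (polar_symm Q) hN hC hbot
    (fun x _ y hy => by
      rw [(Submodule.mem_bot F).mp hy]
      simp) (u := 2 * l) (l := l) (by omega) hle (by rw [finrank_bot]; omega) τ
  rw [sup_bot_eq] at hτ
  refine ⟨W, ⟨hWd, hW, hτ⟩, ?_⟩
  intro g hg
  apply le_antisymm
  · rintro _ ⟨x, hx, rfl⟩
    change ((g : isoGroup Q) : V ≃ₗ[F] V) x ∈ W
    rw [hWC hx g hg]
    exact hx
  · intro x hx
    refine ⟨x, hx, ?_⟩
    exact hWC hx g hg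

/-- Models can be transported into odd-dimensional spaces. -/
theorem exists_conj_odd {Q : QuadraticForm F V} (hN : (polarBilin Q).Nondegenerate) (h2 : (2 : F) ≠ 0)
    (hodd : Odd (finrank F V)) {V' : Type w} [AddCommGroup V'] [Module F V'] [FiniteDimensional F V']
    {B' : LinearMap.BilinForm F V'} {T' : End F V'} (h' : Oz B' T' r) (hd : finrank F V' = finrank F V) :
    ∃ T : End F V, Oz (polarBilin Q) T r ∧ Dk T (X - 1 : F[X]) = Dk T' (X - 1 : F[X]) ∧
      ((∀ z : F, T' ≠ z • 1) → T ≠ 1) := by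
  classical
  set G := LinearMap.BilinForm.toMatrix (finBasis F V') B' with hG
  set G₀ := LinearMap.BilinForm.toMatrix (finBasis F V) (polarBilin Q) with hG₀
  have hdG : G.det ≠ 0 := (nondegenerate_iff_det (finBasis F V') B').mp h'.nondeg
  have hd₀ : G₀.det ≠ 0 := (nondegenerate_iff_det (finBasis F V) (polarBilin Q)).mp hN
  set lam : F := G.det * G₀.det with hlam
  have hlam0 : lam ≠ 0 := mul_ne_zero hdG hd₀
  have hN₁ : (lam • B').Nondegenerate := by
    have hrefl : (lam • B').IsRefl := by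
      intro x y h
      have h3 : lam * B' x y = 0 := by simpa using h
      have h4 := (mul_eq_zero.mp h3).resolve_left hlam0
      simp [h'.symm.eq y x, h4]
    refine (LinearMap.IsRefl.nondegenerate_iff_separatingLeft hrefl).2 ?_
    intro x hx
    apply h'.nondeg.1 x
    intro y
    have h3 : lam * B' x y = 0 := by simpa using hx y
    exact (mul_eq_zero.mp h3).resolve_left hlam0
  have hS₁ : (lam • B').IsSymm := ⟨fun x y => by
    simp [h'.symm.eq y x]⟩
  obtain ⟨k, hk⟩ := hodd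
  obtain ⟨g, hg⟩ := exists_isometry h2 (polarBilin Q) (lam • B') hN hN₁ (polar_symm Q) hS₁ hd.symm (by
    have h3 : LinearMap.BilinForm.toMatrix (finBasis F V') (lam • B') = lam • G := by
      rw [map_smul]
    rw [h3, Matrix.det_smul]
    simp only [Fintype.card_fin, hd, hk]
    refine ⟨lam ^ (k + 1), ?_⟩
    rw [← pow_add]
    have : k + 1 + (k + 1) = 2 * k + 1 + 1 := by ring
    rw [this, pow_succ lam (2 * k + 1)]
    simp only [hlam]
    ring)
  let T : End F V := (g.symm : V' →ₗ[F] V) ∘ₗ T' ∘ₗ (g : V →ₗ[F] V')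
  have hTa : ∀ x, g (T x) = T' (g x) := by
    intro x
    simp [T]
  have hTp : ∀ (k : ℕ) (x : V), g ((T ^ k) x) = (T' ^ k) (g x) := by
    intro k
    induction k with
    | zero => intro x; rfl
    | succ k ih =>
      intro x
      rw [pow_succ, pow_succ, Module.End.mul_apply, Module.End.mul_apply, ih, hTa]
  refine ⟨T, ⟨polar_symm Q, hN, ?_, ?_⟩, ?_, ?_⟩
  · intro u v
    have h3 := hg (T u) (T v)
    have h4 := hg u v
    rw [hTa, hTa] at h3
    simp only [LinearMap.smul_apply] at h3 h4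
    rw [← h3, ← h4]
    simp only [h'.iso]
  · apply LinearMap.ext
    intro x
    apply g.injective
    rw [hTp, h'.pow]
    rfl
  · unfold Dk
    have h3 : (LinearMap.ker (Polynomial.aeval T (X - 1 : F[X]))).map (g : V →ₗ[F] V') =
        LinearMap.ker (Polynomial.aeval T' (X - 1 : F[X])) := by
      ext v
      constructor
      · rintro ⟨x, hx, rfl⟩
        rw [mem_fix]
        change T' (g x) = g x
        rw [← hTa, mem_fix.mp hx]
      · intro hv
        refine ⟨g.symm v, ?_, by simp⟩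
        change g.symm v ∈ LinearMap.ker _
        rw [mem_fix]
        apply g.injective
        rw [hTa]
        simp [mem_fix.mp hv]
    rw [← h3, LinearEquiv.finrank_map_eq]
  · intro hNS hT1
    apply hNS 1
    apply LinearMap.ext
    intro v
    have h3 := hTa (g.symm v)
    rw [hT1] at h3
    simp only [LinearEquiv.apply_symm_apply, Module.End.one_apply] at h3
    rw [one_smul]
    exact h3.symm

/-- The forward direction. -/
theorem main_forward {Q : QuadraticForm F V} (hN : (polarBilin Q).Nondegenerate) (h2 : (2 : F) ≠ 0)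
    (hq : Fintype.card F = q) (hr : r.Prime) (hr2 : r ≠ 2) (hrF : (r : F) ≠ 0) (hrq : ¬ r ∣ q)
    (hodd : Odd (finrank F V)) {l : ℕ} (hl : 1 ≤ l) (hln : 2 * l < finrank F V) (τ : Prop)
    (hdvd : r ∣ Nat.card {W // PW Q (2 * l) τ W})
    (hL : ∀ T : End F V, Oz (polarBilin Q) T r → T ≠ 1 → ∃ W, PW Q (2 * l) τ W ∧ Inv T W) :
    cOf (orderOf (q : ZMod r)) ≤ 2 * l ∧
      2 * l % cOf (orderOf (q : ZMod r)) < finrank F V % cOf (orderOf (q : ZMod r)) ∧
      (2 * l % cOf (orderOf (q : ZMod r)) = 0 →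
        (Even (orderOf (q : ZMod r)) → (Even (2 * l / orderOf (q : ZMod r)) ↔ τ)) ∧
        (Odd (orderOf (q : ZMod r)) → τ)) := by
  classical
  set i := orderOf (q : ZMod r) with hi
  have hipos : 0 < i := ord_pos hr hrq
  set c := cOf i with hc
  have hc0 : 0 < c := cOf_pos hipos
  have hce : Even c := even_cOf i
  set n := finrank F V with hn
  have hSmall : ¬ (2 * l < c ∧ 2 * l < n % c) := by
    rintro ⟨h3, h4⟩
    have hi1 : i ≠ 1 := by
      intro h5
      rw [hc, h5] at h3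
      have : cOf 1 = 2 := rfl
      omega
    exact not_dvd_small hN h2 hq hr hr2 hrF hrq hi1 hl τ h4 hdvd
  have hcn : c ≤ n := by
    by_contra hlt
    push Not at hlt
    apply hSmall
    rw [Nat.mod_eq_of_lt hlt]
    omega
  have hnk : n = n % c + c * (n / c) := (Nat.mod_add_div n c).symm
  have hkpos : 0 < n / c := Nat.div_pos hcn hc0
  obtain ⟨V', i1, i2, i3, B', T', hOz, hf, hD, hNS⟩ := exists_max_model (F := F) hq hr hr2 hrF hrq (n % c) (n / c)
  obtain ⟨T, hT, hDT, hT1⟩ := exists_conj_odd hN h2 hodd hOz (by rw [hf]; exact hnk.symm)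
  obtain ⟨W, ⟨hWd, hWn, hWt⟩, hWi⟩ := hL T hT (hT1 (hNS hkpos))
  have hK0 : finrank F (K0 T) = n % c := by
    change Dk T (X - 1 : F[X]) = _
    rw [hDT, hD]
  have hlt : finrank F (K0 T) < c := by
    rw [hK0]
    exact Nat.mod_lt _ hc0
  obtain ⟨h3, h4, h5⟩ := residue hT h2 hq hr hr2 hrF hrq hWn hWi hlt
  rw [hWd, ← hi, ← hc] at h3 h5
  have hmodle : 2 * l % c ≤ n % c := by
    rw [h3, ← hK0]
    exact h4
  have hmodne : 2 * l % c ≠ n % c := by
    obtain ⟨a, ha⟩ := hce
    have h6 : (n % c) % 2 = n % 2 := by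
      rw [ha, ← two_mul]
      exact Nat.mod_mul_right_mod _ _ _
    have h7 : (2 * l % c) % 2 = 0 := by
      rw [ha, ← two_mul, Nat.mod_mul_right_mod]
      omega
    obtain ⟨b, hb⟩ := hodd
    omega
  have hmodlt : 2 * l % c < n % c := lt_of_le_of_ne hmodle hmodne
  refine ⟨?_, hmodlt, ?_⟩
  · by_contra hcm
    push Not at hcm
    apply hSmall
    refine ⟨hcm, ?_⟩
    rw [Nat.mod_eq_of_lt hcm] at hmodlt
    exact hmodlt
  · intro hz
    have h0 : finrank F (W ⊓ K0 T : Submodule F V) = 0 := by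
      rw [← h3, hz]
    have hWK := hy_of_no_fixed hT hrF hWi h0
    constructor
    · intro hev
      obtain ⟨e, he⟩ := hev
      have hci : c = i := by
        rw [hc]
        unfold cOf
        rw [if_pos ⟨e, he⟩]
      have hi2 : i = 2 * e := by omega
      have h6 := hy_even hT h2 hq hr hr2 hrF hrq (s := 2 * l / i) hi2 (by omega) hWK hWn hWi (by
        rw [hWd, ← hi2, ← hci]
        have := Nat.mod_add_div (2 * l) c
        rw [hz, zero_add] at this
        exact this.symm)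
      rw [← h6, hWt]
    · intro hod
      exact hWt.mp (hy_odd hT h2 hq hr (hr.odd_of_ne_two hr2) hrF hrq hod hWK hWn hWi)

/-- The backward direction. -/
theorem main_backward {Q : QuadraticForm F V} (hN : (polarBilin Q).Nondegenerate) (h2 : (2 : F) ≠ 0)
    (hq : Fintype.card F = q) (hr : r.Prime) (hr2 : r ≠ 2) (hrF : (r : F) ≠ 0) (hrq : ¬ r ∣ q)
    (hodd : Odd (finrank F V)) {l : ℕ} (hl : 1 ≤ l) (hln : 2 * l < finrank F V) (τ : Prop)
    (hmod : 2 * l % cOf (orderOf (q : ZMod r)) < finrank F V % cOf (orderOf (q : ZMod r)))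
    (hz : 2 * l % cOf (orderOf (q : ZMod r)) = 0 →
        (Even (orderOf (q : ZMod r)) → (Even (2 * l / orderOf (q : ZMod r)) ↔ τ)) ∧
        (Odd (orderOf (q : ZMod r)) → τ))
    {T : End F V} (hT : Oz (polarBilin Q) T r) : ∃ W, PW Q (2 * l) τ W ∧ Inv T W := by
  classical
  set i := orderOf (q : ZMod r) with hi
  have hipos : 0 < i := ord_pos hr hrq
  set c := cOf i with hc
  have hc0 : 0 < c := cOf_pos hipos
  have hce : Even c := even_cOf i
  set n := finrank F V with hn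
  have hnd1 := nd_K1 hT hrF
  have hsum := finrank_K hT hrF
  obtain ⟨k, hk⟩ := c_dvd hT h2 hq hr (hr.odd_of_ne_two hr2) hrF hrq hnd1 (inv_ker T _) le_rfl
  rw [← hi, ← hc] at hk
  set a := finrank F (K0 T) with ha
  have hna : n = a + c * k := by
    rw [hn, hsum, hk]
  have hmoda : n % c = a % c := by
    rw [hna, Nat.add_mul_mod_self_left]
  have hale : n % c ≤ a := by
    rw [hmoda]
    exact Nat.mod_le _ _
  have hm' := Nat.mod_add_div (2 * l) c
  set s := min (2 * l / c) k with hs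
  have hsc : s ≤ 2 * l / c := min_le_left _ _
  have hsk : s ≤ k := min_le_right _ _
  have hle : c * s ≤ c * (2 * l / c) := Nat.mul_le_mul_left c hsc
  have hle₁ : c * s ≤ c * k := Nat.mul_le_mul_left c hsk
  by_cases hcase : 2 * l % c = 0 ∧ 2 * l / c ≤ k
  · obtain ⟨h0, hdk⟩ := hcase
    have hss : s = 2 * l / c := min_eq_left hdk
    rw [h0, zero_add] at hm'
    obtain ⟨U, hU₁, hU, hUi, hUd⟩ := exists_blocks hT h2 hq hr hr2 hrF hrq s (by
      rw [← hi, ← hc, hk]
      exact hle₁)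
    rw [← hi, ← hc, hss, hm'] at hUd
    refine ⟨U, ⟨hUd, hU, ?_⟩, hUi⟩
    obtain ⟨hz1, hz2⟩ := hz h0
    rcases Nat.even_or_odd i with he | ho
    · obtain ⟨e, hee⟩ := he
      have hci : c = i := by
        rw [hc]
        unfold cOf
        rw [if_pos ⟨e, hee⟩]
      have hi2 : i = 2 * e := by omega
      have h6 := hy_even hT h2 hq hr hr2 hrF hrq (s := 2 * l / i) hi2 (by omega) hU₁ hU hUi (by
        rw [hUd, ← hi2, ← hci, hm'])
      rw [h6]
      exact hz1 ⟨e, hee⟩
    · have h6 := hy_odd hT h2 hq hr (hr.odd_of_ne_two hr2) hrF hrq ho hU₁ hU hUi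
      exact ⟨fun _ => hz2 ho, fun _ => h6⟩
  · -- the fixed part is involved
    have hne : 1 ≤ 2 * l - c * s := by
      by_contra hcon
      push Not at hcon
      have h3 : 2 * l - c * s = 0 := by omega
      have h4 : 2 * l = c * s := by omega
      have h5 : 2 * l % c = 0 := by
        rw [h4]
        exact Nat.mul_mod_right _ _
      have h6 : 2 * l / c = s := by
        rw [h4]
        exact Nat.mul_div_cancel_left _ hc0
      apply hcase
      exact ⟨h5, by omega⟩
    have hlt : 2 * l - c * s < a := by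
      by_cases hdk : 2 * l / c ≤ k
      · have hss : s = 2 * l / c := min_eq_left hdk
        rw [hss]
        omega
      · have hss : s = k := min_eq_right (by omega)
        rw [hss]
        omega
    obtain ⟨W, h1, h3, h4, h5⟩ := exists_W_mixed hT h2 hq hr hr2 hrF hrq (s := s) (u := 2 * l - c * s) (l := l)
      (by
        rw [← hi, ← hc, hk]
        exact hle₁) hne hlt (by
        rw [← hi, ← hc]
        omega) τ
    exact ⟨W, ⟨h4, h1, h5⟩, h3⟩

end Cfsg.Agent.Lib.ElusQ.OddMain
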