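import Cfsg.Agent.Lib.ElusQ.Bridge

/-!
# The odd-dimensional standard form
-/

set_option autoImplicit false
set_option linter.unusedSectionVars false
set_option linter.style.haveILetI false
set_option linter.unusedVariables false
set_option linter.unusedSimpArgs false

open Polynomial Module QuadraticMap Matrix

universe u v w

namespace Cfsg.Agent.Lib.ElusQ.OddThm

open Cfsg Cfsg.Agent.Lib.ElusL.Basic Cfsg.Agent.Lib.ElusF.Form
  Cfsg.Agent.Lib.ElusQ.Disc Cfsg.Agent.Lib.ElusQ.Oz Cfsg.Agent.Lib.ElusQ.Syl Cfsg.Agent.Lib.ElusQ.OddMain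
  Cfsg.Agent.Lib.ElusQ.Pos Cfsg.Agent.Lib.ElusQ.Bridge
  Cfsg.Agent.Lib.Witt.Quadratic Cfsg.Agent.Lib.Elusive.OmegaMem Cfsg.Agent.Lib.Orth.Bridge Cfsg.Agent.Lib.Orth.Forms

variable {F : Type u} [Field F] [Fintype F] {r q : ℕ}

theorem finrank_odd (d : ℕ) : finrank F (Unit ⊕ (Fin d ⊕ Fin d) → F) = 2 * d + 1 := by
  rw [Module.finrank_fintype_fun_eq_card]
  simp
  ring

/-- Arithmetic: residue of an odd number modulo an even number. -/
theorem odd_mod_pos {n c : ℕ} (hn : Odd n) (hc : Even c) (hc0 : 0 < c) : 0 < n % c := by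
  rcases Nat.eq_zero_or_pos (n % c) with h | h
  · exfalso
    have h1 : c ∣ n := Nat.dvd_of_mod_eq_zero h
    exact (Nat.not_even_iff_odd.mpr hn) (hc.two_dvd.trans h1 |> even_iff_two_dvd.mpr)
  · exact h

/-- Involutions. -/
theorem two_case (h2 : (2 : F) ≠ 0) {d l : ℕ} (hl : 1 ≤ l) (hld : l ≤ d) (τ : Prop) (x : GL (Unit ⊕ (Fin d ⊕ Fin d)) F)
    (hx : x ∈ Cfsg.Geo.omegaGL (Cfsg.quadFormOdd d F)) (hord : x ^ 2 = 1) :
    ∃ W, PW (oddForm d F) (2 * l) τ W ∧ Inv (Matrix.toLin' (x : Matrix _ _ F)) W := by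
  have hN := oddForm_nondeg d h2
  obtain ⟨hxi, -⟩ := (mem_omegaGL_iff _ x).mp hx
  have hT := oz_of_mem (oddForm d F) hN hxi hord
  obtain ⟨W, h1, h3, h4, h5⟩ := exists_W_invol hT h2 hl (by
    rw [finrank_odd]
    exact ⟨d, rfl⟩) (by
    rw [finrank_odd]
    omega) τ
  exact ⟨W, ⟨h4, h1, h5⟩, h3⟩

variable {p : ℕ} [hp : Fact p.Prime] [CharP F p]

theorem not_dvd_q (hq : Fintype.card F = q) (hr : r.Prime) (hrp : r ≠ p) : ¬ r ∣ q := by
  intro h
  obtain ⟨n, hn⟩ := FiniteField.card F p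
  rw [← hq, hn.2] at h
  exact hrp ((Nat.prime_dvd_prime_iff_eq hr hp.out).mp (hr.dvd_of_dvd_pow h))

theorem r_ne_zero (hr : r.Prime) (hrp : r ≠ p) : (r : F) ≠ 0 := by
  intro h
  have h1 := (CharP.cast_eq_zero_iff F p r).mp h
  exact hrp ((Nat.prime_dvd_prime_iff_eq hp.out hr).mp h1).symm

/-- The forward direction for the standard form. -/
theorem std_forward (hq : Fintype.card F = q) (h2 : (2 : F) ≠ 0) {d l : ℕ} (hl : 1 ≤ l) (hld : l ≤ d) (τ : Prop)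
    (hr : r.Prime) (hr2 : r ≠ 2) (hrp : r ≠ p)
    (hdvd : r ∣ Nat.card {W // PW (oddForm d F) (2 * l) τ W})
    (hL : ∀ x : GL (Unit ⊕ (Fin d ⊕ Fin d)) F, x ∈ Cfsg.Geo.omegaGL (Cfsg.quadFormOdd d F) → orderOf x = r →
      ∃ W, PW (oddForm d F) (2 * l) τ W ∧ Inv (Matrix.toLin' (x : Matrix _ _ F)) W) :
    cOf (orderOf (q : ZMod r)) ≤ 2 * l ∧
      2 * l % cOf (orderOf (q : ZMod r)) < (2 * d + 1) % cOf (orderOf (q : ZMod r)) ∧
      (2 * l % cOf (orderOf (q : ZMod r)) = 0 →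
        (Even (orderOf (q : ZMod r)) → (Even (2 * l / orderOf (q : ZMod r)) ↔ τ)) ∧
        (Odd (orderOf (q : ZMod r)) → τ)) := by
  have hN := oddForm_nondeg d h2
  have hfr := finrank_odd (F := F) d
  have := main_forward hN h2 hq hr hr2 (r_ne_zero hr hrp) (not_dvd_q hq hr hrp) (by rw [hfr]; exact ⟨d, rfl⟩) hl
    (by rw [hfr]; omega) τ hdvd (by
      intro T hT hT1
      obtain ⟨x, hx, hxo, hxT⟩ := exists_gl_of_oz (oddForm d F) hN h2 hr (hr.odd_of_ne_two hr2) hT hT1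
      obtain ⟨W, h3, h4⟩ := hL x hx hxo
      rw [hxT] at h4
      exact ⟨W, h3, h4⟩)
  rwa [hfr] at this

/-- The backward direction for the standard form. -/
theorem std_backward (hq : Fintype.card F = q) (h2 : (2 : F) ≠ 0) {d l : ℕ} (hl : 1 ≤ l) (hld : l ≤ d) (τ : Prop)
    (hr : r.Prime) (hr2 : r ≠ 2) (hrp : r ≠ p)
    (hmod : 2 * l % cOf (orderOf (q : ZMod r)) < (2 * d + 1) % cOf (orderOf (q : ZMod r)))
    (hz : 2 * l % cOf (orderOf (q : ZMod r)) = 0 →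
        (Even (orderOf (q : ZMod r)) → (Even (2 * l / orderOf (q : ZMod r)) ↔ τ)) ∧
        (Odd (orderOf (q : ZMod r)) → τ))
    (x : GL (Unit ⊕ (Fin d ⊕ Fin d)) F) (hx : x ∈ Cfsg.Geo.omegaGL (Cfsg.quadFormOdd d F)) (hord : x ^ r = 1) :
    ∃ W, PW (oddForm d F) (2 * l) τ W ∧ Inv (Matrix.toLin' (x : Matrix _ _ F)) W := by
  have hN := oddForm_nondeg d h2
  have hfr := finrank_odd (F := F) d
  obtain ⟨hxi, -⟩ := (mem_omegaGL_iff _ x).mp hx
  have hT := oz_of_mem (oddForm d F) hN hxi hord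
  exact main_backward hN h2 hq hr hr2 (r_ne_zero hr hrp) (not_dvd_q hq hr hrp) (by rw [hfr]; exact ⟨d, rfl⟩) hl
    (by rw [hfr]; omega) τ (by rwa [hfr]) hz hT

/-- The family of hyperbolic subspaces. -/
theorem pw_true_iff (h2 : (2 : F) ≠ 0) (d m : ℕ) (W : Submodule F (Unit ⊕ (Fin d ⊕ Fin d) → F)) :
    (finrank F ↥W = m ∧ Cfsg.Geo.IsNondegenerateOn (QuadraticMap.polar (Cfsg.quadFormOdd d F)) W ∧
      Cfsg.Geo.IsPlusTypeOn (Cfsg.quadFormOdd d F) W) ↔ PW (oddForm d F) m True W :=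
  and_congr Iff.rfl (and_congr (isNondeg_iff (oddForm d F) W)
    ((plusType_iff h2 (oddForm d F) W).trans (iff_of_eq (iff_true _).symm)))

/-- The family of elliptic subspaces. -/
theorem pw_false_iff (h2 : (2 : F) ≠ 0) (d m : ℕ) (W : Submodule F (Unit ⊕ (Fin d ⊕ Fin d) → F)) :
    (finrank F ↥W = m ∧ Cfsg.Geo.IsNondegenerateOn (QuadraticMap.polar (Cfsg.quadFormOdd d F)) W ∧
      ¬ Cfsg.Geo.IsPlusTypeOn (Cfsg.quadFormOdd d F) W) ↔ PW (oddForm d F) m False W :=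
  and_congr Iff.rfl (and_congr (isNondeg_iff (oddForm d F) W)
    ((not_congr (plusType_iff h2 (oddForm d F) W)).trans (iff_of_eq (iff_false _).symm)))

end Cfsg.Agent.Lib.ElusQ.OddThm
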