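import Cfsg.Agent.Lib.ElusQ.Count
import Cfsg.Agent.Lib.ElusF.SpNd

/-!
# Isometries of prime order of symmetric bilinear forms in odd characteristic
-/

set_option autoImplicit false
set_option linter.unusedSectionVars false
set_option linter.style.haveILetI false
set_option linter.unusedVariables false
set_option linter.unusedSimpArgs false
set_option linter.dupNamespace false

open Polynomial Module

universe u v

namespace Cfsg.Agent.Lib.ElusQ.Oz

open Cfsg.Agent.Lib.ElusL.Basic Cfsg.Agent.Lib.ElusL.Flag Cfsg.Agent.Lib.ElusL.Cyc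
  Cfsg.Agent.Lib.ElusL.Pos Cfsg.Agent.Lib.ElusF.Form Cfsg.Agent.Lib.ElusF.Step
  Cfsg.Agent.Lib.ElusF.Split Cfsg.Agent.Lib.ElusF.SpNeg Cfsg.Agent.Lib.ElusF.SpModel
  Cfsg.Agent.Lib.ElusQ.Disc Cfsg.Agent.Lib.ElusQ.Count Cfsg.Agent.Lib.QuadDisc.Basic
  Cfsg.Agent.Lib.QuadDisc.Classify

variable {F : Type u} [Field F] {q r : ℕ} {V : Type v} [AddCommGroup V] [Module F V]

/-- An isometry with `T ^ r = 1` of a nondegenerate symmetric form. -/
structure Oz (B : LinearMap.BilinForm F V) (T : End F V) (r : ℕ) : Prop where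
  symm : B.IsSymm
  nondeg : B.Nondegenerate
  iso : ∀ u v, B (T u) (T v) = B u v
  pow : T ^ r = 1

variable {B : LinearMap.BilinForm F V} {T : End F V}

theorem Oz.fm (h : Oz B T r) : Fm (RingHom.id F) 1 (fun u v => B u v) := fm_of_symm h.symm h.nondeg

theorem Oz.isoF (h : Oz B T r) : Iso (fun u v => B u v) T := h.iso

theorem Oz.inj (h : Oz B T r) (hr : r ≠ 0) : Function.Injective T :=
  inj_of_pow (c := 1) one_ne_zero hr (by rw [h.pow, one_smul])

section FD

variable [FiniteDimensional F V] [Fintype F]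

/-- The determinant trick: isometries of odd order in odd dimension have fixed vectors. -/
theorem exists_fixed_of_odd (h2 : (2 : F) ≠ 0) (hS : B.IsSymm) (hN : B.Nondegenerate)
    (hT : ∀ u v, B (T u) (T v) = B u v) (hTr : T ^ r = 1) (hr : Odd r)
    (hodd : Odd (finrank F V)) : ∃ v, v ≠ 0 ∧ T v = v := by
  classical
  let b := finBasis F V
  let M := LinearMap.toMatrix b b T
  let G := LinearMap.BilinForm.toMatrix b B
  have hG : G.det ≠ 0 := (nondegenerate_iff_det b B).mp hN
  have hcomp : B.comp T T = B := by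
    ext x y
    exact hT x y
  have hMG : M.transpose * G * M = G := by
    have := LinearMap.BilinForm.toMatrix_comp b b B T T
    rw [hcomp] at this
    exact this.symm
  have hd1 : M.det * M.det = 1 := by
    have h3 := congrArg Matrix.det hMG
    rw [Matrix.det_mul, Matrix.det_mul, Matrix.det_transpose] at h3
    apply mul_right_cancel₀ hG
    rw [one_mul]
    linear_combination h3
  have hdM : M.det = LinearMap.det T := LinearMap.det_toMatrix b T
  have hd2 : M.det ^ r = 1 := by
    rw [hdM, ← map_pow, hTr, map_one]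
  have hd3 : M.det = 1 := by
    obtain ⟨a, rfl⟩ := hr
    rw [pow_succ, pow_mul, sq, hd1, one_pow, one_mul] at hd2
    exact hd2
  have hM1 : (M - 1).transpose * G * M = G * (1 - M) := by
    rw [Matrix.transpose_sub, Matrix.transpose_one, Matrix.sub_mul, Matrix.sub_mul, hMG,
      Matrix.one_mul, Matrix.mul_sub, Matrix.mul_one]
  have h3 := congrArg Matrix.det hM1
  rw [Matrix.det_mul, Matrix.det_mul, Matrix.det_mul, Matrix.det_transpose, hd3, mul_one] at h3
  have h4 : (1 - M) = -(M - 1) := by abel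
  rw [h4, Matrix.det_neg] at h3
  simp only [Fintype.card_fin] at h3
  rw [hodd.neg_one_pow] at h3
  have h5 : (M - 1).det = 0 := by
    have h6 : G.det * (2 * (M - 1).det) = 0 := by linear_combination h3
    have h7 := (mul_eq_zero.mp h6).resolve_left hG
    exact (mul_eq_zero.mp h7).resolve_left h2
  have h6 : LinearMap.det (T - 1) = 0 := by
    rw [← LinearMap.det_toMatrix b, map_sub, LinearMap.toMatrix_one]
    exact h5
  obtain ⟨v, hv, hv0⟩ := Submodule.exists_mem_ne_zero_of_ne_bot
    (LinearMap.bot_lt_ker_of_det_eq_zero h6).ne'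
  refine ⟨v, hv0, ?_⟩
  have := LinearMap.mem_ker.mp hv
  simp only [LinearMap.sub_apply, Module.End.one_apply] at this
  exact sub_eq_zero.mp this

theorem restrict_pow {U : Submodule F V} (hU : Inv T U) (k : ℕ) (x : U) :
    (((T.restrict hU) ^ k) x : V) = (T ^ k) (x : V) := by
  induction k generalizing x with
  | zero => rfl
  | succ k ih =>
    rw [pow_succ, pow_succ, Module.End.mul_apply, Module.End.mul_apply, ih]
    rfl

/-- Odd-dimensional nondegenerate invariant subspaces contain fixed vectors. -/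
theorem exists_fixed_sub (h : Oz B T r) (h2 : (2 : F) ≠ 0) (hr : Odd r) {U : Submodule F V}
    (hU : Nd (fun u v => B u v) U) (hUi : Inv T U) (hodd : Odd (finrank F U)) :
    ∃ v ∈ U, v ≠ 0 ∧ T v = v := by
  obtain ⟨v, hv0, hv⟩ := exists_fixed_of_odd (B := B.restrict U) (T := T.restrict hUi) h2
    (restrict_isSymm B h.symm U) (restrict_nondeg h.symm hU)
    (fun x y => h.iso (x : V) (y : V))
    (by
      apply LinearMap.ext
      intro x
      apply Subtype.ext
      rw [restrict_pow, h.pow]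
      rfl) hr hodd
  exact ⟨v, v.2, fun h0 => hv0 (Subtype.ext h0), congrArg Subtype.val hv⟩

/-- The fixed and the fixed-point-free parts meet trivially. -/
theorem eq_zero_of_mem_of_fixed (hrF : (r : F) ≠ 0) {v : V}
    (hv : v ∈ LinearMap.ker (Polynomial.aeval T (Phi F r))) (hf : T v = v) : v = 0 := by
  have h4 := ker_disjoint (T := T) (isCoprime_Phi (F := F) hrF)
  have h5 : v ∈ (LinearMap.ker (Polynomial.aeval T (X - 1 : F[X])) ⊓
      LinearMap.ker (Polynomial.aeval T (Phi F r)) : Submodule F V) := ⟨mem_fix.mpr hf, hv⟩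
  rw [h4] at h5
  exact (Submodule.mem_bot F).mp h5

theorem two_dvd (h : Oz B T r) (h2 : (2 : F) ≠ 0) (hr : Odd r) (hrF : (r : F) ≠ 0)
    {U : Submodule F V} (hU : Nd (fun u v => B u v) U) (hUi : Inv T U)
    (hU₁ : U ≤ LinearMap.ker (Polynomial.aeval T (Phi F r))) : 2 ∣ finrank F U := by
  by_contra hc
  rw [← even_iff_two_dvd, Nat.not_even_iff_odd] at hc
  obtain ⟨v, hvU, hv0, hv⟩ := exists_fixed_sub h h2 hr hU hUi hc
  exact hv0 (eq_zero_of_mem_of_fixed hrF (hU₁ hvU) hv)

/-- The block size. -/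
def cOf (i : ℕ) : ℕ := if Even i then i else 2 * i

theorem cOf_pos {i : ℕ} (hi : 0 < i) : 0 < cOf i := by
  unfold cOf
  split_ifs <;> omega

theorem even_cOf (i : ℕ) : Even (cOf i) := by
  unfold cOf
  split_ifs with h
  · exact h
  · exact even_two_mul i

theorem i_dvd (hq : Fintype.card F = q) (hr : r.Prime) (hrF : (r : F) ≠ 0) (hrq : ¬ r ∣ q)
    {U : Submodule F V} (hUi : Inv T U)
    (hU₁ : U ≤ LinearMap.ker (Polynomial.aeval T (Phi F r))) :
    orderOf (q : ZMod r) ∣ finrank F U := by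
  have := dvd_finrank_inf (T := T) (Phi_ne_zero (F := F) hr)
    (fun g hg hgd => natDegree_factor hq hr hrF hrq hg hgd) hUi
  rwa [inf_eq_left.mpr hU₁] at this

theorem c_dvd (h : Oz B T r) (h2 : (2 : F) ≠ 0) (hq : Fintype.card F = q) (hr : r.Prime) (hrO : Odd r)
    (hrF : (r : F) ≠ 0) (hrq : ¬ r ∣ q) {U : Submodule F V} (hU : Nd (fun u v => B u v) U) (hUi : Inv T U)
    (hU₁ : U ≤ LinearMap.ker (Polynomial.aeval T (Phi F r))) :
    cOf (orderOf (q : ZMod r)) ∣ finrank F U := by
  have h3 := i_dvd hq hr hrF hrq hUi hU₁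
  unfold cOf
  split_ifs with he
  · exact h3
  · apply Nat.Coprime.mul_dvd_of_dvd_of_dvd _ (two_dvd h h2 hrO hrF hU hUi hU₁) h3
    rw [Nat.not_even_iff_odd] at he
    exact (Nat.coprime_two_left).mpr he

/-- For odd degree, minimal invariant subspaces of the fixed-point-free part are isotropic. -/
theorem ti_odd (h : Oz B T r) (h2 : (2 : F) ≠ 0) (hq : Fintype.card F = q) (hr : r.Prime) (hrO : Odd r)
    (hrF : (r : F) ≠ 0) (hrq : ¬ r ∣ q) (hi : Odd (orderOf (q : ZMod r))) {U : Submodule F V}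
    (hU₁ : U ≤ LinearMap.ker (Polynomial.aeval T (Phi F r))) (hUi : Inv T U) (hpos : 0 < finrank F U) :
    ∃ W : Submodule F V, W ≤ U ∧ TI (fun u v => B u v) W ∧ Inv T W ∧
      finrank F W = orderOf (q : ZMod r) := by
  set i := orderOf (q : ZMod r) with hidef
  have hB := h.fm
  have hPhi0 := Phi_ne_zero (F := F) hr
  have hdeg : ∀ g, Irreducible g → g ∣ Phi F r → g.natDegree = i :=
    fun g hg hgd => natDegree_factor hq hr hrF hrq hg hgd
  have hinj : Function.Injective T := h.inj hr.ne_zero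
  obtain ⟨W, hWU, hWi, hWd⟩ := exists_sub hPhi0 hdeg hUi hU₁ hpos
  refine ⟨W, hWU, ?_, hWi, hWd⟩
  set K := W ⊓ hB.orth W with hK
  have hKi : Inv T K := hB.inv_inf hWi (hB.inv_orth h.isoF hinj hWi)
  have hKV : K ≤ LinearMap.ker (Polynomial.aeval T (Phi F r)) :=
    (inf_le_left.trans hWU).trans hU₁
  have hdvd : i ∣ finrank F K := i_dvd hq hr hrF hrq hKi hKV
  have hle : finrank F K ≤ i := by
    rw [← hWd]
    exact Submodule.finrank_mono inf_le_left
  rcases Nat.eq_zero_or_pos (finrank F K) with h0 | h0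
  · exfalso
    have hbot : K = ⊥ := Submodule.finrank_eq_zero.mp h0
    have hnd : Nd (fun u v => B u v) W := by
      rw [hB.nd_iff_disjoint, disjoint_iff]
      exact hbot
    have := two_dvd h h2 hrO hrF hnd hWi (hWU.trans hU₁)
    rw [hWd, ← even_iff_two_dvd] at this
    exact (Nat.not_even_iff_odd.mpr hi) this
  · have h1 : finrank F K = i := le_antisymm hle (Nat.le_of_dvd h0 hdvd)
    have h3 : K = W := Submodule.eq_of_le_of_finrank_eq inf_le_left (by rw [h1, hWd])
    rw [hB.ti_iff_le_orth]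
    rw [← h3]
    exact inf_le_right.trans (by rw [h3])

/-- The step for odd order. -/
theorem step_odd (h : Oz B T r) (h2 : (2 : F) ≠ 0) (hq : Fintype.card F = q) (hr : r.Prime) (hrO : Odd r)
    (hrF : (r : F) ≠ 0) (hrq : ¬ r ∣ q) (hi : Odd (orderOf (q : ZMod r))) {U : Submodule F V}
    (hU₁ : U ≤ LinearMap.ker (Polynomial.aeval T (Phi F r))) (hU : Nd (fun u v => B u v) U) (hUi : Inv T U)
    (hpos : 0 < finrank F U) :
    ∃ C : Submodule F V, C ≤ U ∧ Nd (fun u v => B u v) C ∧ Inv T C ∧ finrank F C = 2 * orderOf (q : ZMod r) := by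
  have hinj : Function.Injective T := h.inj hr.ne_zero
  have hss : SS T := ss_of_pow hrF one_ne_zero (by rw [h.pow, one_smul])
  obtain ⟨W, h1, h3, h4, h5⟩ := ti_odd h h2 hq hr hrO hrF hrq hi hU₁ hUi hpos
  obtain ⟨C, -, h6, h7, h8, h9⟩ := hyp_piece h.fm h.isoF hinj hss hU hUi h1 h3 h4
  exact ⟨C, h6, h7, h8, by rw [h9, h5]⟩

/-- Adjoint of a polynomial in the isometry. -/
theorem adj_aeval' (h : Oz B T r) (hr : r ≠ 0) (P : F[X]) (u v : V) :
    B (Polynomial.aeval T P u) v = B u (Polynomial.aeval (T ^ (r - 1)) P v) := by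
  have h1 : ∀ k : ℕ, B ((T ^ k) u) v = B u (((T ^ (r - 1)) ^ k) v) := by
    intro k
    have hiso : ∀ (k : ℕ) (x y : V), B ((T ^ k) x) ((T ^ k) y) = B x y := by
      intro k
      induction k with
      | zero => intro x y; rfl
      | succ k ih =>
        intro x y
        rw [pow_succ, Module.End.mul_apply, Module.End.mul_apply, ih, h.iso]
    have hpow : T ^ k * (T ^ (r - 1)) ^ k = 1 := by
      rw [← pow_mul, ← pow_add]
      have : k + (r - 1) * k = r * k := by
        obtain ⟨s, rfl⟩ : ∃ s, r = s + 1 := ⟨r - 1, by omega⟩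
        simp only [Nat.add_sub_cancel]
        ring
      rw [this, pow_mul, h.pow, one_pow]
    have h2 := hiso k u (((T ^ (r - 1)) ^ k) v)
    rw [← h2, ← Module.End.mul_apply (T ^ k), hpow, Module.End.one_apply]
  induction P using Polynomial.induction_on' with
  | add P Q hP hQ =>
    simp only [map_add, LinearMap.add_apply, hP, hQ]
  | monomial n a =>
    simp only [aeval_monomial, Module.End.mul_apply, Module.algebraMap_end_apply, map_smul,
      LinearMap.smul_apply, h1 n]

/-- Self-duality of an irreducible factor for even order. -/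
theorem orth_fac' (h : Oz B T r) (hq : Fintype.card F = q) (hr : r ≠ 0) {e : ℕ} (hrq : r ∣ q ^ e + 1)
    {g b : F[X]} (hcop : IsCoprime g b) {u w : V} (hu : Polynomial.aeval T g u = 0)
    (hw : Polynomial.aeval T b w = 0) : B u w = 0 := by
  obtain ⟨c, d, hcd⟩ := hcop
  have hT1 : T ^ (r - 1) = T ^ (q ^ e) := by
    obtain ⟨s, hs⟩ := hrq
    have hs0 : s ≠ 0 := by
      rintro rfl
      omega
    obtain ⟨s', rfl⟩ : ∃ s', s = s' + 1 := ⟨s - 1, by omega⟩
    have h1 : q ^ e = r * s' + (r - 1) := by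
      have : r * (s' + 1) = r * s' + r := by ring
      omega
    rw [h1, pow_add, pow_mul, h.pow, one_pow, one_mul]
  have h1 : w = Polynomial.aeval T g (Polynomial.aeval T c w) := by
    have h2 : Polynomial.aeval T (c * g + d * b) w = w := by
      rw [hcd]
      simp
    rw [map_add, LinearMap.add_apply, map_mul, map_mul, Module.End.mul_apply, Module.End.mul_apply, hw,
      map_zero, add_zero] at h2
    rw [hcomm, mul_comm, map_mul]
    exact h2.symm
  rw [h1, h.symm.eq, adj_aeval' h hr, hT1, aeval_pow_card hq]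
  have h3 : (Polynomial.aeval T g ^ (q ^ e)) u = 0 := by
    have hq0 : q ^ e ≠ 0 := by
      have : 0 < q := by rw [← hq]; exact Fintype.card_pos
      positivity
    obtain ⟨s, hs⟩ : ∃ s, q ^ e = s + 1 := ⟨q ^ e - 1, by omega⟩
    rw [hs, pow_succ, Module.End.mul_apply, hu, map_zero]
  rw [h3, map_zero]

/-- A cyclic subspace for an irreducible factor is nondegenerate unless totally isotropic. -/
theorem cyc_nd' (h : Oz B T r) (hr : r ≠ 0) {g : F[X]} (hg : Irreducible g) {u : V} (hu0 : u ≠ 0)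
    (hu : Polynomial.aeval T g u = 0) (hne : ¬ TI (fun u v => B u v) (cyc T u)) :
    Nd (fun u v => B u v) (cyc T u) := by
  have hB := h.fm
  have hinj := h.inj hr
  rw [hB.nd_iff_disjoint, disjoint_iff]
  set C := cyc T u with hC
  have hCi : Inv T C := cyc_inv T u
  set R := C ⊓ hB.orth C with hR
  have hRi : Inv T R := hB.inv_inf hCi (hB.inv_orth h.isoF hinj hCi)
  have hCg : C ≤ LinearMap.ker (Polynomial.aeval T g) := by
    rintro _ ⟨P, rfl⟩
    rw [LinearMap.mem_ker, hcomm, mul_comm, ← hcomm, hu, map_zero]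
  by_contra hbot
  have hRpos : 0 < finrank F R := by
    rw [Module.finrank_pos_iff_exists_ne_zero]
    obtain ⟨x, hx, hx0⟩ := Submodule.exists_mem_ne_zero_of_ne_bot hbot
    exact ⟨⟨x, hx⟩, fun h => hx0 (congrArg Subtype.val h)⟩
  have hdvd := natDegree_dvd_inf hg hRi
  rw [inf_eq_left.mpr ((inf_le_left : R ≤ C).trans hCg)] at hdvd
  have hle := Nat.le_of_dvd hRpos hdvd
  have hfin := cyc_finrank hg hu0 hu
  have hRC : R = C := Submodule.eq_of_le_of_finrank_le inf_le_left (by
    rw [hfin]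
    exact hle)
  apply hne
  rw [hB.ti_iff_le_orth]
  calc C = R := hRC.symm
    _ ≤ hB.orth C := inf_le_right

/-- The step for even order. -/
theorem step_even (h : Oz B T r) (h2 : (2 : F) ≠ 0) (hq : Fintype.card F = q) (hr : r.Prime) (hr2 : r ≠ 2)
    (hrF : (r : F) ≠ 0) (hrq : ¬ r ∣ q) {e : ℕ}
    (hi : orderOf (q : ZMod r) = 2 * e) (he : 0 < e) {U : Submodule F V}
    (hU₁ : U ≤ LinearMap.ker (Polynomial.aeval T (Phi F r))) (hU : Nd (fun u v => B u v) U)
    (hUi : Inv T U) (hpos : 0 < finrank F U) :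
    ∃ C : Submodule F V, C ≤ U ∧ Nd (fun u v => B u v) C ∧ Inv T C ∧ finrank F C = 2 * e := by
  classical
  have hB := h.fm
  have hinj : Function.Injective T := h.inj hr.ne_zero
  obtain ⟨S, hS, hprod, -⟩ := exists_factors hq hr hrF hrq
  rw [hi] at hS
  have hcop : ∀ g ∈ S, ∀ k ∈ S, g ≠ k → IsCoprime g k := by
    intro g hg k hk hne
    obtain ⟨hgi, hgm, -⟩ := hS g hg
    obtain ⟨hki, hkm, -⟩ := hS k hk
    refine hgi.coprime_iff_not_dvd.mpr ?_
    intro hd
    exact hne (Polynomial.eq_of_monic_of_associated hgm hkm (hgi.associated_of_dvd hki hd))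
  have h3 := finrank_sum_factors hUi S hcop
  rw [hprod, inf_eq_left.mpr hU₁] at h3
  obtain ⟨g, hgS, hgpos⟩ : ∃ g ∈ S,
      0 < finrank F (U ⊓ LinearMap.ker (Polynomial.aeval T g) : Submodule F V) := by
    by_contra hcon
    push Not at hcon
    have h4 : ∑ g ∈ S, finrank F (U ⊓ LinearMap.ker (Polynomial.aeval T g) : Submodule F V) = 0 :=
      Finset.sum_eq_zero (fun g hg => by have := hcon g hg; omega)
    omega
  obtain ⟨hgi, hgm, hgr, hg1, hgd⟩ := hS g hgS
  have hrq' := dvd_pow_add_one (q := q) hr hi he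
  obtain ⟨b, hb⟩ := hgr
  have hsep : (X ^ r - 1 : F[X]).Separable := by
    have := separable_X_pow_sub_C (1 : F) hrF one_ne_zero
    simpa using this
  have hcopb : IsCoprime g b := by
    rw [hb] at hsep
    exact hsep.isCoprime
  set E := U ⊓ LinearMap.ker (Polynomial.aeval T g) with hE
  have hEi : Inv T E := hB.inv_inf hUi (inv_ker T g)
  have hsup := (sup_ker hcopb hUi (fun w _ => by
    rw [← hb]
    simp [h.pow])).1
  have hEnd : Nd (fun u v => B u v) E := hB.nd_of_orth_sum hU hsup (fun x hx y hy =>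
    orth_fac' h hq hr.ne_zero hrq' hcopb hx.2 hy.2)
  obtain ⟨u, hu⟩ := exists_self_ne_zero h2 (B.restrict E) (restrict_nondeg h.symm hEnd)
    (restrict_isSymm B h.symm E) hgpos
  have hu' : B (u : V) (u : V) ≠ 0 := hu
  have hu0 : (u : V) ≠ 0 := by
    intro h0
    rw [h0] at hu'
    simp at hu'
  have hgu : Polynomial.aeval T g (u : V) = 0 := LinearMap.mem_ker.mp u.2.2
  refine ⟨cyc T u, (cyc_le hEi u.2).trans inf_le_left, ?_, cyc_inv T u, ?_⟩
  · apply cyc_nd' h hr.ne_zero hgi hu0 hgu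
    intro hTI
    exact hu' (hTI u (self_mem_cyc T u) u (self_mem_cyc T u))
  · rw [cyc_finrank hgi hu0 hgu, hgd]

/-- The general step. -/
theorem step (h : Oz B T r) (h2 : (2 : F) ≠ 0) (hq : Fintype.card F = q) (hr : r.Prime) (hr2 : r ≠ 2)
    (hrF : (r : F) ≠ 0) (hrq : ¬ r ∣ q) {U : Submodule F V}
    (hU₁ : U ≤ LinearMap.ker (Polynomial.aeval T (Phi F r))) (hU : Nd (fun u v => B u v) U)
    (hUi : Inv T U) (hpos : 0 < finrank F U) :
    ∃ C : Submodule F V, C ≤ U ∧ Nd (fun u v => B u v) C ∧ Inv T C ∧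
      finrank F C = cOf (orderOf (q : ZMod r)) := by
  unfold cOf
  split_ifs with he
  · obtain ⟨e, he'⟩ := he
    have hi : orderOf (q : ZMod r) = 2 * e := by omega
    have hipos := ord_pos (q := q) hr hrq
    obtain ⟨C, h1, h3, h4, h5⟩ := step_even h h2 hq hr hr2 hrF hrq hi (by omega) hU₁ hU hUi hpos
    exact ⟨C, h1, h3, h4, by omega⟩
  · exact step_odd h h2 hq hr (hr.odd_of_ne_two hr2) hrF hrq (Nat.not_even_iff_odd.mp he) hU₁ hU hUi hpos

/-- Invariant nondegenerate subspaces of the fixed-point-free part of all multiples of the block size. -/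
theorem exists_blocks (h : Oz B T r) (h2 : (2 : F) ≠ 0) (hq : Fintype.card F = q) (hr : r.Prime) (hr2 : r ≠ 2)
    (hrF : (r : F) ≠ 0) (hrq : ¬ r ∣ q) (s : ℕ)
    (hs : cOf (orderOf (q : ZMod r)) * s ≤ finrank F (LinearMap.ker (Polynomial.aeval T (Phi F r)))) :
    ∃ U : Submodule F V, U ≤ LinearMap.ker (Polynomial.aeval T (Phi F r)) ∧
      Nd (fun u v => B u v) U ∧ Inv T U ∧ finrank F U = cOf (orderOf (q : ZMod r)) * s := by
  have hB := h.fm
  have hinj : Function.Injective T := h.inj hr.ne_zero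
  have hnd1 : Nd (fun u v => B u v) (LinearMap.ker (Polynomial.aeval T (Phi F r))) := by
    have := nd1 hB h.isoF hrF h.pow hB.nd_top (U := ⊤) (fun v _ => trivial)
    rwa [top_inf_eq] at this
  have hipos := ord_pos (q := q) hr hrq
  obtain ⟨W, h1, h3, h4, h5⟩ := ndcap hB h.isoF hinj (cOf_pos hipos)
    (U₀ := LinearMap.ker (Polynomial.aeval T (Phi F r)))
    (fun U hU hUn hUi hpos => step h h2 hq hr hr2 hrF hrq hU hUn hUi hpos) s _ le_rfl hnd1
    (inv_ker T _) hs
  exact ⟨W, h1, h3, h4, h5⟩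

/-- For odd order, the fixed-point-free parts are hyperbolic. -/
theorem hy_odd (h : Oz B T r) (h2 : (2 : F) ≠ 0) (hq : Fintype.card F = q) (hr : r.Prime) (hrO : Odd r)
    (hrF : (r : F) ≠ 0) (hrq : ¬ r ∣ q) (hi : Odd (orderOf (q : ZMod r))) {U : Submodule F V}
    (hU₁ : U ≤ LinearMap.ker (Polynomial.aeval T (Phi F r))) (hU : Nd (fun u v => B u v) U)
    (hUi : Inv T U) : Hy B U := by
  set i := orderOf (q : ZMod r) with hidef
  have hipos : 0 < i := hi.pos
  have hinj : Function.Injective T := h.inj hr.ne_zero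
  have hss : SS T := ss_of_pow hrF one_ne_zero (by rw [h.pow, one_smul])
  have hd := c_dvd h h2 hq hr hrO hrF hrq hU hUi hU₁
  rw [show cOf (orderOf (q : ZMod r)) = 2 * i by
    unfold cOf
    rw [if_neg (Nat.not_even_iff_odd.mpr hi)]] at hd
  obtain ⟨s, hs⟩ := hd
  obtain ⟨W, h1, h3, h4, h5⟩ := cap h.fm h.isoF hinj hss (e := 0) (d := i) (U₀ := U)
    (fun U' hU' hU'n hU'i hpos => ti_odd h h2 hq hr hrO hrF hrq hi (hU'.trans hU₁) hU'i hpos) s U le_rfl hU hUi
    (by
      rcases Nat.eq_zero_or_pos s with h0 | h0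
      · exact Or.inl h0
      · right
        obtain ⟨s', rfl⟩ : ∃ s', s = s' + 1 := ⟨s - 1, by omega⟩
        simp only [Nat.add_sub_cancel, add_zero]
        rw [hs]
        have : 0 < 2 * i := by omega
        exact Nat.mul_lt_mul_of_pos_left (by omega) this)
  exact ⟨W, h1, h3, by rw [h5, hs]; ring⟩

/-- `U` is the orthogonal sum of the number of singular vectors: modular count. -/
theorem card_sing_modEq (h : Oz B T r) (hr : r.Prime) (hrF : (r : F) ≠ 0) {U : Submodule F V}
    (hU₁ : U ≤ LinearMap.ker (Polynomial.aeval T (Phi F r))) (hUi : Inv T U) :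
    Nat.card {v : U // B.restrict U v v = 0} ≡ 1 [MOD r] := by
  classical
  haveI : Fact r.Prime := ⟨hr⟩
  haveI : Finite V := Module.finite_of_finite F
  haveI : Fintype {v : U // B.restrict U v v = 0} := Fintype.ofFinite _
  let f : {v : U // B.restrict U v v = 0} → {v : U // B.restrict U v v = 0} := fun v =>
    ⟨T.restrict hUi v.1, by
      have := v.2
      change B (T (v.1 : V)) (T (v.1 : V)) = 0
      rw [h.iso]
      exact this⟩
  have hf : ∀ (k : ℕ) (v : {v : U // B.restrict U v v = 0}), (((f^[k] v).1 : U) : V) = (T ^ k) ((v.1 : U) : V) := by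
    intro k
    induction k with
    | zero => intro v; rfl
    | succ k ih =>
      intro v
      rw [Function.iterate_succ_apply, ih, pow_succ, Module.End.mul_apply]
      rfl
  refine card_modEq_one f ?_ ⟨0, by simp⟩ ?_
  · funext v
    apply Subtype.ext
    apply Subtype.ext
    rw [hf, h.pow]
    rfl
  · intro x
    constructor
    · intro hx
      apply Subtype.ext
      apply Subtype.ext
      have h3 : T ((x.1 : U) : V) = ((x.1 : U) : V) := by
        have := congrArg (fun y : {v : U // B.restrict U v v = 0} => ((y.1 : U) : V)) hx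
        exact this
      exact eq_zero_of_mem_of_fixed hrF (hU₁ x.1.2) h3
    · rintro rfl
      apply Subtype.ext
      simp [f]

theorem arith_neq (hq0 : q ≠ 0) (hr : r.Prime) (hr2 : r ≠ 2) (hQ1 : (q : ZMod r) ≠ 1) {l : ℕ} (hl : 1 ≤ l)
    (hQl : (q : ZMod r) ^ l = -1) (h : q ^ l + (q ^ l - 1) * q ^ (l - 1) ≡ 1 [MOD r]) : False := by
  haveI : Fact r.Prime := ⟨hr⟩
  have h1 : 1 ≤ q ^ l := Nat.one_le_pow _ _ (Nat.pos_of_ne_zero hq0)
  have h3 := (ZMod.natCast_eq_natCast_iff _ _ _).mpr h
  push_cast [Nat.cast_sub h1] at h3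
  rw [hQl] at h3
  obtain ⟨k, rfl⟩ : ∃ k, l = k + 1 := ⟨l - 1, by omega⟩
  simp only [Nat.add_sub_cancel] at h3
  have h2r : (2 : ZMod r) ≠ 0 := by
    intro h0
    have : ((2 : ℕ) : ZMod r) = 0 := by exact_mod_cast h0
    rw [ZMod.natCast_eq_zero_iff] at this
    exact hr2 ((Nat.prime_dvd_prime_iff_eq hr Nat.prime_two).mp this)
  have h4 : (q : ZMod r) ^ k = -1 := by
    have h5 : (2 : ZMod r) * ((q : ZMod r) ^ k + 1) = 0 := by linear_combination -h3
    have h6 := (mul_eq_zero.mp h5).resolve_left h2r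
    linear_combination h6
  apply hQ1
  rw [pow_succ, h4] at hQl
  linear_combination -hQl

theorem arith_ell (hq0 : q ≠ 0) (hr : r.Prime) (hr2 : r ≠ 2) (hQ1 : (q : ZMod r) ≠ 1) (hQ0 : (q : ZMod r) ≠ 0)
    {l : ℕ} (hl : 1 ≤ l) (hQl : (q : ZMod r) ^ l = 1) {N : ℕ} (hN : N ≡ 1 [MOD r])
    (h : N + (q - 1) * (q ^ (l - 1) * (q ^ l + 1)) = q ^ (2 * l)) : False := by
  haveI : Fact r.Prime := ⟨hr⟩
  have h1 : 1 ≤ q := Nat.pos_of_ne_zero hq0
  have h3 := congrArg (Nat.cast : ℕ → ZMod r) h
  have hN' := (ZMod.natCast_eq_natCast_iff _ _ _).mpr hN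
  push_cast [Nat.cast_sub h1] at h3 hN'
  rw [hN', pow_mul', hQl, one_pow] at h3
  have h2r : (2 : ZMod r) ≠ 0 := by
    intro h0
    have : ((2 : ℕ) : ZMod r) = 0 := by exact_mod_cast h0
    rw [ZMod.natCast_eq_zero_iff] at this
    exact hr2 ((Nat.prime_dvd_prime_iff_eq hr Nat.prime_two).mp this)
  have h5 : (2 : ZMod r) * (((q : ZMod r) - 1) * (q : ZMod r) ^ (l - 1)) = 0 := by
    linear_combination h3
  have h6 := (mul_eq_zero.mp h5).resolve_left h2r
  rcases mul_eq_zero.mp h6 with h7 | h7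
  · exact hQ1 (sub_eq_zero.mp h7)
  · exact (pow_ne_zero _ hQ0) h7

/-- For even order, the type of a fixed-point-free part is determined by the number of blocks. -/
theorem hy_even (h : Oz B T r) (h2 : (2 : F) ≠ 0) (hq : Fintype.card F = q) (hr : r.Prime) (hr2 : r ≠ 2)
    (hrF : (r : F) ≠ 0) (hrq : ¬ r ∣ q) {e s : ℕ} (hi : orderOf (q : ZMod r) = 2 * e) (he : 0 < e)
    {U : Submodule F V} (hU₁ : U ≤ LinearMap.ker (Polynomial.aeval T (Phi F r)))
    (hU : Nd (fun u v => B u v) U) (hUi : Inv T U) (hdim : finrank F U = 2 * e * s) :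
    Hy B U ↔ Even s := by
  classical
  haveI : Fact r.Prime := ⟨hr⟩
  have hq0 : q ≠ 0 := by
    rw [← hq]
    exact Fintype.card_ne_zero
  have hrq' := dvd_pow_add_one (q := q) hr hi he
  have hQe : (q : ZMod r) ^ e = -1 := by
    have h1 : ((q ^ e + 1 : ℕ) : ZMod r) = 0 := (ZMod.natCast_eq_zero_iff _ _).mpr hrq'
    push_cast at h1
    linear_combination h1
  have hQ1 : (q : ZMod r) ≠ 1 := by
    intro h1
    have h3 := orderOf_eq_one_iff.mpr h1
    omega
  have hQ0 : (q : ZMod r) ≠ 0 := natCast_q_ne_zero hrq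
  have hdim' : finrank F U = 2 * (e * s) := by
    rw [hdim]
    ring
  have hm := card_sing_modEq h hr hrF hU₁ hUi
  have hNU := restrict_nondeg h.symm hU
  have hSU := restrict_isSymm B h.symm U
  rw [hy_iff h2 h.symm hU hdim']
  constructor
  · intro hsq
    by_contra hodd
    rw [Nat.not_even_iff_odd] at hodd
    have hc := card_sing_plus hq h2 (B.restrict U) hNU hSU hdim' hsq
    rw [hc] at hm
    have hspos : 0 < s := hodd.pos
    refine arith_neq hq0 hr hr2 hQ1 (l := e * s) (Nat.mul_pos he hspos) ?_ hm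
    rw [pow_mul, hQe, hodd.neg_one_pow]
  · intro hev
    by_contra hsq
    rcases Nat.eq_zero_or_pos s with h0 | hspos
    · -- the zero space
      subst h0
      apply hsq
      have hbot : U = ⊥ := by
        apply Submodule.finrank_eq_zero.mp
        rw [hdim]
        simp
      subst hbot
      simp only [mul_zero, pow_zero, one_mul]
      unfold dd
      have : IsEmpty (Fin (finrank F (⊥ : Submodule F V))) := by
        rw [finrank_bot]
        infer_instance
      rw [Matrix.det_isEmpty]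
      exact IsSquare.one
    have hc := card_sing_minus hq h2 (B.restrict U) hNU hSU (l := e * s) (Nat.mul_pos he hspos) hdim' hsq
    have htot : Nat.card {v : U // B.restrict U v v = 0} + Nat.card {v : U // B.restrict U v v ≠ 0} =
        q ^ (2 * (e * s)) := by
      haveI : Finite V := Module.finite_of_finite F
      haveI : Fintype U := Fintype.ofFinite _
      rw [Nat.card_eq_fintype_card, Nat.card_eq_fintype_card, Fintype.card_subtype_compl]
      have h3 : Fintype.card U = q ^ (2 * (e * s)) := by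
        rw [← hq, ← hdim', ← Nat.card_eq_fintype_card, ← Nat.card_eq_fintype_card,
          Module.natCard_eq_pow_finrank (K := F)]
      have h4 := Fintype.card_subtype_le (fun v : U => B.restrict U v v = 0)
      omega
    rw [hc] at htot
    refine arith_ell hq0 hr hr2 hQ1 hQ0 (l := e * s) (Nat.mul_pos he hspos) ?_ hm htot
    obtain ⟨a, rfl⟩ := hev
    rw [pow_mul, hQe]
    rw [show a + a = 2 * a by ring, pow_mul]
    simp

end FD

end Cfsg.Agent.Lib.ElusQ.Oz
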