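import Cfsg.Agent.Lib.ElusQ.Oz

/-!
# Invariant nondegenerate subspaces with prescribed type
-/

set_option autoImplicit false
set_option linter.unusedSectionVars false
set_option linter.style.haveILetI false
set_option linter.unusedVariables false
set_option linter.unusedSimpArgs false

open Polynomial Module

universe u v

namespace Cfsg.Agent.Lib.ElusQ.Pos

open Cfsg.Agent.Lib.ElusL.Basic Cfsg.Agent.Lib.ElusL.Flag Cfsg.Agent.Lib.ElusL.Cyc
  Cfsg.Agent.Lib.ElusL.Pos Cfsg.Agent.Lib.ElusF.Form Cfsg.Agent.Lib.ElusF.Step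
  Cfsg.Agent.Lib.ElusF.Split Cfsg.Agent.Lib.ElusF.SpNeg Cfsg.Agent.Lib.ElusF.SpModel
  Cfsg.Agent.Lib.ElusQ.Disc Cfsg.Agent.Lib.ElusQ.Count Cfsg.Agent.Lib.QuadDisc.Basic
  Cfsg.Agent.Lib.QuadDisc.Classify Cfsg.Agent.Lib.ElusQ.Oz

variable {F : Type u} [Field F] {q r : ℕ} {V : Type v} [AddCommGroup V] [Module F V]
  [FiniteDimensional F V] [Fintype F] {B : LinearMap.BilinForm F V} {T : End F V}

/-- The fixed part. -/
noncomputable abbrev K0 (T : End F V) : Submodule F V := LinearMap.ker (Polynomial.aeval T (X - 1 : F[X]))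

/-- The fixed-point-free part. -/
noncomputable abbrev K1 (T : End F V) (r : ℕ) : Submodule F V := LinearMap.ker (Polynomial.aeval T (Phi F r))

theorem nd_K0 (h : Oz B T r) (hrF : (r : F) ≠ 0) : Nd (fun u v => B u v) (K0 T) := by
  have := nd0 h.fm h.isoF hrF h.pow h.fm.nd_top (U := ⊤) (fun v _ => trivial)
  rwa [top_inf_eq] at this

theorem nd_K1 (h : Oz B T r) (hrF : (r : F) ≠ 0) : Nd (fun u v => B u v) (K1 T r) := by
  have := nd1 h.fm h.isoF hrF h.pow h.fm.nd_top (U := ⊤) (fun v _ => trivial)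
  rwa [top_inf_eq] at this

theorem finrank_K (h : Oz B T r) (hrF : (r : F) ≠ 0) :
    finrank F V = finrank F (K0 T) + finrank F (K1 T r) := by
  have := (split01 hrF h.pow (U := ⊤) (fun v _ => trivial)).2
  rwa [top_inf_eq, top_inf_eq, finrank_top] at this

theorem orth_K (h : Oz B T r) (hrF : (r : F) ≠ 0) : ∀ x ∈ K0 T, ∀ y ∈ K1 T r, B x y = 0 :=
  fun x hx y hy => orth01 h.fm h.isoF hrF (mem_fix.mp hx) hy

theorem inv_of_le_K0 {W : Submodule F V} (hW : W ≤ K0 T) : Inv T W := by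
  intro v hv
  rw [mem_fix.mp (hW hv)]
  exact hv

/-- A fixed-point-free piece and a prescribed piece of the fixed space. -/
theorem exists_W_mixed (h : Oz B T r) (h2 : (2 : F) ≠ 0) (hq : Fintype.card F = q) (hr : r.Prime) (hr2 : r ≠ 2)
    (hrF : (r : F) ≠ 0) (hrq : ¬ r ∣ q) {s u l : ℕ}
    (hs : cOf (orderOf (q : ZMod r)) * s ≤ finrank F (K1 T r)) (hu1 : 1 ≤ u) (hu2 : u < finrank F (K0 T))
    (hl : u + cOf (orderOf (q : ZMod r)) * s = 2 * l) (τ : Prop) :
    ∃ W : Submodule F V, Nd (fun u v => B u v) W ∧ Inv T W ∧ finrank F W = 2 * l ∧ (Hy B W ↔ τ) := by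
  obtain ⟨U, hU₁, hU, hUi, hUd⟩ := exists_blocks h h2 hq hr hr2 hrF hrq s hs
  obtain ⟨W, hW0, hWn, hWd, hn, hdim, hτ⟩ := exists_sub_type h2 h.symm h.nondeg (nd_K0 h hrF) hU
    (fun x hx y hy => orth_K h hrF x hx y (hU₁ hy)) hu1 hu2 (by rw [hUd]; exact hl) τ
  exact ⟨W ⊔ U, hn, inv_sup (inv_of_le_K0 hW0) hUi, hdim, hτ⟩

/-- Subspaces on which the isometry acts as a scalar are flexible. -/
theorem exists_pair (h2 : (2 : F) ≠ 0) (hS : B.IsSymm) (hN : B.Nondegenerate) {A C : Submodule F V}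
    (hA : Nd (fun u v => B u v) A) (hC : Nd (fun u v => B u v) C)
    (horth : ∀ x ∈ A, ∀ y ∈ C, B x y = 0) {u v l : ℕ} (hu1 : 1 ≤ u) (hu2 : u < finrank F A)
    (hv : v ≤ finrank F C) (hl : u + v = 2 * l) (τ : Prop) :
    ∃ W₁ W₂ : Submodule F V, W₁ ≤ A ∧ W₂ ≤ C ∧ Nd (fun u v => B u v) (W₁ ⊔ W₂) ∧
      finrank F (W₁ ⊔ W₂ : Submodule F V) = 2 * l ∧ (Hy B (W₁ ⊔ W₂) ↔ τ) := by
  obtain ⟨Y, hYC, hY, hYd⟩ : ∃ Y : Submodule F V, Y ≤ C ∧ Nd (fun u v => B u v) Y ∧ finrank F Y = v := by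
    rcases Nat.eq_zero_or_pos v with rfl | hv0
    · refine ⟨⊥, bot_le, fun u hu _ => (Submodule.mem_bot F).mp hu, finrank_bot F V⟩
    rcases Nat.lt_or_ge v (finrank F C) with hlt | hge
    · obtain ⟨Y, h1, h3, h4, -⟩ := exists_sub_dd h2 hS hN _ C hC rfl v hv0 hlt 1 one_ne_zero
      exact ⟨Y, h1, h3, h4⟩
    · exact ⟨C, le_rfl, hC, le_antisymm hge hv⟩
  obtain ⟨W, hWA, hW, hWd, hn, hdim, hτ⟩ := exists_sub_type h2 hS hN hA hY
    (fun x hx y hy => horth x hx y (hYC hy)) hu1 hu2 (by rw [hYd]; exact hl) τ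
  exact ⟨W, Y, hWA, hYC, hn, hdim, hτ⟩

/-- All subspaces of the two eigenspaces of an involution. -/
theorem exists_W_invol (h : Oz B T 2) (h2 : (2 : F) ≠ 0) {l : ℕ} (hl : 1 ≤ l)
    (hodd : Odd (finrank F V)) (hm : 2 * l < finrank F V) (τ : Prop) :
    ∃ W : Submodule F V, Nd (fun u v => B u v) W ∧ Inv T W ∧ finrank F W = 2 * l ∧ (Hy B W ↔ τ) := by
  have hrF : ((2 : ℕ) : F) ≠ 0 := by exact_mod_cast h2
  have hn0 := nd_K0 h hrF
  have hn1 := nd_K1 h hrF
  have hsum := finrank_K h hrF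
  have hor := orth_K h hrF
  have hK1T : ∀ v ∈ K1 T 2, T v = - v := by
    intro v hv
    have h3 : Polynomial.aeval T (Phi F 2) v = 0 := hv
    have h4 : Phi F 2 = X + 1 := by
      simp [Phi, Finset.sum_range_succ, add_comm]
    rw [h4] at h3
    simp only [map_add, aeval_X, map_one, LinearMap.add_apply, Module.End.one_apply] at h3
    exact eq_neg_of_add_eq_zero_left h3
  have hinv1 : ∀ W : Submodule F V, W ≤ K1 T 2 → Inv T W := by
    intro W hW v hv
    rw [hK1T v (hW hv)]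
    exact W.neg_mem hv
  have hfin : ∀ (A C : Submodule F V), (∀ W, W ≤ A → Inv T W) → (∀ W, W ≤ C → Inv T W) →
      Nd (fun u v => B u v) A → Nd (fun u v => B u v) C → (∀ x ∈ A, ∀ y ∈ C, B x y = 0) →
      finrank F V = finrank F A + finrank F C → Odd (finrank F A) →
      ∃ W : Submodule F V, Nd (fun u v => B u v) W ∧ Inv T W ∧ finrank F W = 2 * l ∧ (Hy B W ↔ τ) := by
    intro A C hiA hiC hA hC hAC hdim hAo
    by_cases hA1 : finrank F A = 1
    · -- the flexible part is `C`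
      have hCA : ∀ x ∈ C, ∀ y ∈ A, B x y = 0 := fun x hx y hy => by
        rw [h.symm.eq]
        exact hAC y hy x hx
      obtain ⟨W₁, W₂, h1, h3, h4, h5, h6⟩ := exists_pair h2 h.symm h.nondeg hC hA hCA
        (u := 2 * l - 1) (v := 1) (l := l) (by omega) (by omega) (by omega) (by omega) τ
      exact ⟨W₁ ⊔ W₂, h4, inv_sup (hiC _ h1) (hiA _ h3), h5, h6⟩
    · have hA3 : 3 ≤ finrank F A := by
        obtain ⟨k, hk⟩ := hAo
        omega
      obtain ⟨k, hk⟩ := hAo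
      obtain ⟨W₁, W₂, h1, h3, h4, h5, h6⟩ := exists_pair h2 h.symm h.nondeg hA hC hAC
        (u := min (2 * l) (2 * k)) (v := 2 * l - min (2 * l) (2 * k)) (l := l)
        (by omega) (by omega) (by
          obtain ⟨m, hm'⟩ := hodd
          omega) (by omega) τ
      exact ⟨W₁ ⊔ W₂, h4, inv_sup (hiA _ h1) (hiC _ h3), h5, h6⟩
  rcases Nat.even_or_odd (finrank F (K0 T)) with he | ho
  · have ho1 : Odd (finrank F (K1 T 2)) := by
      by_contra hc
      rw [Nat.not_odd_iff_even] at hc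
      have : Even (finrank F V) := by
        rw [hsum]
        exact he.add hc
      exact (Nat.not_even_iff_odd.mpr hodd) this
    exact hfin (K1 T 2) (K0 T) hinv1 (fun W hW => inv_of_le_K0 hW) hn1 hn0
      (fun x hx y hy => by
        rw [h.symm.eq]
        exact hor y hy x hx) (by omega) ho1
  · exact hfin (K0 T) (K1 T 2) (fun W hW => inv_of_le_K0 hW) hinv1 hn0 hn1 hor hsum ho

/-- The pieces of an invariant nondegenerate subspace. -/
theorem decomp (h : Oz B T r) (hrF : (r : F) ≠ 0) {W : Submodule F V} (hW : Nd (fun u v => B u v) W)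
    (hWi : Inv T W) :
    Nd (fun u v => B u v) (W ⊓ K0 T) ∧ Nd (fun u v => B u v) (W ⊓ K1 T r) ∧
      Inv T (W ⊓ K1 T r) ∧
      finrank F W = finrank F (W ⊓ K0 T : Submodule F V) + finrank F (W ⊓ K1 T r : Submodule F V) ∧
      (W ⊓ K0 T) ⊔ (W ⊓ K1 T r) = W :=
  ⟨nd0 h.fm h.isoF hrF h.pow hW hWi, nd1 h.fm h.isoF hrF h.pow hW hWi,
    h.fm.inv_inf hWi (inv_ker T _), (split01 hrF h.pow hWi).2, (split01 hrF h.pow hWi).1⟩

/-- An invariant nondegenerate subspace determines its residue and the number of blocks. -/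
theorem residue (h : Oz B T r) (h2 : (2 : F) ≠ 0) (hq : Fintype.card F = q) (hr : r.Prime) (hr2 : r ≠ 2)
    (hrF : (r : F) ≠ 0) (hrq : ¬ r ∣ q) {W : Submodule F V} (hW : Nd (fun u v => B u v) W)
    (hWi : Inv T W) (hlt : finrank F (K0 T) < cOf (orderOf (q : ZMod r))) :
    finrank F W % cOf (orderOf (q : ZMod r)) = finrank F (W ⊓ K0 T : Submodule F V) ∧
      finrank F (W ⊓ K0 T : Submodule F V) ≤ finrank F (K0 T) ∧
      finrank F (W ⊓ K1 T r : Submodule F V) =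
        cOf (orderOf (q : ZMod r)) * (finrank F W / cOf (orderOf (q : ZMod r))) := by
  obtain ⟨h1, h3, h4, h5, h6⟩ := decomp h hrF hW hWi
  obtain ⟨s, hs⟩ := c_dvd h h2 hq hr (hr.odd_of_ne_two hr2) hrF hrq h3 h4 inf_le_right
  have hle : finrank F (W ⊓ K0 T : Submodule F V) ≤ finrank F (K0 T) := Submodule.finrank_mono inf_le_right
  set c := cOf (orderOf (q : ZMod r)) with hc
  have hc0 : 0 < c := cOf_pos (ord_pos hr hrq)
  have hlt' : finrank F (W ⊓ K0 T : Submodule F V) < c := by omega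
  rw [h5, hs]
  refine ⟨?_, hle, ?_⟩
  · rw [Nat.add_mul_mod_self_left, Nat.mod_eq_of_lt hlt']
  · rw [Nat.add_mul_div_left _ _ hc0, Nat.div_eq_of_lt hlt', zero_add]

/-- If the fixed part of an invariant subspace is trivial then its type is given by the number of blocks. -/
theorem hy_of_no_fixed (h : Oz B T r) {W : Submodule F V} (hrF : (r : F) ≠ 0) (hWi : Inv T W)
    (h0 : finrank F (W ⊓ K0 T : Submodule F V) = 0) : W ≤ K1 T r := by
  have h3 := (split01 hrF h.pow hWi).1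
  have h4 : (W ⊓ K0 T : Submodule F V) = ⊥ := Submodule.finrank_eq_zero.mp h0
  rw [h4, bot_sup_eq] at h3
  rw [← h3]
  exact inf_le_right

end Cfsg.Agent.Lib.ElusQ.Pos
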