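import Cfsg.Agent.Lib.ElusQ.Model
import Cfsg.Agent.Lib.Witt.Quadratic

/-!
# Sylow subgroups of isometry groups: fixed spaces and the number of subspaces of a given kind
-/

set_option autoImplicit false
set_option linter.unusedSectionVars false
set_option linter.style.haveILetI false
set_option linter.unusedVariables false
set_option linter.unusedSimpArgs false

open Polynomial Module QuadraticMap

universe u v

namespace Cfsg.Agent.Lib.ElusQ.Syl

open Cfsg.Agent.Lib.ElusL.Basic Cfsg.Agent.Lib.ElusL.Cyc Cfsg.Agent.Lib.ElusF.Form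
  Cfsg.Agent.Lib.ElusQ.Disc Cfsg.Agent.Lib.ElusQ.Count Cfsg.Agent.Lib.ElusQ.Oz Cfsg.Agent.Lib.ElusQ.Pos
  Cfsg.Agent.Lib.Witt.Quadratic Cfsg.Agent.Lib.QuadDisc.Basic

variable {F : Type u} [Field F] [Fintype F] {V : Type v} [AddCommGroup V] [Module F V]
  [FiniteDimensional F V] {q r : ℕ}

theorem map_mul_equiv (W : Submodule F V) (a b : V ≃ₗ[F] V) :
    W.map ((a * b : V ≃ₗ[F] V) : V →ₗ[F] V) = (W.map (b : V →ₗ[F] V)).map (a : V →ₗ[F] V) := by
  rw [← Submodule.map_comp]
  rfl

/-- If every `r`-subgroup stabilizes a member of a single orbit then `r` does not divide its size. -/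
theorem not_dvd_of_fixed (Q : QuadraticForm F V) [hr : Fact r.Prime] (P : Submodule F V → Prop)
    (hinv : ∀ g : V ≃ₗ[F] V, g ∈ isoGroup Q → ∀ W, P W → P (W.map (g : V →ₗ[F] V)))
    (htrans : ∀ W W', P W → P W' → ∃ g : V ≃ₗ[F] V, g ∈ isoGroup Q ∧ W.map (g : V →ₗ[F] V) = W')
    (hfix : ∀ S : Subgroup (isoGroup Q), IsPGroup r S → ∃ W, P W ∧
      ∀ g ∈ S, W.map (((g : isoGroup Q) : V ≃ₗ[F] V) : V →ₗ[F] V) = W) :
    ¬ r ∣ Nat.card {W // P W} := by
  classical
  haveI : Finite V := Module.finite_of_finite F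
  haveI : Finite (V ≃ₗ[F] V) := Finite.of_injective (fun e : V ≃ₗ[F] V => (e : V → V)) DFunLike.coe_injective
  let G := ↥(isoGroup Q)
  letI act : MulAction G {W // P W} :=
    { smul := fun g W => ⟨W.1.map (((g : isoGroup Q) : V ≃ₗ[F] V) : V →ₗ[F] V), hinv _ g.2 _ W.2⟩
      one_smul := fun W => Subtype.ext (by
        change W.1.map (((1 : V ≃ₗ[F] V)) : V →ₗ[F] V) = W.1
        exact Submodule.map_id _)
      mul_smul := fun a b W => Subtype.ext (map_mul_equiv W.1 _ _) }
  have hsmul : ∀ (g : G) (W : {W // P W}), ((g • W : {W // P W}) : Submodule F V) =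
      W.1.map (((g : isoGroup Q) : V ≃ₗ[F] V) : V →ₗ[F] V) := fun _ _ => rfl
  obtain ⟨S⟩ : Nonempty (Sylow r G) := inferInstance
  obtain ⟨W₀, hW₀, hfixW⟩ := hfix S S.isPGroup'
  have hle : (S : Subgroup G) ≤ MulAction.stabilizer G (⟨W₀, hW₀⟩ : {W // P W}) := by
    intro g hg
    rw [MulAction.mem_stabilizer_iff]
    apply Subtype.ext
    rw [hsmul]
    exact hfixW g hg
  have horb : MulAction.orbit G (⟨W₀, hW₀⟩ : {W // P W}) = Set.univ := by
    ext W
    simp only [Set.mem_univ, iff_true]
    obtain ⟨g, hg, hgW⟩ := htrans W₀ W.1 hW₀ W.2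
    refine ⟨⟨g, hg⟩, ?_⟩
    apply Subtype.ext
    exact hgW
  have hidx := MulAction.index_stabilizer G (⟨W₀, hW₀⟩ : {W // P W})
  rw [horb, Set.ncard_univ] at hidx
  intro hdvd
  rw [← hidx] at hdvd
  exact S.not_dvd_index (hdvd.trans (Subgroup.index_dvd_of_le hle))

/-- The fixed vectors of a subgroup of the isometry group. -/
def fixSub (Q : QuadraticForm F V) (S : Subgroup (isoGroup Q)) : Submodule F V where
  carrier := {v | ∀ g ∈ S, ((g : isoGroup Q) : V ≃ₗ[F] V) v = v}
  add_mem' := by
    intro a b ha hb g hg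
    rw [map_add, ha g hg, hb g hg]
  zero_mem' := by
    intro g _
    exact map_zero _
  smul_mem' := by
    intro c a ha g hg
    rw [map_smul, ha g hg]

theorem mem_fixSub {Q : QuadraticForm F V} {S : Subgroup (isoGroup Q)} {v : V} :
    v ∈ fixSub Q S ↔ ∀ g ∈ S, ((g : isoGroup Q) : V ≃ₗ[F] V) v = v := Iff.rfl

/-- The polar form is symmetric. -/
theorem polar_symm (Q : QuadraticForm F V) : LinearMap.BilinForm.IsSymm (polarBilin Q) :=
  ⟨fun x y => by
    simp only [polarBilin_apply_apply]
    exact polar_comm _ _ _⟩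

theorem polar_self' (Q : QuadraticForm F V) (x : V) : polarBilin Q x x = 2 * Q x := by
  simp only [polarBilin_apply_apply, polar_self]
  simp

theorem polar_iso {Q : QuadraticForm F V} (g : isoGroup Q) (x y : V) :
    polarBilin Q ((g : V ≃ₗ[F] V) x) ((g : V ≃ₗ[F] V) y) = polarBilin Q x y :=
  polar_eq_of_preserves (g : V ≃ₗ[F] V) g.2 x y

/-- The fixed space of a subgroup of order prime to the characteristic is nondegenerate. -/
theorem nd_fixSub {Q : QuadraticForm F V} (hN : (polarBilin Q).Nondegenerate) {S : Subgroup (isoGroup Q)}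
    (hcard : ((Nat.card S : ℕ) : F) ≠ 0) : Nd (fun u v => polarBilin Q u v) (fixSub Q S) := by
  classical
  haveI : Finite V := Module.finite_of_finite F
  haveI : Finite (V ≃ₗ[F] V) := Finite.of_injective (fun e : V ≃ₗ[F] V => (e : V → V)) DFunLike.coe_injective
  haveI : Fintype S := Fintype.ofFinite _
  intro v hv hh
  apply hN.1 v
  intro w
  let y : V := ∑ h : S, (((h : isoGroup Q) : V ≃ₗ[F] V)) w
  have hy : y ∈ fixSub Q S := by
    intro g hg
    simp only [y, map_sum]
    refine Fintype.sum_equiv (Equiv.mulLeft (⟨g, hg⟩ : S)) _ _ (fun h => ?_)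
    rfl
  have h1 := hh y hy
  have h3 : polarBilin Q v y = (Nat.card S : F) * polarBilin Q v w := by
    simp only [y, map_sum]
    have : ∀ h : S, polarBilin Q v (((h : isoGroup Q) : V ≃ₗ[F] V) w) = polarBilin Q v w := by
      intro h
      have h4 := polar_iso (h : isoGroup Q) v w
      rwa [hv _ h.2] at h4
    simp only [this, Finset.sum_const, Finset.card_univ, nsmul_eq_mul, Nat.card_eq_fintype_card]
  change polarBilin Q v y = 0 at h1
  rw [h3] at h1
  exact (mul_eq_zero.mp h1).resolve_left hcard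

theorem card_eq_pow_finrank (hq : Fintype.card F = q) (W : Type*) [AddCommGroup W] [Module F W]
    [FiniteDimensional F W] : Nat.card W = q ^ finrank F W := by
  rw [Module.natCard_eq_pow_finrank (K := F), Nat.card_eq_fintype_card, hq]

/-- The number of fixed vectors of an `r`-group. -/
theorem card_modEq_fix (hq : Fintype.card F = q) [hr : Fact r.Prime] {Q : QuadraticForm F V}
    {S : Subgroup (isoGroup Q)} (hS : IsPGroup r S) :
    q ^ finrank F V ≡ q ^ finrank F (fixSub Q S) [MOD r] := by
  classical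
  haveI : Finite V := Module.finite_of_finite F
  letI : MulAction S V := MulAction.compHom V ((isoGroup Q).subtype.comp S.subtype)
  have hsm : ∀ (g : S) (v : V), g • v = ((g : isoGroup Q) : V ≃ₗ[F] V) v := fun _ _ => rfl
  have h1 := hS.card_modEq_card_fixedPoints V
  have h3 : MulAction.fixedPoints S V = (fixSub Q S : Set V) := by
    ext v
    rw [MulAction.mem_fixedPoints]
    constructor
    · intro h g hg
      exact h ⟨g, hg⟩
    · intro h g
      exact h g g.2
  rw [h3] at h1
  rw [card_eq_pow_finrank hq V] at h1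
  have h4 : Nat.card (fixSub Q S : Set V) = q ^ finrank F (fixSub Q S) :=
    card_eq_pow_finrank hq (fixSub Q S)
  rwa [h4] at h1

/-- The number of singular vectors in the orthogonal complement of the fixed space. -/
theorem card_sing_modEq_orth [hr : Fact r.Prime] {Q : QuadraticForm F V} (hSy : LinearMap.BilinForm.IsSymm (polarBilin Q))
    (hN : (polarBilin Q).Nondegenerate) {S : Subgroup (isoGroup Q)} (hS : IsPGroup r S)
    (hC : Nd (fun u v => polarBilin Q u v) (fixSub Q S)) :
    Nat.card {v : ((fm_of_symm hSy hN).orth (fixSub Q S)) //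
      LinearMap.BilinForm.restrict (polarBilin Q) ((fm_of_symm hSy hN).orth (fixSub Q S)) v v = 0} ≡ 1 [MOD r] := by
  classical
  have hB := fm_of_symm hSy hN
  haveI : Finite V := Module.finite_of_finite F
  set K := (fm_of_symm hSy hN).orth (fixSub Q S) with hK
  have hmem : ∀ (g : S) (x : V), x ∈ K → ((g : isoGroup Q) : V ≃ₗ[F] V) x ∈ K := by
    intro g x hx c hc
    have h1 : polarBilin Q c x = 0 := hx c hc
    have h3 := polar_iso (g : isoGroup Q) c x
    rw [hc g g.2] at h3
    change polarBilin Q c _ = 0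
    rw [h3, h1]
  let α := {v : K // LinearMap.BilinForm.restrict (polarBilin Q) K v v = 0}
  haveI : Finite α := inferInstance
  letI act : MulAction S α :=
    { smul := fun g v => ⟨⟨((g : isoGroup Q) : V ≃ₗ[F] V) (v.1 : V), hmem g _ v.1.2⟩, by
        have h1 := polar_iso (g : isoGroup Q) (v.1 : V) (v.1 : V)
        change polarBilin Q (((g : isoGroup Q) : V ≃ₗ[F] V) (v.1 : V)) (((g : isoGroup Q) : V ≃ₗ[F] V) (v.1 : V)) = 0
        rw [h1]
        exact v.2⟩
      one_smul := fun v => rfl
      mul_smul := fun a b v => rfl }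
  have hsm : ∀ (g : S) (v : α), (((g • v : α).1 : K) : V) = ((g : isoGroup Q) : V ≃ₗ[F] V) (v.1 : V) :=
    fun _ _ => rfl
  have h1 := hS.card_modEq_card_fixedPoints α
  have h0 : (LinearMap.BilinForm.restrict (polarBilin Q) K (0 : K) (0 : K)) = 0 := by simp
  have h3 : Nat.card (MulAction.fixedPoints S α) = 1 := by
    rw [Nat.card_eq_one_iff_unique]
    constructor
    · constructor
      rintro ⟨a, ha⟩ ⟨b, hb⟩
      apply Subtype.ext
      have hzero : ∀ c : α, c ∈ MulAction.fixedPoints S α → c = ⟨0, h0⟩ := by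
        intro c hc
        apply Subtype.ext
        apply Subtype.ext
        have h4 : ((c.1 : K) : V) ∈ fixSub Q S := by
          intro g hg
          have := (MulAction.mem_fixedPoints.mp hc) ⟨g, hg⟩
          exact congrArg (fun y : α => ((y.1 : K) : V)) this
        exact hC _ h4 (fun x hx => by
          change polarBilin Q _ _ = 0
          rw [hSy.eq]
          exact c.1.2 x hx)
      exact (hzero a ha).trans (hzero b hb).symm
    · refine ⟨⟨⟨0, h0⟩, ?_⟩⟩
      rw [MulAction.mem_fixedPoints]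
      intro g
      apply Subtype.ext
      apply Subtype.ext
      exact map_zero _
  rwa [h3] at h1

/-- The dimension of the fixed space of an `r`-subgroup. -/
theorem syl_dim {Q : QuadraticForm F V} (hN : (polarBilin Q).Nondegenerate) (h2 : (2 : F) ≠ 0)
    (hq : Fintype.card F = q) (hr : r.Prime) (hr2 : r ≠ 2) (hrF : (r : F) ≠ 0) (hrq : ¬ r ∣ q)
    (hi1 : orderOf (q : ZMod r) ≠ 1) {S : Subgroup (isoGroup Q)} (hS : IsPGroup r S) :
    Nd (fun u v => polarBilin Q u v) (fixSub Q S) ∧
      ∃ k, finrank F V = finrank F (fixSub Q S) + cOf (orderOf (q : ZMod r)) * k := by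
  classical
  haveI : Fact r.Prime := ⟨hr⟩
  haveI : Finite V := Module.finite_of_finite F
  haveI : Finite (V ≃ₗ[F] V) := Finite.of_injective (fun e : V ≃ₗ[F] V => (e : V → V)) DFunLike.coe_injective
  have hSy := polar_symm Q
  have hB := fm_of_symm hSy hN
  have hcard : ((Nat.card S : ℕ) : F) ≠ 0 := by
    obtain ⟨k, hk⟩ := IsPGroup.iff_card.mp hS
    rw [hk]
    push_cast
    exact pow_ne_zero _ hrF
  have hC := nd_fixSub hN hcard
  refine ⟨hC, ?_⟩
  set C := fixSub Q S with hCdef
  set K := hB.orth C with hK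
  have hsum := hB.finrank_orth C
  have hQ0 : (q : ZMod r) ≠ 0 := natCast_q_ne_zero hrq
  have hmod := card_modEq_fix hq hS
  have h3 := (ZMod.natCast_eq_natCast_iff _ _ _).mpr hmod
  push_cast at h3
  rw [← hsum, pow_add] at h3
  have h4 : (q : ZMod r) ^ finrank F K = 1 := by
    apply mul_left_cancel₀ (pow_ne_zero (finrank F C) hQ0)
    rw [mul_one]
    exact h3
  have h5 : orderOf (q : ZMod r) ∣ finrank F K := orderOf_dvd_of_pow_eq_one h4
  have h6 : cOf (orderOf (q : ZMod r)) ∣ finrank F K := by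
    unfold cOf
    split_ifs with he
    · exact h5
    · rw [Nat.not_even_iff_odd] at he
      apply Nat.Coprime.mul_dvd_of_dvd_of_dvd ((Nat.coprime_two_left).mpr he) _ h5
      by_contra hc
      rw [← even_iff_two_dvd, Nat.not_even_iff_odd] at hc
      obtain ⟨l, hl⟩ := hc
      have hKn := hB.nd_orth hC
      have h7 := card_sing_modEq_orth hSy hN hS hC
      rw [card_sing_odd hq h2 _ (restrict_nondeg hSy hKn) (Cfsg.Agent.Lib.QuadDisc.Basic.restrict_isSymm _ hSy _) hl] at h7
      have h8 := (ZMod.natCast_eq_natCast_iff _ _ _).mpr h7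
      push_cast at h8
      rw [hl, pow_succ, h8, one_mul] at h4
      exact hi1 (orderOf_eq_one_iff.mpr h4)
  obtain ⟨k, hk⟩ := h6
  exact ⟨k, by rw [← hsum, hk]⟩

end Cfsg.Agent.Lib.ElusQ.Syl
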