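import Cfsg.Agent.Lib.ElusQ.OddThm

/-!
# A unipotent element all of whose invariant even-dimensional nondegenerate subspaces are hyperbolic
-/

set_option autoImplicit false
set_option linter.unusedSectionVars false
set_option linter.style.haveILetI false
set_option linter.unusedVariables false
set_option linter.unusedSimpArgs false

open Polynomial Module QuadraticMap Matrix

universe u v

namespace Cfsg.Agent.Lib.ElusQ.Uni

open Cfsg Cfsg.Agent.Lib.ElusL.Basic Cfsg.Agent.Lib.ElusF.Form
  Cfsg.Agent.Lib.ElusQ.Disc Cfsg.Agent.Lib.ElusQ.Oz Cfsg.Agent.Lib.ElusQ.Syl Cfsg.Agent.Lib.ElusQ.OddMain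
  Cfsg.Agent.Lib.ElusQ.Pos Cfsg.Agent.Lib.ElusQ.Bridge Cfsg.Agent.Lib.ElusQ.OddThm
  Cfsg.Agent.Lib.Witt.Quadratic Cfsg.Agent.Lib.Elusive.OmegaMem Cfsg.Agent.Lib.Orth.Bridge Cfsg.Agent.Lib.Orth.Forms

section Abstract

variable {F : Type u} [Field F] {V : Type v} [AddCommGroup V] [Module F V] [FiniteDimensional F V]

theorem finrank_map_add_ker (N : End F V) (U : Submodule F V) :
    finrank F (U.map N) + finrank F ↥(U ⊓ LinearMap.ker N) = finrank F U := by
  have h := LinearMap.finrank_range_add_finrank_ker (N.domRestrict U)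
  rw [LinearMap.range_domRestrict, LinearMap.ker_domRestrict] at h
  have h1 : finrank F ↥((LinearMap.ker N).comap U.subtype) = finrank F ↥(U ⊓ LinearMap.ker N) := by
    rw [← Submodule.map_comap_subtype]
    exact (Submodule.finrank_map_subtype_eq _ _).symm
  rw [h1] at h
  exact h

theorem rank_ineq (N : End F V) (U : Submodule F V) (hU : U.map N ≤ U) :
    2 * finrank F (U.map N) ≤ finrank F U + finrank F ((U.map N).map N) := by
  have h1 := finrank_map_add_ker N U
  have h2 := finrank_map_add_ker N (U.map N)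
  have h3 : finrank F ↥((U.map N) ⊓ LinearMap.ker N) ≤ finrank F ↥(U ⊓ LinearMap.ker N) :=
    Submodule.finrank_mono (inf_le_inf_right _ hU)
  omega

theorem hy_of_ranks {B : LinearMap.BilinForm F V} (hS : B.IsSymm) (hN : B.Nondegenerate) {T : End F V}
    (hT : ∀ u v, B (T u) (T v) = B u v) (hinj : Function.Injective T)
    (hrk : finrank F V + 2 * finrank F (LinearMap.range ((T - 1) ∘ₗ (T - 1))) ≤
      2 * finrank F (LinearMap.range (T - 1)) + 1)
    {W : Submodule F V} (hW : Nd (fun u v => B u v) W) (hinv : Inv T W) (hev : Even (finrank F W)) : Hy B W := by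
  have hf := fm_of_symm hS hN
  set N : End F V := T - 1 with hNdef
  set W' := hf.orth W with hW'
  have hinv' : Inv T W' := hf.inv_orth hT hinj hinv
  have hc := hf.isCompl_orth hW
  have hNinv : ∀ {U : Submodule F V}, Inv T U → U.map N ≤ U := by
    intro U hU
    rintro _ ⟨u, hu, rfl⟩
    have : N u = T u - u := rfl
    rw [this]
    exact U.sub_mem (hU u hu) hu
  have h1 := rank_ineq N W (hNinv hinv)
  have h2 := rank_ineq N W' (hNinv hinv')
  have h3 : finrank F W + finrank F W' = finrank F V := Submodule.finrank_add_eq_of_isCompl hc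
  have h4 : finrank F (LinearMap.range N) ≤ finrank F (W.map N) + finrank F (W'.map N) := by
    have h5 : LinearMap.range N = W.map N ⊔ W'.map N := by
      rw [← Submodule.map_sup, hc.sup_eq_top, Submodule.map_top]
    rw [h5]
    exact Submodule.finrank_add_le_finrank_add_finrank _ _
  have h5 : finrank F ((W.map N).map N) + finrank F ((W'.map N).map N) ≤
      finrank F (LinearMap.range (N ∘ₗ N)) := by
    have h6 : (W.map N).map N ≤ W := (Submodule.map_mono (hNinv hinv)).trans (hNinv hinv)
    have h7 : (W'.map N).map N ≤ W' := (Submodule.map_mono (hNinv hinv')).trans (hNinv hinv')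
    have h8 : (W.map N).map N ⊓ (W'.map N).map N = ⊥ := by
      rw [eq_bot_iff, ← hc.inf_eq_bot]
      exact inf_le_inf h6 h7
    have h9 := Submodule.finrank_sup_add_finrank_inf_eq ((W.map N).map N) ((W'.map N).map N)
    rw [h8, finrank_bot, add_zero] at h9
    rw [← h9]
    apply Submodule.finrank_mono
    apply sup_le
    · rintro _ ⟨_, ⟨u, _, rfl⟩, rfl⟩
      exact ⟨u, rfl⟩
    · rintro _ ⟨_, ⟨u, _, rfl⟩, rfl⟩
      exact ⟨u, rfl⟩
  obtain ⟨l, hl⟩ := hev
  have h10 : finrank F ((W.map N).map N) = 0 := by omega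
  have h11 : finrank F W = 2 * finrank F (W.map N) := by omega
  refine ⟨W.map N, hNinv hinv, ?_, h11.symm⟩
  have h12 : (W.map N).map N = ⊥ := Submodule.finrank_eq_zero.mp h10
  rintro _ ⟨u, hu, rfl⟩ _ ⟨v, hv, rfl⟩
  have h13 : N (N v) = 0 := by
    have : N (N v) ∈ (W.map N).map N := ⟨N v, ⟨v, hv, rfl⟩, rfl⟩
    rw [h12] at this
    exact (Submodule.mem_bot F).mp this
  have h14 : T (N v) = N v := by
    have h15 : N (N v) = T (N v) - N v := rfl
    rw [h13] at h15
    exact (sub_eq_zero.mp h15.symm)
  have h16 := hT u (N v)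
  rw [h14] at h16
  have h17 : T u = u + N u := by
    have : N u = T u - u := rfl
    rw [this]
    abel
  rw [h17, map_add, LinearMap.add_apply] at h16
  exact add_eq_left.mp h16

end Abstract

section Coord

variable {F : Type u} [Field F] {d : ℕ}

/-- The nilpotent part of a unipotent radical element. -/
noncomputable def NN (A : Fin d → Fin d → F) (a : Fin d → F) : End F (Unit ⊕ (Fin d ⊕ Fin d) → F) where
  toFun v k := match k with
    | .inl _ => ∑ j, a j * v (.inr (.inr j))
    | .inr (.inl i) => ∑ j, A i j * v (.inr (.inr j)) - 2 * a i * v (.inl ()) - a i * ∑ j, a j * v (.inr (.inr j))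
    | .inr (.inr _) => 0
  map_add' u v := by
    funext k
    rcases k with _ | i | i
    · simp [mul_add, Finset.sum_add_distrib]
    · simp [mul_add, Finset.sum_add_distrib]
      ring
    · simp
  map_smul' c v := by
    funext k
    rcases k with _ | i | i
    · simp [Finset.mul_sum, mul_left_comm]
    · simp [Finset.mul_sum, mul_left_comm, mul_sub]
    · simp

@[simp] theorem NN_inl (A : Fin d → Fin d → F) (a : Fin d → F) (v) (t : Unit) :
    NN A a v (.inl t) = ∑ j, a j * v (.inr (.inr j)) := rfl

@[simp] theorem NN_x (A : Fin d → Fin d → F) (a : Fin d → F) (v) (i : Fin d) :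
    NN A a v (.inr (.inl i)) =
      ∑ j, A i j * v (.inr (.inr j)) - 2 * a i * v (.inl ()) - a i * ∑ j, a j * v (.inr (.inr j)) := rfl

@[simp] theorem NN_y (A : Fin d → Fin d → F) (a : Fin d → F) (v) (i : Fin d) :
    NN A a v (.inr (.inr i)) = 0 := rfl

/-- The element preserves the quadratic form. -/
theorem NN_iso (h2 : (2 : F) ≠ 0) {A : Fin d → Fin d → F} (hA : ∀ i j, A i j = - A j i) (a : Fin d → F) (v) :
    quadFormOdd d F (v + NN A a v) = quadFormOdd d F v := by
  have hsk : ∑ i, ∑ j, A i j * v (.inr (.inr j)) * v (.inr (.inr i)) = 0 := by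
    have h1 : ∑ i, ∑ j, A i j * v (.inr (.inr j)) * v (.inr (.inr i)) =
        - ∑ i, ∑ j, A i j * v (.inr (.inr j)) * v (.inr (.inr i)) := by
      conv_lhs => rw [Finset.sum_comm]
      rw [← Finset.sum_neg_distrib]
      refine Finset.sum_congr rfl fun i _ => ?_
      rw [← Finset.sum_neg_distrib]
      refine Finset.sum_congr rfl fun j _ => ?_
      rw [hA j i]
      ring
    have h3 : (2 : F) * ∑ i, ∑ j, A i j * v (.inr (.inr j)) * v (.inr (.inr i)) = 0 := by
      rw [two_mul]
      nth_rewrite 1 [h1]
      ring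
    exact (mul_eq_zero.mp h3).resolve_left h2
  simp only [quadFormOdd, Pi.add_apply, NN_inl, NN_x, NN_y, add_zero]
  have hexp : ∀ i, (v (.inr (.inl i)) + (∑ j, A i j * v (.inr (.inr j)) - 2 * a i * v (.inl ()) -
      a i * ∑ j, a j * v (.inr (.inr j)))) * v (.inr (.inr i)) =
      v (.inr (.inl i)) * v (.inr (.inr i)) + ∑ j, A i j * v (.inr (.inr j)) * v (.inr (.inr i))
        - 2 * v (.inl ()) * (a i * v (.inr (.inr i)))
        - (∑ j, a j * v (.inr (.inr j))) * (a i * v (.inr (.inr i))) := by
    intro i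
    rw [add_mul, sub_mul, sub_mul, Finset.sum_mul]
    ring
  simp_rw [hexp]
  rw [Finset.sum_sub_distrib, Finset.sum_sub_distrib, Finset.sum_add_distrib, hsk, ← Finset.mul_sum,
    ← Finset.mul_sum]
  ring

theorem NN_sq (A : Fin d → Fin d → F) (a : Fin d → F) (v) :
    NN A a (NN A a v) = fun k => match k with
      | .inl _ => 0
      | .inr (.inl i) => - 2 * a i * ∑ j, a j * v (.inr (.inr j))
      | .inr (.inr _) => 0 := by
  funext k
  rcases k with _ | i | i
  · simp
  · simp
  · simp

theorem NN_cube (A : Fin d → Fin d → F) (a : Fin d → F) (v) : NN A a (NN A a (NN A a v)) = 0 := by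
  rw [NN_sq]
  funext k
  rcases k with _ | i | i
  · simp
  · simp
  · simp

/-- Linearly independent coordinate vectors. -/
theorem le_finrank_of_single {κ ι : Type*} [Fintype κ] [DecidableEq κ] [Fintype ι] (g : ι → κ)
    (hg : Function.Injective g) (S : Submodule F (κ → F)) (h : ∀ i, (Pi.single (g i) 1 : κ → F) ∈ S) :
    Fintype.card ι ≤ finrank F S := by
  have h1 : LinearIndependent F (fun i : ι => (Pi.single (g i) 1 : κ → F)) := by
    have := ((Pi.basisFun F κ).linearIndependent.comp g hg)
    convert this using 1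
    funext i
    simp
  have h2 : LinearIndependent F (fun i : ι => (⟨_, h i⟩ : S)) :=
    LinearIndependent.of_comp S.subtype h1
  exact h2.fintype_card_le_finrank

/-- The pairing matrix. -/
noncomputable def pA (i j : Fin d) : F :=
  if (i : ℕ) + 1 = j ∧ Even (i : ℕ) then 1 else if (j : ℕ) + 1 = i ∧ Even (j : ℕ) then -1 else 0

theorem pA_skew (i j : Fin d) : (pA i j : F) = - pA j i := by
  unfold pA
  by_cases h1 : (i : ℕ) + 1 = j ∧ Even (i : ℕ)
  · have h2 : ¬ ((j : ℕ) + 1 = i ∧ Even (j : ℕ)) := by omega
    simp [h1, h2]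
  · by_cases h3 : (j : ℕ) + 1 = i ∧ Even (j : ℕ)
    · simp [h1, h3]
    · simp [h1, h3]

theorem sum_pA_single (i j : Fin d) (c : Fin d → F) (hc : ∀ k, k ≠ j → c k = 0) :
    ∑ k, (pA i k : F) * c k = pA i j * c j := by
  rw [Finset.sum_eq_single j]
  · intro k _ hk
    rw [hc k hk, mul_zero]
  · simp

/-- Unit: the vector `f_j`. -/
noncomputable abbrev fy (j : Fin d) : Unit ⊕ (Fin d ⊕ Fin d) → F := Pi.single (.inr (.inr j)) 1

theorem NN_fy (a : Fin d → F) (j : Fin d) :
    NN pA a (fy j) = fun k => match k with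
      | .inl _ => a j
      | .inr (.inl i) => pA i j - a i * a j
      | .inr (.inr _) => 0 := by
  funext k
  rcases k with _ | i | i
  · simp [fy, Pi.single_apply]
  · simp [fy, Pi.single_apply]
  · simp

/-- The vector `a`. -/
noncomputable def pa (j : Fin d) : F := if (j : ℕ) + 1 = d ∧ Even (j : ℕ) then 1 else 0

/-- `e_i` is in the range. -/
theorem single_x_mem (i : Fin d) (hi : ¬ ((i : ℕ) + 1 = d ∧ Even (i : ℕ))) :
    (Pi.single (.inr (.inl i)) 1 : Unit ⊕ (Fin d ⊕ Fin d) → F) ∈ LinearMap.range (NN (pA : Fin d → Fin d → F) pa) := by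
  rcases Nat.even_or_odd (i : ℕ) with he | ho
  · have hlt : (i : ℕ) + 1 < d := by
      have := i.isLt
      by_contra h
      apply hi
      exact ⟨by omega, he⟩
    let j : Fin d := ⟨i + 1, hlt⟩
    refine ⟨fy j, ?_⟩
    rw [NN_fy]
    have hj : (pa j : F) = 0 := by
      unfold pa
      have : ¬ ((j : ℕ) + 1 = d ∧ Even (j : ℕ)) := by
        rintro ⟨-, h⟩
        have h3 : Even ((i : ℕ) + 1) := h
        rw [Nat.even_add_one] at h3
        exact h3 he
      simp [this]
    funext k
    rcases k with _ | k | k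
    · simp [hj]
    · simp only [hj, mul_zero, sub_zero, Sum.inr.injEq, Sum.inl.injEq, Pi.single_apply]
      unfold pA
      by_cases hk : k = i
      · subst hk
        simp [j, he]
      · have h3 : ¬ ((k : ℕ) + 1 = (j : ℕ)) := by
          intro h
          apply hk
          apply Fin.ext
          change (k : ℕ) + 1 = (i : ℕ) + 1 at h
          omega
        have h4 : ¬ Even (j : ℕ) := by
          intro h
          have h3 : Even ((i : ℕ) + 1) := h
          rw [Nat.even_add_one] at h3
          exact h3 he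
        simp [hk, h3, h4]
    · simp
  · have hpos : 1 ≤ (i : ℕ) := ho.pos
    let j : Fin d := ⟨i - 1, by have := i.isLt; omega⟩
    have hjv : (j : ℕ) + 1 = i := by
      change (i : ℕ) - 1 + 1 = i
      omega
    have hje : Even (j : ℕ) := by
      have h3 : Odd ((j : ℕ) + 1) := by rw [hjv]; exact ho
      by_contra h
      rw [Nat.not_even_iff_odd] at h
      exact (Nat.not_even_iff_odd.mpr h3) h.add_one
    refine ⟨- fy j, ?_⟩
    rw [map_neg, NN_fy]
    have hj : (pa j : F) = 0 := by
      unfold pa
      have : ¬ ((j : ℕ) + 1 = d ∧ Even (j : ℕ)) := by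
        rintro ⟨h, -⟩
        have := i.isLt
        omega
      simp [this]
    funext k
    rcases k with _ | k | k
    · simp [hj]
    · simp only [Pi.neg_apply, hj, mul_zero, sub_zero, Sum.inr.injEq, Sum.inl.injEq, Pi.single_apply]
      unfold pA
      by_cases hk : k = i
      · subst hk
        have h3 : ¬ ((k : ℕ) + 1 = (j : ℕ)) := by omega
        simp [h3, hjv, hje]
      · have h3 : ¬ ((k : ℕ) + 1 = (j : ℕ) ∧ Even (k : ℕ)) := by
          rintro ⟨h, h5⟩
          have : Odd ((k : ℕ) + 1) := h5.add_one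
          rw [h] at this
          exact (Nat.not_even_iff_odd.mpr this) hje
        have h4 : ¬ ((j : ℕ) + 1 = k ∧ Even (j : ℕ)) := by
          rintro ⟨h, -⟩
          apply hk
          apply Fin.ext
          omega
        simp [hk, h3, h4]
    · simp

/-- The last basis vector when `d` is odd. -/
theorem pa_last {l : Fin d} (hl : (l : ℕ) + 1 = d) (hd : Odd d) : (pa l : F) = 1 := by
  unfold pa
  have he : Even (l : ℕ) := by
    by_contra h
    rw [Nat.not_even_iff_odd] at h
    have : Even d := by
      rw [← hl]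
      exact h.add_one
    exact (Nat.not_even_iff_odd.mpr hd) this
  simp [hl, he]

theorem pa_ne_last {l k : Fin d} (hl : (l : ℕ) + 1 = d) (hk : k ≠ l) : (pa k : F) = 0 := by
  unfold pa
  have : ¬ ((k : ℕ) + 1 = d ∧ Even (k : ℕ)) := by
    rintro ⟨h, -⟩
    apply hk
    apply Fin.ext
    omega
  simp [this]

/-- In odd dimension the last basis vector also occurs. -/
theorem single_last_mem (h2 : (2 : F) ≠ 0) {l : Fin d} (hl : (l : ℕ) + 1 = d) (hd : Odd d) :
    (Pi.single (.inr (.inl l)) 1 : Unit ⊕ (Fin d ⊕ Fin d) → F) ∈ LinearMap.range (NN (pA : Fin d → Fin d → F) pa) := by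
  refine ⟨(-(2 : F)⁻¹) • (Pi.single (.inl ()) 1), ?_⟩
  rw [map_smul]
  funext k
  rcases k with _ | k | k
  · simp
  · by_cases hk : k = l
    · subst hk
      simp [Pi.single_apply, pa_last hl hd, h2]
    · simp [Pi.single_apply, pa_ne_last hl hk, hk]
  · simp

theorem single_u_mem (h2 : (2 : F) ≠ 0) {l : Fin d} (hl : (l : ℕ) + 1 = d) (hd : Odd d) :
    (Pi.single (.inl ()) 1 : Unit ⊕ (Fin d ⊕ Fin d) → F) ∈ LinearMap.range (NN (pA : Fin d → Fin d → F) pa) := by
  have h1 : (Pi.single (.inl ()) 1 : Unit ⊕ (Fin d ⊕ Fin d) → F) =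
      NN pA pa (fy l) + Pi.single (.inr (.inl l)) 1 := by
    rw [NN_fy]
    funext k
    rcases k with _ | k | k
    · simp [pa_last hl hd]
    · by_cases hk : k = l
      · subst hk
        have h3 : (pA k k : F) = 0 := by
          unfold pA
          simp
        simp [pa_last hl hd, h3, Pi.single_apply]
      · have h3 : (pA k l : F) = 0 := by
          unfold pA
          have h4 : ¬ ((k : ℕ) + 1 = (l : ℕ) ∧ Even (k : ℕ)) := by
            rintro ⟨h, h5⟩
            have h6 : Odd (l : ℕ) := by
              rw [← h]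
              exact h5.add_one
            have : Even d := by
              rw [← hl]
              exact h6.add_one
            exact (Nat.not_even_iff_odd.mpr hd) this
          have h5 : ¬ ((l : ℕ) + 1 = k ∧ Even (l : ℕ)) := by
            rintro ⟨h, -⟩
            have := k.isLt
            omega
          simp [h4, h5]
        simp [h3, pa_ne_last hl hk, hk, Pi.single_apply]
    · simp
  rw [h1]
  exact Submodule.add_mem _ ⟨fy l, rfl⟩ (single_last_mem h2 hl hd)

/-- The rank estimate. -/
theorem rank_est [Fintype F] (h2 : (2 : F) ≠ 0) :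
    finrank F (Unit ⊕ (Fin d ⊕ Fin d) → F) +
      2 * finrank F (LinearMap.range ((NN (pA : Fin d → Fin d → F) pa) ∘ₗ (NN pA pa))) ≤
      2 * finrank F (LinearMap.range (NN (pA : Fin d → Fin d → F) pa)) + 1 := by
  rw [finrank_odd]
  rcases Nat.even_or_odd d with he | ho
  · have h1 : d ≤ finrank F (LinearMap.range (NN (pA : Fin d → Fin d → F) pa)) := by
      have := le_finrank_of_single (F := F) (fun i : Fin d => (Sum.inr (Sum.inl i) : Unit ⊕ (Fin d ⊕ Fin d)))
        (fun a b h => by simpa using h) (LinearMap.range (NN (pA : Fin d → Fin d → F) pa))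
        (fun i => single_x_mem i (by
          rintro ⟨h1, h3⟩
          have : Odd d := by
            rw [← h1]
            exact h3.add_one
          exact (Nat.not_even_iff_odd.mpr this) he))
      simpa using this
    have h3 : LinearMap.range ((NN (pA : Fin d → Fin d → F) pa) ∘ₗ (NN pA pa)) = ⊥ := by
      rw [LinearMap.range_eq_bot]
      ext v k
      have hpa : ∀ j : Fin d, (pa j : F) = 0 := by
        intro j
        unfold pa
        have : ¬ ((j : ℕ) + 1 = d ∧ Even (j : ℕ)) := by
          rintro ⟨h1, h3⟩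
          have : Odd d := by
            rw [← h1]
            exact h3.add_one
          exact (Nat.not_even_iff_odd.mpr this) he
        simp [this]
      rcases k with _ | k | k
      · simp [hpa]
      · simp [hpa]
      · simp
    rw [h3, finrank_bot]
    omega
  · obtain ⟨k, hk⟩ := ho
    let l : Fin d := ⟨2 * k, by omega⟩
    have hl : (l : ℕ) + 1 = d := by
      change 2 * k + 1 = d
      omega
    have hodd : Odd d := ⟨k, hk⟩
    have h1 : d + 1 ≤ finrank F (LinearMap.range (NN (pA : Fin d → Fin d → F) pa)) := by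
      have := le_finrank_of_single (F := F)
        (Sum.elim (fun u : Unit => (Sum.inl u : Unit ⊕ (Fin d ⊕ Fin d))) (fun i : Fin d => (Sum.inr (Sum.inl i) : Unit ⊕ (Fin d ⊕ Fin d))))
        (by
          rintro (a | a) (b | b) h
          · simp
          · simp at h
          · simp at h
          · simpa using h) (LinearMap.range (NN (pA : Fin d → Fin d → F) pa))
        (by
          rintro (u | i)
          · exact single_u_mem h2 hl hodd
          · by_cases h : i = l
            · subst h
              exact single_last_mem h2 hl hodd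
            · exact single_x_mem i (by
                rintro ⟨h1, -⟩
                apply h
                apply Fin.ext
                omega))
      simp at this
      omega
    have h3 : LinearMap.range ((NN (pA : Fin d → Fin d → F) pa) ∘ₗ (NN pA pa)) ≤
        Submodule.span F {(Pi.single (.inr (.inl l)) 1 : Unit ⊕ (Fin d ⊕ Fin d) → F)} := by
      rintro _ ⟨v, rfl⟩
      rw [Submodule.mem_span_singleton]
      refine ⟨-2 * ∑ j, pa j * v (.inr (.inr j)), ?_⟩
      change _ = NN pA pa (NN pA pa v)
      rw [NN_sq]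
      funext k
      rcases k with _ | k | k
      · simp
      · by_cases hk : k = l
        · subst hk
          simp [pa_last hl hodd, Pi.single_apply]
        · simp [pa_ne_last hl hk, hk, Pi.single_apply]
      · simp
    have h4 : finrank F (LinearMap.range ((NN (pA : Fin d → Fin d → F) pa) ∘ₗ (NN pA pa))) ≤ 1 := by
      refine (Submodule.finrank_mono h3).trans ?_
      exact (finrank_span_le_card _).trans (by simp)
    omega

variable [Fintype F] {p : ℕ} [hp : Fact p.Prime] [CharP F p]

/-- The unipotent element `1 + N`. -/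
theorem oz_uni (h2 : (2 : F) ≠ 0) (hp3 : 3 ≤ p) (hd : 1 ≤ d) :
    Oz (polarBilin (oddForm d F)) (1 + NN (pA : Fin d → Fin d → F) pa) p := by
  refine ⟨polar_symm _, oddForm_nondeg d h2, ?_, ?_⟩
  · intro u v
    apply polar_eq_of_preserves (Q := oddForm d F)
    intro w
    exact NN_iso h2 pA_skew pa w
  · haveI : Nontrivial (Unit ⊕ (Fin d ⊕ Fin d) → F) := inferInstance
    haveI : CharP (End F (Unit ⊕ (Fin d ⊕ Fin d) → F)) p :=
      charP_of_injective_algebraMap (algebraMap F _).injective p
    rw [add_pow_char_of_commute p (Commute.one_left _), one_pow]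
    have h3 : NN (pA : Fin d → Fin d → F) pa ^ 3 = 0 := by
      apply LinearMap.ext
      intro v
      simp only [pow_succ, pow_zero, one_mul, Module.End.mul_apply]
      exact NN_cube (F := F) pA pa v
    rw [pow_eq_zero_of_le hp3 h3, add_zero]

theorem uni_ne_one (h2 : (2 : F) ≠ 0) (hd : 1 ≤ d) : (1 + NN (pA : Fin d → Fin d → F) pa) ≠ 1 := by
  intro h
  have h0 : NN (pA : Fin d → Fin d → F) pa = 0 := add_eq_left.mp h
  have h3 := rank_est (F := F) (d := d) h2
  rw [finrank_odd, h0] at h3
  simp at h3
  omega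

/-- All the invariant even-dimensional nondegenerate subspaces are hyperbolic. -/
theorem hy_uni (h2 : (2 : F) ≠ 0) (hp3 : 3 ≤ p) (hd : 1 ≤ d) {W : Submodule F (Unit ⊕ (Fin d ⊕ Fin d) → F)}
    (hW : Nd (fun u v => polarBilin (oddForm d F) u v) W) (hinv : Inv (1 + NN (pA : Fin d → Fin d → F) pa) W)
    (hev : Even (finrank F W)) : Hy (polarBilin (oddForm d F)) W := by
  have hO := oz_uni (p := p) h2 hp3 hd
  refine hy_of_ranks hO.symm hO.nondeg hO.iso (hO.inj (by omega)) ?_ hW hinv hev
  rw [add_sub_cancel_left]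
  exact rank_est h2

end Coord

end Cfsg.Agent.Lib.ElusQ.Uni
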